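import Cfsg.Agent.Spor.M24Elts
import Cfsg.Agent.Spor.M24Simple

/-! A complex representation of `M24` of degree at most 22 is trivial. -/

set_option autoImplicit false

namespace Cfsg.Lib.Mon.Dg

open Cfsg Cfsg.Lib.Spor Cfsg.Lib.Spor.MP Module

/-- The element of `M24` with a given code. -/
noncomputable def mk (c : ℕ) : M24 := if h : isM24 c = true then ⟨_, toPerm_mem_M24 h⟩ else 1

theorem rep_mk {c : ℕ} (h : isM24 c = true) : Rep (mk c).1 c := by
  rw [mk, dif_pos h]; exact rep_of_isM24 h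

theorem mk_eq {c : ℕ} {g : M24} (h : Rep g.1 c) : isM24 c = true ∧ mk c = g :=
  have := h.mem_M24_iff.1 g.2
  ⟨this, Subtype.ext ((rep_mk this).unique h)⟩

/-- Products of weighted lists of codes. -/
def prL (A B : List (ℕ × ℕ)) : List (ℕ × ℕ) :=
  A.flatMap fun a => B.map fun b => (MP.pmul a.1 b.1, (a.2 + b.2) % 6)

/-- The product of several lists. -/
def tot (S : List (List (ℕ × ℕ))) : List (ℕ × ℕ) := S.foldr prL [(pid, 0)]

/-- Every list is a subgroup normalising the product of the later ones. -/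
def chk : List (List (ℕ × ℕ)) → Bool
  | [] => true
  | A :: S => A.all (fun a => isM24 a.1) && (prL A A).isPerm (List.replicate A.length A).flatten &&
    (prL A (tot S)).isPerm (prL (tot S) A) && chk S

/-- The class number of an element of order at most three. -/
def cl (c : ℕ) : ℕ := if ppow c 1 = pid then 0 else if ppow c 2 = pid then (if fixM c = 0 then 2 else 1)
  else if ppow c 3 = pid then (if fixM c = 0 then 4 else 3) else 5

variable {F : Type*} [AddCommGroup F] [Module ℂ F] (ρ : M24 →* End ℂ F) {ζ : ℂ}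

/-- The operator of a weighted list. -/
noncomputable def op (ζ : ℂ) (L : List (ℕ × ℕ)) : End ℂ F :=
  (L.map fun a => ζ ^ a.2 • ρ (mk a.1)).sum

/-- The character values. -/
noncomputable def vl (i : ℕ) : ℂ :=
  LinearMap.trace ℂ F (ρ (mk ([pid, r2A, r2B, r3A, r3B].getD i 0)))

theorem op_prL (h : ζ ^ 6 = 1) {A B : List (ℕ × ℕ)} (hA : ∀ a ∈ A, isM24 a.1 = true)
    (hB : ∀ a ∈ B, isM24 a.1 = true) : (∀ a ∈ prL A B, isM24 a.1 = true) ∧
      op ρ ζ (prL A B) = op ρ ζ A * op ρ ζ B := by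
  have k := fun a ha b hb => mk_eq (g := mk _ * mk _) ((rep_mk (hA a ha)).mul (rep_mk (hB b hb)))
  refine ⟨fun x hx => ?_, ?_⟩
  · obtain ⟨a, ha, hx⟩ := List.mem_flatMap.1 hx
    obtain ⟨b, hb, rfl⟩ := List.mem_map.1 hx
    exact (k a ha b hb).1
  · rw [op, prL, List.map_flatMap, List.flatMap_def, List.sum_flatten, List.map_map, op,
      ← List.sum_map_mul_right]
    refine congrArg _ (List.map_congr_left fun a ha => ?_)
    rw [Function.comp, op, ← List.sum_map_mul_left, List.map_map]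
    refine congrArg _ (List.map_congr_left fun b hb => ?_)
    rw [Function.comp, (k a ha b hb).2, map_mul, smul_mul_smul_comm, ← pow_add,
      ← pow_eq_pow_mod _ h]

theorem op_perm {A B : List (ℕ × ℕ)} (h : A.isPerm B = true) : op ρ ζ A = op ρ ζ B :=
  ((List.isPerm_iff.1 h).map _).sum_eq

theorem chk_spec (h : ζ ^ 6 = 1) : ∀ S, chk S = true → (∀ a ∈ tot S, isM24 a.1 = true) ∧
    op ρ ζ (tot S) * op ρ ζ (tot S) = ((tot S).length : ℂ) • op ρ ζ (tot S)
  | [], _ => by
    have := mk_eq (g := 1) rep_one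
    simp [tot, op, this]
  | A :: S, e => by
    simp only [chk, Bool.and_eq_true, List.all_eq_true] at e
    obtain ⟨⟨⟨e1, e2⟩, e3⟩, e4⟩ := e
    obtain ⟨i1, i2⟩ := chk_spec h S e4
    have h1 := op_perm ρ (ζ := ζ) e2
    have h2 := op_perm ρ (ζ := ζ) e3
    rw [(op_prL ρ h e1 e1).2, op.eq_1 _ _ (List.flatten _), List.map_flatten, List.sum_flatten,
      List.map_replicate, List.map_replicate, List.sum_replicate, ← Nat.cast_smul_eq_nsmul ℂ] at h1
    rw [(op_prL ρ h e1 i1).2, (op_prL ρ h i1 e1).2] at h2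
    refine ⟨(op_prL ρ h e1 i1).1, ?_⟩
    change op ρ ζ (prL A (tot S)) * op ρ ζ (prL A (tot S)) = ((prL A (tot S)).length : ℂ) •
      op ρ ζ (prL A (tot S))
    rw [(op_prL ρ h e1 i1).2, mul_assoc, ← mul_assoc (op ρ ζ (tot S)), ← h2, mul_assoc, i2,
      ← mul_assoc, h1, smul_mul_smul_comm, prL, List.length_flatMap]
    simp [op]

theorem trace_cl {c : ℕ} (h : isM24 c = true) (h5 : cl c < 5) :
    LinearMap.trace ℂ F (ρ (mk c)) = vl ρ (cl c) := by
  have r := rep_mk h
  have k : ∀ {a : ℕ}, InSub M24 a → ∀ k ∈ M24, k * toPerm a * k⁻¹ = (mk c).1 →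
      LinearMap.trace ℂ F (ρ (mk c)) = LinearMap.trace ℂ F (ρ (mk a)) ∧
        (fixM c = 0 ↔ ∀ p, toPerm a p ≠ p) := fun {a} ha k hk e => by
    refine ⟨?_, ⟨fun h0 => (conj_fpf_iff k _).1 (e ▸ r.fpf h0), fun h0 => ?_⟩⟩
    · rw [show mk c = ⟨k, hk⟩ * mk a * ⟨k, hk⟩⁻¹ from Subtype.ext (by
        rw [← e, (mk_eq (g := ⟨_, ha.2⟩) ha.rep).2]; rfl), map_mul, LinearMap.trace_mul_comm,
        ← map_mul, inv_mul_cancel_left]
    · refine Nat.eq_of_testBit_eq fun j => ?_
      rw [Nat.zero_testBit, Bool.eq_false_iff, Ne, testBit_fixM]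
      exact fun hj => (conj_fpf_iff k _).2 h0 (idxPt j) (by rw [e, r.apply_idxPt hj.1, hj.2])
  have o := fun n => r.pow_eq_one_iff n
  have h1 := o 1
  rw [pow_one] at h1
  unfold cl at *
  split_ifs at * with e1 e2 e3 e4 e5
  · rw [show mk c = mk pid from Subtype.ext ((h1.2 e1).trans
      (congrArg Subtype.val (mk_eq (g := 1) rep_one).2).symm)]
    rfl
  · obtain ⟨x, hx, e | e⟩ := M24_order_two (mk c).2 (orderOf_eq_prime ((o 2).2 e2) (mt h1.1 e1))
    exacts [absurd r2A_none ((k inSub_r2A x hx e).2.1 e3 _), (k inSub_r2B x hx e).1]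
  · obtain ⟨x, hx, e | e⟩ := M24_order_two (mk c).2 (orderOf_eq_prime ((o 2).2 e2) (mt h1.1 e1))
    exacts [(k inSub_r2A x hx e).1, absurd ((k inSub_r2B x hx e).2.2 fpf_r2B) e3]
  · obtain ⟨x, hx, e | e⟩ := M24_order_three (mk c).2 (orderOf_eq_prime ((o 3).2 e4) (mt h1.1 e1))
    exacts [absurd r3A_none ((k inSub_r3A x hx e).2.1 e5 _), (k inSub_r3B x hx e).1]
  · obtain ⟨x, hx, e | e⟩ := M24_order_three (mk c).2 (orderOf_eq_prime ((o 3).2 e4) (mt h1.1 e1))
    exacts [(k inSub_r3A x hx e).1, absurd ((k inSub_r3B x hx e).2.2 fpf_r3B) e5]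
  · omega

/-- The class distribution of a product. -/
def dist (S : List (List (ℕ × ℕ))) (D : List (ℕ × ℕ × ℕ)) : Bool := chk S &&
  D.all (fun x => x.2.1 < 5) && ((tot S).map fun a => (cl a.1, a.2)).isPerm
    (D.flatMap fun x => List.replicate x.1 x.2)

/-- The multiplicity of a linear character of a subgroup. -/
theorem avg [FiniteDimensional ℂ F] (h : ζ ^ 6 = 1) {S : List (List (ℕ × ℕ))}
    {D : List (ℕ × ℕ × ℕ)} (e : dist S D = true) (h0 : (D.map (·.1)).sum ≠ 0) : ∃ n : ℕ,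
    (D.map fun x => x.1 * (ζ ^ x.2.2 * vl ρ x.2.1)).sum = (D.map (·.1)).sum * (n : ℂ) := by
  simp only [dist, Bool.and_eq_true, List.all_eq_true, decide_eq_true_eq, List.isPerm_iff] at e
  obtain ⟨⟨e1, e2⟩, e3⟩ := e
  obtain ⟨i1, i2⟩ := chk_spec ρ h S e1
  have l := e3.length_eq
  simp only [List.length_map, List.length_flatMap, List.length_replicate] at l
  rw [← l] at h0 ⊢
  have h1 : ((tot S).length : ℂ) ≠ 0 := Nat.cast_ne_zero.2 h0
  have h2 : IsIdempotentElem (((tot S).length : ℂ)⁻¹ • op ρ ζ (tot S)) := by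
    rw [IsIdempotentElem, smul_mul_smul_comm, i2, smul_smul, inv_mul_cancel_right₀ h1]
  refine ⟨_, ((inv_mul_eq_iff_eq_mul₀ h1).1 (Eq.trans ?_ (LinearMap.IsIdempotentElem.isProj_range _ h2).trace))⟩
  have h3 := (e3.map fun y => ζ ^ y.2 * vl ρ y.1).sum_eq
  rw [List.map_flatMap, List.flatMap_def, List.sum_flatten, List.map_map, List.map_map] at h3
  simp only [Function.comp_def, List.map_replicate, List.sum_replicate, nsmul_eq_mul] at h3
  rw [← h3, map_smul, smul_eq_mul, op, map_list_sum, List.map_map]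
  refine congrArg _ (congrArg _ (List.map_congr_left fun a ha => ?_))
  obtain ⟨x, hx, e⟩ := List.mem_flatMap.1 (e3.subset (List.mem_map_of_mem ha))
  rw [Function.comp, map_smul, trace_cl ρ (i1 a ha) (by
    have := e2 x hx; rwa [← List.eq_of_mem_replicate e] at this), smul_eq_mul]

/-- A group of order two with a weight. -/
def c2 (g w : ℕ) : List (ℕ × ℕ) := [(pid, 0), (g, w)]

/-- A group of order three with a weight. -/
def c3 (g w : ℕ) : List (ℕ × ℕ) := [(pid, 0), (g, w), (MP.pmul g g, 2 * w)]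

/-- The normal subgroup `2^6` of a trio group. -/
def tr (u v : ℕ) : List (List (ℕ × ℕ)) := [c2 220213109803259289183002082616117280 u,
  c2 841384528646309054241536335100872736 0, c2 358662142733855540651195105552730144 0,
  c2 220213234947629620631314865134579847 0, c2 841384846770303916728016152081695818 v,
  c2 358662230552642823612470209458277604 0]

/-- A subgroup `2^4 : 3`. -/
def e4 (u : ℕ) : List (List (ℕ × ℕ)) := [c3 652456651079424196735203620369534177 u,
  c2 358662142733855540651195105552730144 0, c2 651239792037798866857882624233711617 0,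
  c2 220213109803259289183002082616117280 0, c2 984818119391384173581043085065138311 0]

theorem M24_trivial [FiniteDimensional ℂ F] (hd : finrank ℂ F ≤ 22) (g : M24) : ρ g = 1 := by
  obtain ⟨ζ, hζ⟩ : ∃ ζ : ℂ, ζ ^ 2 = ζ - 1 := ⟨⟨1 / 2, √3 / 2⟩, Complex.ext
    (by have := Real.mul_self_sqrt (x := 3) (by norm_num); simp [sq]; linarith) (by simp [sq]; ring)⟩
  have h3 : ζ ^ 3 = -1 := by linear_combination (ζ + 1) * hζ
  have h4 : ζ ^ 4 = -ζ := by linear_combination ζ * h3
  have h6 : ζ ^ 6 = 1 := by linear_combination (ζ ^ 3 - 1) * h3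
  have h0 : vl ρ 0 = finrank ℂ F := by
    rw [vl, List.getD_cons_zero, (mk_eq (g := 1) rep_one).2, map_one, LinearMap.trace_one]
  obtain ⟨m0, a0⟩ := avg ρ h6 (S := tr 0 0) (D := [(1, 0, 0), (21, 1, 0), (42, 2, 0)])
    (by decide +kernel) (by decide)
  obtain ⟨m1, a1⟩ := avg ρ h6 (S := tr 3 0)
    (D := [(1, 0, 0), (13, 1, 0), (8, 1, 3), (18, 2, 0), (24, 2, 3)]) (by decide +kernel) (by decide)
  obtain ⟨m2, a2⟩ := avg ρ h6 (S := tr 3 3)
    (D := [(1, 0, 0), (9, 1, 0), (12, 1, 3), (22, 2, 0), (20, 2, 3)]) (by decide +kernel) (by decide)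
  obtain ⟨k0, b0⟩ := avg ρ h6 (S := c3 420860802337475595628247579880535507 0 :: tr 0 0)
    (D := [(1, 0, 0), (21, 1, 0), (42, 2, 0), (128, 4, 0)]) (by decide +kernel) (by decide)
  obtain ⟨k1, b1⟩ := avg ρ h6 (S := c3 420860802337475595628247579880535507 2 :: tr 0 0)
    (D := [(1, 0, 0), (21, 1, 0), (42, 2, 0), (64, 4, 2), (64, 4, 4)]) (by decide +kernel) (by decide)
  obtain ⟨j0, d0⟩ := avg ρ h6 (S := e4 0) (D := [(1, 0, 0), (9, 1, 0), (6, 2, 0), (32, 3, 0)])
    (by decide +kernel) (by decide)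
  obtain ⟨j1, d1⟩ := avg ρ h6 (S := e4 2)
    (D := [(1, 0, 0), (9, 1, 0), (6, 2, 0), (16, 3, 2), (16, 3, 4)]) (by decide +kernel) (by decide)
  obtain ⟨s, p⟩ := avg ρ h6 (S := [c3 253915980119488021180227413829180593 0,
    c3 236741880060713610125945729412333633 0, c3 237077939913529313915718470018892802 0])
    (D := [(1, 0, 0), (14, 3, 0), (12, 4, 0)]) (by decide +kernel) (by decide)
  simp only [List.map_cons, List.map_nil, List.sum_cons, List.sum_nil, pow_zero, h3, h4, hζ,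
    h0] at a0 a1 a2 b0 b1 d0 d1 p
  push_cast at a0 a1 a2 b0 b1 d0 d1 p
  have q1 : finrank ℂ F = m0 + 21 * m1 + 42 * m2 := by
    exact_mod_cast (by linear_combination (a0 + 21 * a1 + 42 * a2) / 64 :
      (finrank ℂ F : ℂ) = m0 + 21 * m1 + 42 * m2)
  have q2 : m0 = k0 + 2 * k1 := by
    exact_mod_cast (by linear_combination (b0 + 2 * b1 - 3 * a0) / 192 : (m0 : ℂ) = k0 + 2 * k1)
  have q3 : m0 + 3 * m1 = j0 + 2 * j1 := by
    exact_mod_cast (by linear_combination (d0 + 2 * d1) / 48 - (a0 + 3 * a1) / 64 :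
      (m0 + 3 * m1 : ℂ) = j0 + 2 * j1)
  have q4 : 27 * s + 14 * j1 + 12 * k1 = finrank ℂ F + 14 * j0 + 12 * k0 := by
    exact_mod_cast (by linear_combination 14 * (d0 - d1) / 48 + 12 * (b0 - b1) / 192 - p :
      (27 * s + 14 * j1 + 12 * k1 : ℂ) = finrank ℂ F + 14 * j0 + 12 * k0)
  obtain rfl : m2 = 0 := by omega
  obtain rfl : m1 = 0 := by omega
  have e := (mk_eq (g := ⟨_, inSub_r2A.2⟩) inSub_r2A.rep).2
  have e2 : ρ (mk r2A) * ρ (mk r2A) = 1 := by
    rw [← map_mul, ← sq, ← map_one ρ, e]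
    exact congrArg _ (Subtype.ext (orderOf_r2A ▸ pow_orderOf_eq_one _))
  have e3 : IsIdempotentElem ((1 / 2 : ℂ) • (1 - ρ (mk r2A))) := by
    rw [IsIdempotentElem, smul_mul_smul_comm, mul_sub, sub_mul, sub_mul, e2, one_mul, mul_one,
      one_mul]
    module
  have e4 := LinearMap.IsIdempotentElem.eq_zero_of_trace_eq_zero e3 (by
    rw [map_smul, map_sub, LinearMap.trace_one, smul_eq_mul]
    change _ * (_ - vl ρ 1) = 0
    push_cast at a1 a2
    linear_combination (a1 + 3 * a2) / 8)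
  rw [smul_eq_zero, sub_eq_zero, or_iff_right (by norm_num)] at e4
  rcases ρ.toHomUnits.normal_ker.eq_bot_or_eq_top with k | k
  · have := congrArg Subtype.val (e.symm.trans (k.le (Units.ext e4.symm)))
    exact absurd (orderOf_r2A.symm.trans (orderOf_eq_one_iff.2 this)) (by norm_num)
  · exact congrArg Units.val (k.ge (Subgroup.mem_top g))

end Cfsg.Lib.Mon.Dg
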