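import Cfsg.Agent.Mon.DegT
import Cfsg.Agent.Mon.DegM24
import Cfsg.Agent.SporChar.Co1Inv

/-! A complex representation of the Monster amalgam on which `z` acts non-trivially has degree at
least 196883. -/

set_option autoImplicit false

namespace Cfsg.Lib.Mon.Dg

open Cfsg Cfsg.Lib.Spor Cfsg.Lib.Spor.CK Module

theorem exists_conj_2A {σ : M24} (hσ : MP.Rep σ.1 MP.r2A) :
    ∃ b : Co0, b * SporChar.Co.sg (SporChar.Co.gw 5279) * b⁻¹ = permCo0 σ := by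
  have h2 : permCo0 σ * permCo0 σ = 1 := by
    rw [← map_mul, ← sq, show σ ^ 2 = 1 from Subtype.ext ((hσ.pow_eq_one_iff 2).2 (by decide +kernel)),
      map_one]
  rcases SporChar.Co.sq_cases (g := permCo0 σ) (by rw [h2, map_one]) with ⟨_, ⟨c, rfl⟩, e⟩ | e
  · obtain ⟨k, e⟩ := isConj_iff.1 e
    have e1 := SporChar.Co.tr8_conj k (SporChar.Co.sg c)
    rw [e, SporChar.Co.tr8_sg, SporChar.Co.tr8_cm, (SporChar.Co.invB_spec SporChar.Co.chkI.2.1 hσ).1,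
      show SporChar.Co.trM (SporChar.Co.pmM MP.r2A) = 256 by decide +kernel] at e1
    exact isConj_iff.1 ((SporChar.Co.isConj_sg (MP.M24_trans_octads ⟨(SporChar.Co.gw _).2, by
      rw [SporChar.Co.gw_coe (by decide +kernel), card_maskSet]; decide +kernel⟩
      ⟨c.2, by omega⟩)).trans (isConj_iff.2 ⟨k, e⟩))
  · obtain ⟨k, e⟩ := isConj_iff.1 e
    rw [← e, conj_mul, conj_eq_one_iff, SporChar.Co.v0_sq] at h2
    exact absurd h2 co0Neg_ne_one

theorem exists_estHom : ∃ k : EstS →* M24, Function.Surjective k ∧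
    ∀ e : EstS, e.1.1.2 = permCo0 (k e) := by
  choose k hk using fun e : EstS => e.2.1
  refine ⟨MonoidHom.mk' k fun a b => permCo0_injective ?_, fun σ => ?_, hk⟩
  · rw [map_mul, ← hk, ← hk, ← hk]; rfl
  · obtain ⟨e, he, h⟩ := exists_Est σ
    exact ⟨⟨e, he⟩, permCo0_injective ((hk _).symm.trans h)⟩

theorem exists_ev {e : GH} (he : e ∈ Est) (h : e.1.2 = 1) : ∃ p, p % 4096 = 0 ∧ e = pq p := by
  obtain ⟨p, hp, rfl⟩ := exists_pq_of_snd h
  exact ⟨p, by have := ((pq_mem_Est hp).1 he).2; omega, rfl⟩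

/-- The pairs `i < j < 24`. -/
def duads : Finset (ℕ × ℕ) := (Finset.range 24 ×ˢ Finset.range 24).filter fun x => x.1 < x.2

theorem mem_duads {x : ℕ × ℕ} : x ∈ duads ↔ x.1 < x.2 ∧ x.2 < 24 := by
  simp only [duads, Finset.mem_filter, Finset.mem_product, Finset.mem_range]; omega

variable {U : Type*} [AddCommGroup U] [Module ℂ U] [FiniteDimensional ℂ U] {ρ : GH →* End ℂ U}

theorem finrank_sh {a : ℕ} (ha : IsSh a) : finrank ℂ (Wt ρ 0 a) = finrank ℂ (Wt ρ 0 pT) := by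
  obtain ⟨x, hx, e⟩ := ha
  obtain ⟨b, rfl⟩ := trans_32 nm_uT hx
  rw [Wt_mod (e.trans (cls_mod _).symm), finrank_Wt_cls, cls_uT]

theorem one_le {S : Submodule ℂ U} {v : U} (h : v ∈ S) (h0 : v ≠ 0) : 1 ≤ finrank ℂ S :=
  Submodule.one_le_finrank_iff.2 fun e => h0 (e.le h)

theorem sum_ev_le {s : Finset ℕ} (hs : ∀ a ∈ s, Ev a) (M : Submodule ℂ U) :
    ∑ a ∈ s, finrank ℂ (Wt ρ 1 a ⊓ M :) ≤ finrank ℂ M :=
  sum_Wt_le s id _ (fun _ _ => inf_le_right) (fun _ _ => inf_le_left)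
    fun a ha b hb => sep_ev (hs a ha) (hs b hb)

theorem card_le {s : Finset ℕ} {M : Submodule ℂ U}
    (hs : ∀ a ∈ s, Ev a ∧ ∃ v ∈ M, v ≠ 0 ∧ v ∈ Wt ρ 1 a) : s.card ≤ finrank ℂ M := by
  refine le_trans ?_ (sum_ev_le (ρ := ρ) (fun a ha => (hs a ha).1) M)
  rw [Finset.card_eq_sum_ones]
  exact Finset.sum_le_sum fun a ha => let ⟨_, h1, h2, h3⟩ := (hs a ha).2; one_le ⟨h3, h1⟩ h2

/-- The fixed space of `τ⁻¹ Q τ`. -/
def Dz (ρ : GH →* End ℂ U) (t : End ℂ U) : Submodule ℂ U := (Wt ρ 0 0).comap t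

namespace Tri

variable {t : End ℂ U} (h : Tri ρ t)
include h

theorem count : finrank ℂ (Wt ρ 0 0) + 196584 * finrank ℂ (Wt ρ 0 pT) ≤ finrank ℂ U := by
  classical
  have z : ∀ a, Wt ρ 0 a ≤ Wt ρ 24 0 := fun a v hv =>
    mem_Wt le_rfl (Wt_z (by norm_num) hv) (by omega)
  obtain ⟨s, s1, s2⟩ : ∃ s : Finset ℕ, s.card = 98280 ∧ ∀ a ∈ s, ∃ x ∈ CK.Min, cls x = a :=
    ⟨_, (Set.ncard_eq_toFinset_card _ (Set.finite_of_ncard_ne_zero (by
      rw [ncard_cls_Min]; norm_num))).symm.trans ncard_cls_Min, fun a ha => by simpa using ha⟩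
  have h0 : 0 ∉ s := fun e => by
    obtain ⟨x, hx, e⟩ := s2 0 e
    have hx' : nm x = 32 := hx
    exact cls_ne_zero (by omega) (by omega) e
  have h1 := sum_Wt_le (ρ := ρ) (insert 0 s) id (Wt ρ 0) (fun a _ => z a) (fun _ _ => le_rfl)
    fun a ha b hb e => sep_zero (by
      have k : ∀ a ∈ insert 0 s, id a % 2 ^ 24 = a := fun a ha => by
        rcases Finset.mem_insert.1 ha with e | e
        · rw [e]; rfl
        · obtain ⟨x, -, e⟩ := s2 a e
          rw [← e, id, cls_mod]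
      rwa [k a ha, k b hb])
  rw [Finset.sum_insert h0, Finset.sum_const_nat (m := finrank ℂ (Wt ρ 0 pT)) fun a ha => by
    obtain ⟨x, hx, e⟩ := s2 a ha
    exact finrank_sh ⟨x, hx, by rw [← e, cls_mod]⟩, s1] at h1
  set S := Wt ρ 24 0 ⊓ LinearMap.ker (ρ (pq pZ1) + 1)
  obtain ⟨E, E1, E2⟩ : ∃ E : Finset (ℕ × ℕ), E.card = 49152 ∧ ∀ x ∈ E, x.1 < 2048 ∧ x.2 < 24 := by
    obtain ⟨E, h3, h4⟩ : ∃ E : Finset ℕ, E.card = 2048 ∧ ∀ d ∈ E, d < 2048 :=
      ⟨_, Finset.card_range _, fun d hd => Finset.mem_range.1 hd⟩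
    exact ⟨E ×ˢ Finset.range 24, by rw [Finset.card_product, h3, Finset.card_range], fun x hx =>
      ⟨h4 _ (Finset.mem_product.1 hx).1, Finset.mem_range.1 (Finset.mem_product.1 hx).2⟩⟩
  have ok : ∀ x ∈ E, (Lb.X (2 * x.1) x.2).ok = true := fun x hx =>
    Lb.ok_X.2 (by have := E2 x hx; omega)
  have h2 := mul_le_of_orbit (ρ := ρ) (x := uT) (M := S) (E.image
    fun x => Fa (2 * x.1) x.2 % 2 ^ 24) fun a ha => by
      obtain ⟨x, hx, e⟩ := Finset.mem_image.1 ha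
      obtain ⟨y, hy, e'⟩ := Lb.isSh (ok x hx)
      obtain ⟨b, e2⟩ := trans_32 nm_uT hy
      refine ⟨le_inf (z a) fun v hv => ?_, b, by rw [e2, ← e]; exact e'⟩
      have h3 : pcomm pZ1 a = 1 := by
        have h4 : ∀ d, pX d % 2 = 0 := fun d => by
          change ((d &&& 4094) ||| (tx d <<< 12)) % 2 ^ 1 = 0
          rw [Nat.or_mod_two_pow, Nat.and_mod_two_pow, Nat.shiftLeft_eq,
            show tx d * 2 ^ 12 % 2 ^ 1 = 0 by omega]
          simp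
        have h5 := (by decide : ∀ i < 24, pC (sy i) % 2 ^ 24 % 2 ^ 1 = 1) _ (E2 x hx).2
        rw [pcomm_congr (p := pZ1) (p' := 2 ^ 12) (q' := a) rfl rfl, pcomm_pow (by norm_num), ← e,
          Fa_eq, pmul_mod]
        change _ / 1 % 2 ^ 1 = 1
        rw [Nat.div_one, Nat.xor_mod_two_pow, h5, Nat.mod_mod_of_dvd _ (by norm_num)]
        exact congrArg (· ^^^ 1) (h4 _)
      rw [LinearMap.mem_ker, LinearMap.add_apply, hv _ (one_dvd _), sc_of' h3]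
      simp
  rw [Finset.card_image_of_injOn fun x hx y hy e => by
    have := Lb.code_inj (ok x hx) (ok y hy) e
    simp only [Lb.X.injEq] at this
    exact Prod.ext (by omega) this.2, E1, cls_uT] at h2
  have k : ∀ v ∈ S, ρ (pq pZ) v = v ∧ ρ (pq pZ1) v = -v ∧ ρ (pq pZ2) v = -v := fun v hv => by
    have e1 := Wt_z le_rfl hv.1
    have e2 : ρ (pq pZ1) v = -v := eq_neg_of_add_eq_zero_left hv.2
    exact ⟨e1, e2, by rw [show pZ2 = pmul pZ1 pZ from rfl, ← pq_mul, ap_mul, e1, e2]⟩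
  have h3 := sum_finrank_le (M := ⊤) Finset.univ ![Wt ρ 24 0, S.map t, S.map (t * t)]
    (fun _ _ => le_top) fun i _ j _ e => ⟨ρ (pq pZ1) * (1 - ρ (pq pZ)), ![0, 2, -2], fun k _ => by
      fin_cases k
      · exact fun v hv => by simp [Wt_z le_rfl hv]
      · rintro _ ⟨v, hv, rfl⟩
        simp [h.np NP_z, h.np NP_z1, k v hv, two_smul]
      · rintro _ ⟨v, hv, rfl⟩
        simp [h.np NP_z, h.np NP_z1, h.np NP_z2, k v hv, two_smul], by
      revert e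
      fin_cases i <;> fin_cases j <;> norm_num⟩
  have h4 := finrank_le_of_map (S := S) (g := t * t) (LinearMap.ext h.t3)
    fun v => Submodule.mem_map_of_mem (f := t)
  have h5 := finrank_le_of_map (S := S) (g := t) (LinearMap.ext h.t3)
    fun v => Submodule.mem_map_of_mem (f := t * t)
  simp only [Fin.sum_univ_three, finrank_top] at h3
  change finrank ℂ (Wt ρ 24 0) + finrank ℂ (S.map t) + finrank ℂ (S.map (t * t)) ≤ _ at h3
  omega

omit [FiniteDimensional ℂ U] in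
theorem est_ell {e : GH} (he : e ∈ Est) {a : ℕ} {v : U} (hv : v ∈ Wt ρ 1 a ⊓ Dz ρ t) :
    ρ e v ∈ Wt ρ 1 (φ e a) ⊓ Dz ρ t :=
  ⟨mapN (Est_N he) hv.1, by
    have := map_Wt (g := e) (fun _ _ => one_dvd _) hv.2
    rwa [φ_zero, h.est he] at this⟩

variable (hn : finrank ℂ U < 196883) (hz : ρ (pq pZ) ≠ 1)
include hn

omit h in
theorem Wt1_zero : Wt ρ 1 0 = Wt ρ 0 0 := le_antisymm ((Wt1_le 0).trans (sup_le le_rfl
  ((Wt_eq_bot hn (by decide) fun e => absurd e.dec_spec.1 (by decide +kernel)).le.trans bot_le)))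
  (Wt_anti (by norm_num) 0)

omit h in
theorem cases_ev {a : ℕ} (ha : Ev a) {v : U} (hv : v ∈ Wt ρ 1 a) (h0 : v ≠ 0) :
    a = 0 ∨ ∃ x ∈ duads, a = eB x.1 x.2 := by
  have := (by decide +kernel : ∀ k < 2048, (¬ ((dec (8192 * k)).ok = true ∧
    (dec (8192 * k)).code % 2 ^ 24 = 8192 * k) ∧ ¬ ((dec (8192 * k ^^^ 4096)).ok = true ∧
    (dec (8192 * k ^^^ 4096)).code % 2 ^ 24 = 8192 * k ^^^ 4096)) ∨
    ∃ j < 24, ∃ i < j, 8192 * k = eB i j) (a / 8192) (by have := ha.1; omega)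
  rw [show 8192 * (a / 8192) = a by have := ha.2; omega] at this
  refine or_iff_not_imp_left.2 fun e => ?_
  obtain ⟨j, hj, i, hi, e⟩ := this.resolve_left fun ⟨e1, e2⟩ => h0 <| by
    have l := Nat.mod_eq_of_lt ha.1
    have l' := Nat.mod_eq_of_lt (Nat.xor_lt_two_pow ha.1 (by norm_num : 4096 < 2 ^ 24))
    have := Wt1_le a hv
    rwa [Wt_eq_bot hn (by rwa [l]) fun s => e1 (l ▸ s.dec_spec), Wt_eq_bot hn (by
      rw [l', Ne, Nat.xor_eq_zero_iff]; rintro rfl; exact absurd ha (by decide))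
      fun s => e2 (l' ▸ s.dec_spec), sup_bot_eq] at this
  exact ⟨(i, j), mem_duads.2 ⟨hi, hj⟩, e⟩

include hz

theorem line : finrank ℂ (Wt ρ 0 pT) = 1 := by
  have := h.count
  refine le_antisymm (by omega) (Nat.pos_of_ne_zero fun e => hz (h.z_eq_one fun v hv => ?_))
  have := le_of_Wt (ρ := ρ) (S := Wt ρ 24 0) (T := Wt ρ 0 0) (j := 0) (by norm_num)
    (fun v => Wt_z le_rfl) (fun p _ v hv => pq_mem_Wt le_rfl hv p) (fun a ha _ v _ hv => by
      by_cases h0 : a = 0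
      · exact h0 ▸ hv
      by_cases h1 : IsSh a
      · exact (Submodule.finrank_eq_zero.1 ((finrank_sh h1).trans e)).le.trans bot_le hv
      · exact (Wt_eq_bot hn (by rwa [Nat.mod_eq_of_lt ha]) h1).le.trans bot_le hv)
    (mem_Wt le_rfl hv (by omega))
  rw [this _ (one_dvd _), sc_zero, one_smul]

theorem ell_T : ∃ v ∈ Wt ρ 1 pT ⊓ Dz ρ t, v ≠ 0 := by
  by_contra! e
  have eT : Ev pT := by decide
  have l := h.line hn hz
  have h2 : finrank ℂ ((Wt ρ 1 pT).map t) ≤ 2 := (Submodule.finrank_map_le _ _).trans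
    ((Submodule.finrank_mono (Wt1_le _)).trans
      ((Submodule.finrank_add_le_finrank_add_finrank _ _).trans
        (by rw [finrank_sh (a := pT ^^^ 4096) (Lb.isSh (l := .C 0 1) rfl), l])))
  have := le_of_ev (ρ := ρ) (S := (Wt ρ 1 pT).map t) (T := ⊥) ?_ ?_ ?_
  · obtain ⟨v, hv, h0⟩ := Submodule.exists_mem_ne_zero_of_ne_bot (p := Wt ρ 0 pT) fun e => by
      rw [e, finrank_bot] at l; omega
    exact h0 (h.inj (this ⟨v, Wt_anti (by norm_num) _ hv, rfl⟩))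
  · rintro _ ⟨v, hv, rfl⟩
    exact h.W0 (Wt_le_W0 eT hv)
  · rintro p hp _ ⟨v, hv, rfl⟩
    obtain ⟨m, hm⟩ := exists_NP (pq_mem_FxS.2 ((pcomm_comm _ _).trans (two_dvd_iff.1 hp)))
    have e1 := mapN (NP_snd hm) hv
    have e2 := (NP_φ hm pT_lt rfl).2
    rw [eT.alp, φ_pq _ pT_lt] at e2
    refine ⟨_, ?_, (h.np hm v).symm⟩
    rcases shl_cases p pT with e3 | e3 <;> rw [e2, e3] at e1
    · exact e1
    · exact Wt_Ω (ρ := ρ) pT ▸ e1
  · rintro a ha _ ⟨v, hv, rfl⟩ hw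
    by_contra h0
    rcases cases_ev hn ha hw h0 with rfl | ⟨x, hx, rfl⟩
    · exact h0 (by rw [e v ⟨hv, (Wt1_zero hn).le hw⟩, map_zero]; rfl)
    by_cases e1 : eB x.1 x.2 = pT
    · rw [e1] at hw
      exact h0 (e _ ⟨hw, (Wt1_zero hn).le (Nat.xor_self pT ▸ h.xyz eT eT hw hv :)⟩)
    obtain ⟨x1, x2⟩ := mem_duads.1 hx
    have r := rep_mk (c := 380993822327221153654879667691921440) (by decide +kernel)
    obtain ⟨g, hg, e2⟩ := exists_Est (Dg.mk 380993822327221153654879667691921440)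
    have k : ∀ {a w}, w ∈ (Wt ρ 1 pT).map t ∧ w ≠ 0 ∧ w ∈ Wt ρ 1 a →
        ρ g w ∈ (Wt ρ 1 pT).map t ∧ ρ g w ≠ 0 ∧ ρ g w ∈ Wt ρ 1 (φ g a) := by
      rintro a _ ⟨⟨w, w1, rfl⟩, w2, w3⟩
      refine ⟨⟨_, ?_, (h.est hg w).symm⟩, fun e => w2 ?_, mapN (Est_N hg) w3⟩
      · have := mapN (Est_N hg) w1
        rwa [show φ g pT = pT from φ_eB hg e2 r (i := 0) (j := 1) (by norm_num) (by norm_num)] at this
      · rw [← one_smul ℂ (t w), ← End.one_apply (R := ℂ) (1 • _), ← map_one ρ, ← inv_mul_cancel g,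
          ap_mul, one_smul, e, map_zero]
    have k0 : t v ∈ (Wt ρ 1 pT).map t ∧ t v ≠ 0 ∧ _ := ⟨⟨v, hv, rfl⟩, h0, hw⟩
    have k1 := k k0
    have k2 := k k1
    have x3 := x1.trans x2
    rw [φ_eB hg e2 r x3 x2] at k1 k2
    rw [φ_eB hg e2 r (r.ap_lt x3) (r.ap_lt x2)] at k2
    have := card_le (ρ := ρ) (s := {_, _, _}) (by
      simp only [Finset.mem_insert, Finset.mem_singleton, forall_eq_or_imp, forall_eq]
      exact ⟨⟨ha, _, k0⟩, ⟨ev_eB (r.ap_lt x3) (r.ap_lt x2), _, k1⟩,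
        ev_eB (r.ap_lt (r.ap_lt x3)) (r.ap_lt (r.ap_lt x2)), _, k2⟩)
    rw [(by decide +kernel : ∀ j < 24, ∀ i < j, eB i j ≠ pT → let c := MP.ap 380993822327221153654879667691921440
      ({eB i j, eB (c i) (c j), eB (c (c i)) (c (c j))} : Finset ℕ).card = 3) _ x2 _ x1 e1] at this
    omega

theorem ell {x : ℕ × ℕ} (hx : x ∈ duads) : (∃ v ∈ Wt ρ 1 (eB x.1 x.2) ⊓ Dz ρ t, v ≠ 0) ∧
    finrank ℂ (Wt ρ 1 (eB x.1 x.2) ⊓ Dz ρ t :) ≤ 1 ∧ ∀ e ∈ Est, φ e (eB x.1 x.2) = eB x.1 x.2 →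
      ∀ v ∈ Wt ρ 1 (eB x.1 x.2) ⊓ Dz ρ t, ρ e v = v := by
  obtain ⟨x1, x2⟩ := mem_duads.1 hx
  obtain ⟨d, hd, e1⟩ := exists_Est_eB x1 x2
  have ev := ev_eB (x1.trans x2) x2
  have h0 : eB x.1 x.2 ≠ 0 := fun e => absurd (φ_inj d pT_lt (by decide)
    (e1.trans (e.trans (φ_zero d).symm))) (by decide)
  have l := h.line hn hz
  have c : ∀ (g : GH) v, ρ g⁻¹ (ρ g v) = v := fun g v => by rw [← ap_mul, inv_mul_cancel, map_one]; rfl
  refine ⟨?_, ?_, fun e he e2 v hv => ?_⟩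
  · obtain ⟨v, hv, h0⟩ := h.ell_T hn hz
    exact ⟨_, e1 ▸ h.est_ell hd hv, fun e => h0 (by rw [← c d v, e, map_zero])⟩
  · refine le_of_le_of_eq ?_ (e1 ▸ (finrank_Wt d pT).trans l)
    refine LinearMap.finrank_le_finrank_of_injective (f := (1 + sc pD (eB x.1 x.2) •
      ρ (pq pD)).restrict fun v hv => (split hv.1).1) ((injective_iff_map_eq_zero _).2 fun v e => ?_)
    exact Subtype.ext (h.eq_zero ev h0 v.2.1 v.2.2 (c := -sc pD (eB x.1 x.2))
      ((eq_neg_of_add_eq_zero_left (congrArg Subtype.val e)).trans (neg_smul _ _).symm))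
  · have e3 := fix_line h.cc l (g := d⁻¹ * e * d) ((mem_FxS_one pT_lt).2 (by
      rw [φ_mul, φ_mul, e1, e2, ← e1, φ_inv_φ d pT_lt]))
      (φ_inv_φ d pT_lt ▸ e1 ▸ map_Wt (g := d⁻¹) (fun _ _ => one_dvd _) (split hv.1).1)
    rw [← ap_mul, mul_inv_cancel_right, ap_mul] at e3
    replace e3 := congrArg (ρ d) e3
    simp only [← ap_mul d, mul_inv_cancel, map_one, End.one_apply, e1] at e3
    have e4 := map_Wt (g := e) (fun _ _ => one_dvd _) (split hv.1).2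
    rw [← pmul_diag _ rfl, φ_pmul, e2, show φ e 4096 = 4096 from φ_Z0 he, pmul_diag _ rfl] at e4
    have e5 := sub_mem (e2 ▸ h.est_ell he hv :) hv
    have e6 := Submodule.smul_mem _ (1 / 2 : ℂ) (sub_mem e4 (split hv.1).2) pD (one_dvd _)
    rw [show (1 / 2 : ℂ) • _ = ρ e v - v by
      rw [map_add] at e3; rw [map_sub]; linear_combination (norm := module) (-1 / 2 : ℂ) • e3] at e6
    exact sub_eq_zero.1 (h.eq_zero ev h0 e5.1 e5.2 (c := sc pD (eB x.1 x.2 ^^^ 4096))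
      (by rw [e6, smul_smul, sc_sq, one_smul]))

theorem exists_move : ∃ e ∈ Est, ∃ v ∈ Wt ρ 1 0 ⊓ Dz ρ t, ρ e v ≠ v := by
  classical
  by_contra! hF
  have r := rep_mk (MP.inSub_r2A.rep.mem_M24_iff.1 MP.inSub_r2A.2)
  obtain ⟨g, hg, e⟩ := exists_Est (Dg.mk MP.r2A)
  obtain ⟨b, hb⟩ := exists_conj_2A r
  obtain ⟨k, rfl⟩ := pr_surj b
  have W : Dz ρ t ≤ Wt ρ 12 0 := fun v hv => h.le_W0 (Wt_anti (by norm_num) _ hv)
  have D : ∀ (g : GH), ∀ v ∈ Wt ρ 0 0, ρ g v ∈ Wt ρ 0 0 := fun g v hv => by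
    have := map_Wt (g := g) (fun _ _ => one_dvd _) hv
    rwa [φ_zero] at this
  have h1 := card_le (ρ := ρ) (M := Dz ρ t ⊓ LinearMap.ker (ρ (pq pXb) + 1))
    (s := (duads.image fun x => eB x.1 x.2).filter fun a => pcomm pXb a = 1) fun a ha => by
      obtain ⟨ha, e⟩ := Finset.mem_filter.1 ha
      obtain ⟨x, hx, rfl⟩ := Finset.mem_image.1 ha
      obtain ⟨v, hv, h0⟩ := (h.ell hn hz hx).1
      refine ⟨ev_eB ((mem_duads.1 hx).1.trans (mem_duads.1 hx).2) (mem_duads.1 hx).2, v,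
        ⟨hv.2, ?_⟩, h0, hv.1⟩
      rw [SetLike.mem_coe, LinearMap.mem_ker, LinearMap.add_apply, hv.1 _ (by decide), sc_of' e]
      simp
  have h2 := finrank_le_of_map (S := Dz ρ t ⊓ LinearMap.ker (ρ (pq pXb) + 1))
    (T := (Dz ρ t).map (ρ g - 1)) (f := t * t * ρ k * t) (g := t * t * ρ k⁻¹ * t)
    (LinearMap.ext fun v => by simp only [End.mul_apply, h.t3, ← ap_mul]; simp [h.t3]) fun v hv => by
      have e1 : ρ (pq pXb) v = -v := eq_neg_of_add_eq_zero_left hv.2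
      obtain ⟨p, -, e2⟩ := mem_QH.1 (show (k * el rYb * k⁻¹)⁻¹ * g ∈ QH by
        rw [mem_QH', map_mul, map_inv, map_mul, map_mul, map_inv, pr_apply (el _), Yb_snd, hb,
          pr_apply g, e, inv_mul_cancel])
      refine ⟨(-1 / 2 : ℂ) • t (t (ρ k (t v))), Submodule.smul_mem _ _ ?_, ?_⟩
      · exact Submodule.mem_comap.2 (by rw [h.t3]; exact D k _ hv.1)
      · have e3 : ρ g (ρ k (t v)) = -ρ k (t v) := by
          rw [inv_mul_eq_iff_eq_mul.1 e2, ap_mul, D k _ hv.1 _ (one_dvd _), sc_zero, one_smul,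
            ← ap_mul, inv_mul_cancel_right, ap_mul, h.np NP_yb, e1, map_neg, map_neg]
        rw [map_smul, LinearMap.sub_apply, h.est hg, h.est hg, e3]
        simp only [map_neg, End.one_apply, End.mul_apply]
        module
  obtain ⟨s, s1, s2, s3⟩ : ∃ s ⊆ duads, s.card = 120 ∧ ∀ x ∈ duads, let c := MP.ap MP.r2A
      eB (c x.1) (c x.2) = eB x.1 x.2 ∨ x ∈ s ∨ ∃ y ∈ s, eB (c x.1) (c x.2) = eB y.1 y.2 :=
    ⟨duads.filter fun x => eB x.1 x.2 < eB (MP.ap MP.r2A x.1) (MP.ap MP.r2A x.2),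
      Finset.filter_subset _ _, by decide +kernel, by decide +kernel⟩
  let Z := fun x : ℕ × ℕ => (Wt ρ 1 (eB x.1 x.2) ⊓ Dz ρ t).map (ρ g - 1)
  have le : ∀ x ∈ s, Z x ≤ s.sup Z := fun x hx => Finset.le_sup hx
  have h3 : Dz ρ t ≤ (s.sup Z).comap (ρ g - 1) :=
    le_of_ev W (fun p hp v hv => by
      obtain ⟨n, hn⟩ := exists_NP' (pq_mem_FxS.2 ((pcomm_comm _ _).trans (two_dvd_iff.1 hp)))
      exact Submodule.mem_comap.2 (h.np hn v ▸ D n _ hv)) fun a ha v hv hw => by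
      by_cases h0 : v = 0
      · exact h0 ▸ zero_mem _
      have o : ρ g v = v → (ρ g - 1) v = 0 := fun e => sub_eq_zero.2 e
      rw [Submodule.mem_comap]
      rcases cases_ev hn ha hw h0 with rfl | ⟨x, hx, rfl⟩
      · exact o (hF g hg v ⟨hw, hv⟩) ▸ zero_mem _
      obtain ⟨x1, x2⟩ := mem_duads.1 hx
      have e1 := φ_eB hg e r (x1.trans x2) x2
      rcases s3 x hx with e2 | e2 | ⟨y, hy, e2⟩
      · exact o ((h.ell hn hz hx).2.2 g hg (e1.trans e2) v ⟨hw, hv⟩) ▸ zero_mem _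
      · exact le x e2 ⟨v, ⟨hw, hv⟩, rfl⟩
      · obtain ⟨p, e3, e4⟩ := exists_ev (EstS.mul_mem hg hg) (by
          rw [mul_snd, e, ← map_mul, ← sq, show Dg.mk MP.r2A ^ 2 = 1 from
            Subtype.ext ((r.pow_eq_one_iff 2).2 (by decide +kernel)), map_one])
        refine le y hy ⟨-ρ g v, neg_mem (e2 ▸ e1 ▸ h.est_ell hg ⟨hw, hv⟩), ?_⟩
        simp [← ap_mul, e4, W0_ap (W hv) e3, neg_add_eq_sub]
  have h4 := (Submodule.finrank_mono (Submodule.map_le_iff_le_comap.2 h3)).trans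
    ((finrank_sup_le _ _).trans (Finset.sum_le_card_nsmul _ _ 1 fun x hx =>
      (Submodule.finrank_map_le _ _).trans (h.ell hn hz (s1 hx)).2.1))
  rw [s2] at h4
  rw [show Finset.card _ = 128 by decide +kernel] at h1
  simp only [smul_eq_mul] at h4
  omega

theorem contra : False := by
  classical
  obtain ⟨e, he, v, hv, hne⟩ := h.exists_move hn hz
  obtain ⟨k, k1, k2⟩ := exists_estHom
  have m : ∀ e : EstS, ∀ v ∈ Wt ρ 1 0 ⊓ Dz ρ t, ρ e v ∈ Wt ρ 1 0 ⊓ Dz ρ t := fun e v hv => by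
    have := h.est_ell e.2 hv
    rwa [φ_zero] at this
  let π : EstS →* End ℂ (Wt ρ 1 0 ⊓ Dz ρ t :) :=
    { toFun := fun e => (ρ e).restrict (m e)
      map_one' := LinearMap.ext fun v => Subtype.ext (by simp)
      map_mul' := fun a b => LinearMap.ext fun v => Subtype.ext (ap_mul _ _ _) }
  let f := k.liftOfSurjective k1 ⟨π.toHomUnits, fun e (h1 : k e = 1) => by
    obtain ⟨p, e1, e2⟩ := exists_ev e.2 (by rw [k2, h1, map_one])
    refine Units.ext (LinearMap.ext fun v => Subtype.ext ?_)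
    change ρ e v = v
    rw [e2, W0_ap (Wt_le_W0 (by decide) v.2.1) e1]⟩
  have h1 : 23 ≤ finrank ℂ (Wt ρ 1 0 ⊓ Dz ρ t :) := not_lt.1 fun c => hne (by
    have := M24_trivial ((Units.coeHom _).comp f) (by omega) (k ⟨e, he⟩)
    rw [MonoidHom.comp_apply, MonoidHom.liftOfRightInverse_comp_apply] at this
    exact congrArg Subtype.val (LinearMap.congr_fun this ⟨v, hv⟩))
  have h2 := sum_ev_le (ρ := ρ) (s := insert 0 (duads.image fun x => eB x.1 x.2))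
    (by decide +kernel) (Dz ρ t)
  rw [Finset.sum_insert (by decide +kernel)] at h2
  have h3 := Finset.card_nsmul_le_sum (duads.image fun x => eB x.1 x.2)
    (fun a => finrank ℂ (Wt ρ 1 a ⊓ Dz ρ t :)) 1 fun a ha => by
      obtain ⟨x, hx, rfl⟩ := Finset.mem_image.1 ha
      obtain ⟨v, hv, h0⟩ := (h.ell hn hz hx).1
      exact one_le hv h0
  rw [show Finset.card _ = 276 by decide +kernel, smul_eq_mul] at h3
  have h4 := finrank_le_of_map (S := Dz ρ t) (T := Wt ρ 0 0) (f := t) (g := t * t)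
    (LinearMap.ext h.t3) fun _ => id
  have h5 := h.count
  rw [h.line hn hz] at h5
  omega

end Tri

/-- The minimal degree. -/
theorem le_finrank {X : Type*} [Group X] (A : Am X) (σ : X →* End ℂ U)
    (hz : σ (A.ι (pq pZ)) ≠ 1) : 196883 ≤ finrank ℂ U :=
  not_lt.1 fun hn => (tri_of A σ).contra hn hz

end Cfsg.Lib.Mon.Dg
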