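import Cfsg.Agent.Mon.B3D

/-! Computations with the reflections in planes. -/

set_option autoImplicit false

namespace Cfsg.Lib.Mon.B3

open Subgroup Matrix Cfsg.Lib.LX.O6

theorem R0_cases {P : ℕ → Prop} (h : ∀ k ∈ R64, P (rn k) ∧ P (ng (rn k))) {r : G8} (hr : r ∈ R0) :
    ∃ a, P a ∧ ok a ∧ r = gl a := by
  have o : ∀ k ∈ R64, ok (ng (rn k)) := by decide +kernel
  obtain ⟨y, e | e⟩ := hr
  · exact ⟨_, (h _ (enc_mem y)).1, rr_ok y, e.trans (rr_def y)⟩
  · exact ⟨_, (h _ (enc_mem y)).2, o _ (enc_mem y), by rw [e, rr_def, gl_ng (rr_ok y)]⟩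

theorem nR {a : ℕ} (h : a ∈ [nX1, nZ1, nX2, nZ2, nI, nJ]) : gl a ∈ R0 := (named_inN.1 a h).1.mem
theorem nO {a : ℕ} (h : a ∈ [nX1, nZ1, nX2, nZ2, nI, nJ]) : ok a := (named_inN.1 a h).2

theorem ext_col {A B : M8} (h : ∀ j, A *ᵥ Pi.single j 1 = B *ᵥ Pi.single j 1) : A = B := by
  ext i j
  simpa using congrFun (h j) i

def FX (a : ℕ) : Prop := (∀ p ∈ [((0 : Fin 8), (4 : Fin 8)), (1, 5), (4, 0), (5, 1)],
    dec a *ᵥ Pi.single p.1 1 = Pi.single p.2 1) → ∃ c ∈ [(1 : ZMod 3), -1], dec a *ᵥ Pi.single 2 1 = Pi.single 6 c ∧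
      dec a *ᵥ Pi.single 3 1 = Pi.single 7 c
instance (a : ℕ) : Decidable (FX a) := by unfold FX; infer_instance

theorem fix6 {g : G8} (hg : g ∈ Nn) (h : ∀ v : V8, v 6 = 0 → v 7 = 0 → g.1 *ᵥ v = v) : g = 1 ∨ g = sp 3 := by
  obtain ⟨a, ha, o, e⟩ := R0_cases (P := FX) (by decide +kernel)
    ((mem_normalizer_iff.1 hg.2 _).1 (nR (a := nX1) (by simp)))
  have k : ∀ j j' : Fin 8, dec nX1 *ᵥ Pi.single j 1 = Pi.single j' 1 → j ≠ 6 → j ≠ 7 →
      dec a *ᵥ Pi.single j 1 = g.1 *ᵥ Pi.single j' 1 := fun j j' h1 h6 h7 => by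
    have e' : dec a * g.1 = g.1 * dec nX1 := by
      rw [← o.val, ← e, ← (nO (a := nX1) (by simp)).val, ← Units.val_mul, inv_mul_cancel_right, Units.val_mul]
    rw [← h1, mulVec_mulVec, ← e', ← mulVec_mulVec, h _ (Pi.single_eq_of_ne h6.symm _) (Pi.single_eq_of_ne h7.symm _)]
  have f : ∀ j : Fin 8, j ≠ 6 → j ≠ 7 → g.1 *ᵥ Pi.single j 1 = Pi.single j 1 := fun j h6 h7 =>
    h _ (Pi.single_eq_of_ne h6.symm _) (Pi.single_eq_of_ne h7.symm _)
  obtain ⟨c, hc, h6, h7⟩ := ha fun p hp => by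
    have := (by decide +kernel : ∀ p ∈ [((0 : Fin 8), (4 : Fin 8)), (1, 5), (4, 0), (5, 1)],
      dec nX1 *ᵥ Pi.single p.1 1 = Pi.single p.2 1 ∧ p.1 ≠ 6 ∧ p.1 ≠ 7 ∧ p.2 ≠ 6 ∧ p.2 ≠ 7) p hp
    rw [k _ _ this.1 this.2.1 this.2.2.1, f _ this.2.2.2.1 this.2.2.2.2]
  rw [k 2 6 (by decide +kernel) (by decide) (by decide)] at h6
  rw [k 3 7 (by decide +kernel) (by decide) (by decide)] at h7
  have w : ∀ A : M8, (∀ j : Fin 8, j ≠ 6 → j ≠ 7 → A *ᵥ Pi.single j 1 = Pi.single j 1) →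
      A *ᵥ Pi.single 6 1 = Pi.single 6 c → A *ᵥ Pi.single 7 1 = Pi.single 7 c → g.1 = A := fun A a1 a6 a7 =>
    ext_col fun j => by
      by_cases e6 : j = 6
      · rw [e6, h6, a6]
      by_cases e7 : j = 7
      · rw [e7, h7, a7]
      rw [f j e6 e7, a1 j e6 e7]
  simp only [List.mem_cons, List.not_mem_nil, or_false] at hc
  rcases hc with rfl | rfl
  · exact Or.inl (Units.ext (w 1 (fun _ _ _ => one_mulVec _) (one_mulVec _) (one_mulVec _)))
  · refine Or.inr (Units.ext ?_)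
    rw [sp, (ns_ok 3).val]
    exact w _ (by decide +kernel) (by decide +kernel) (by decide +kernel)

def rowd (a i v0 v1 v2 v3 v4 v5 v6 v7 : ℕ) : ℕ := ent a i 0 * v0 + ent a i 1 * v1 + ent a i 2 * v2 +
  ent a i 3 * v3 + ent a i 4 * v4 + ent a i 5 * v5 + ent a i 6 * v6 + ent a i 7 * v7

def L28 : List ℕ := [85070916250026219054240312625736187905, 332308266601664922792259462862209280,
  5316932285356383329716588405288075280, 90740926088535892592474040986490904865,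
  96410935867537174565951992091101106465, 181128774602945969849308231958671139090,
  96057858334350579370615358478019465490, 175832611584174516801397705667825115665,
  90761695336706394535195874223662043665, 20769266739673372669932502131937280,
  176144150584191251438079571251589026065, 91073234355210093336550650162022981905,
  93890116574079389482292567932708144721, 205045609695443108083915351090308229412,
  56618478751856540151568025874017430116, 134598087677689511468354948430748079652,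
  214702334906295223506872790192485847686, 141576596772064541747807747433354647828,
  182946149711326648639178202090050819428, 198731717134416479292615770438765815316,
  98561890389102751658771994220003674649, 141244288505390341003731138257822570788,
  218754414280802963448487336140681142692, 97875233482345490537649281000484775268,
  198399408867742278548539161263233738276, 112415201087107745801065865392079147428,
  117732133353894957705715149249399919268, 178958567135091487861403447072023255652]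

theorem L28_inX : ∀ a ∈ L28, inX a := by decide +kernel

theorem cover_aux : ∀ v0 ∈ [0, 1, 2], ∀ v1 ∈ [0, 1, 2], ∀ v2 ∈ [0, 1, 2], ∀ v3 ∈ [0, 1, 2], ∀ v4 ∈ [0, 1, 2],
    ∀ v5 ∈ [0, 1, 2], ∀ v6 ∈ [0, 1, 2], ∀ v7 ∈ [0, 1, 2], L28.any (fun a =>
      (rowd a 6 v0 v1 v2 v3 v4 v5 v6 v7 % 3).beq 0 && (rowd a 7 v0 v1 v2 v3 v4 v5 v6 v7 % 3).beq 0) = true := by
  decide +kernel

theorem cover (v : V8) : ∃ n ∈ X0, (n.1 *ᵥ v) 6 = 0 ∧ (n.1 *ᵥ v) 7 = 0 := by
  have m : ∀ c : ZMod 3, c.val ∈ [0, 1, 2] := by decide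
  obtain ⟨a, ha, h⟩ := List.any_eq_true.1 (cover_aux _ (m (v 0)) _ (m (v 1)) _ (m (v 2)) _ (m (v 3)) _ (m (v 4))
    _ (m (v 5)) _ (m (v 6)) _ (m (v 7)))
  have k : ∀ i : Fin 8, rowd a i (v 0).val (v 1).val (v 2).val (v 3).val (v 4).val (v 5).val (v 6).val
      (v 7).val % 3 = 0 → (dec a *ᵥ v) i = 0 := fun i h => by
    have := (ZMod.natCast_eq_zero_iff _ 3).2 (Nat.dvd_of_mod_eq_zero h)
    simpa [rowd, mulVec, dotProduct, Fin.sum_univ_eight, dec] using this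
  rw [Bool.and_eq_true, Nat.beq_eq, Nat.beq_eq] at h
  exact ⟨_, (L28_inX a ha).mem, by rw [(L28_inX a ha).1.1.val]; exact ⟨k 6 h.1, k 7 h.2⟩⟩

theorem nc {S : Subgroup G8} (hS : ∀ n ∈ X0, ∀ x ∈ S, n * x * n⁻¹ ∈ S) (h : sp 3 ∈ S) : R0 ≤ S := by
  have c : ∀ n a, inX n ∧ ok a → gl a ∈ S → gl (mm (mm n a) (iv n)) ∈ S := fun n a k ha =>
    gl_conj k.1.1.1 k.2 ▸ hS _ k.1.mem _ ha
  have m : ∀ {a b} (d), gl a ∈ S → gl b ∈ S → ok a ∧ ok b ∧ mm a b = d → gl d ∈ S := fun d ha hb k =>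
    k.2.2 ▸ gl_mul k.1 k.2.1 ▸ S.mul_mem ha hb
  have z : gl nZ2 ∈ S := m _ (c nX1 _ (by decide +kernel) h) h (by decide +kernel)
  have e : ∀ n d, (inX n ∧ ok nZ2) ∧ mm (mm n nZ2) (iv n) = d → gl d ∈ S := fun n d k => k.2 ▸ c n _ k.1 z
  refine R0_le' fun a ha => ?_
  simp only [List.mem_cons, List.not_mem_nil, or_false] at ha
  rcases ha with rfl | rfl | rfl | rfl | rfl | rfl
  · exact e 176164919870578462179654277067530572065 _ (by decide +kernel)
  · exact e 85070916248865645840174802364765569280 _ (by decide +kernel)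
  · exact e 182526922921393562123997650534390720549 _ (by decide +kernel)
  · exact z
  · exact m _ (c 93890116574079389482292567932708144721 _ (by decide +kernel) z)
      (c 108031467538067606823853246419117959205 _ (by decide +kernel) z) (by decide +kernel)
  · exact m _ (c 204168035541711703555371170041382995076 _ (by decide +kernel) z)
      (c 90740926080274718218122825807481177220 _ (by decide +kernel) z) (by decide +kernel)

theorem mem_Ga_gl {X : Subgroup G8} {a : ℕ} (h : gl a ∈ X) (o : ok a ∧ mm a (ns 3) = mm (ns 3) a) : gl a ∈ Ga X :=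
  mem_Ga.2 ⟨by rw [sp, gl_mul o.1 (ns_ok 3), gl_mul (ns_ok 3) o.1, o.2], h⟩

theorem sp3_comm : ∃ a ∈ Ga X0, ∃ b ∈ Ga X0, a * b * a⁻¹ * b⁻¹ = sp 3 := by
  have k : ∀ a ∈ [191410453988891070431311943441756323844, 212679399993807410266842573933828505604],
      inX a ∧ ok a ∧ mm a (ns 3) = mm (ns 3) a := by decide +kernel
  have ha := k _ List.mem_cons_self
  have hb := k _ (List.mem_cons_of_mem _ List.mem_cons_self)
  refine ⟨_, mem_Ga_gl ha.1.mem ha.2, _, mem_Ga_gl hb.1.mem hb.2, ?_⟩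
  rw [mul_inv_eq_iff_eq_mul, gl_conj ha.2.1 hb.2.1, sp, gl_mul (ns_ok 3) hb.2.1]
  exact congrArg gl (by decide +kernel)

theorem sp_cj (p : Fin 4) : ∃ r ∈ R0, r * sp 3 * r⁻¹ = sp p := by
  obtain ⟨a, -, h1, h2, h3⟩ := (by decide +kernel : ∀ p : Fin 4, ∃ a ∈ [en, nX1, nX2, mm nX1 nX2], inR a ∧ ok a ∧
    mm (mm a (ns 3)) (iv a) = ns p) p
  exact ⟨_, h1.mem, by rw [sp, gl_conj h2 (ns_ok 3), h3, sp]⟩

theorem sp_conj : ∃ r ∈ R0, r * sp 3 * r⁻¹ = sp 0 := sp_cj 0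

theorem cj_sp {r : G8} (hr : r ∈ R0) : ∃ p, r * sp 3 * r⁻¹ = sp p := by
  obtain ⟨a, ⟨p, h⟩, o, rfl⟩ := R0_cases (P := fun a => ∃ p : Fin 4, mm (mm a (ns 3)) (iv a) = ns p)
    (by decide +kernel) hr
  exact ⟨p, by rw [sp, gl_conj o (ns_ok 3), h, sp]⟩

theorem sp3_not_mem : sp 3 ∉ R0 := fun h => by
  obtain ⟨a, h1, o, e⟩ := R0_cases (P := fun a => dec (ns 3) ≠ dec a) (by decide +kernel) h
  exact gl_ne (ns_ok 3) o h1 e

theorem exists_pm : ∃ σ : Ga Nn →* Equiv.Perm (Fin 4), ∀ g p, g.1 * sp p * g.1⁻¹ = sp (σ g p) := by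
  have h : ∀ (g : Ga Nn) p, ∃ q, g.1 * sp p * g.1⁻¹ = sp q := fun g p => by
    obtain ⟨r, hr, e⟩ := sp_cj p
    obtain ⟨q, hq⟩ := cj_sp ((mem_normalizer_iff.1 (mem_Ga.1 g.2).2.2 _).1 hr)
    refine ⟨q, ?_⟩
    rw [← hq, ← e]
    calc _ = g.1 * r * g.1⁻¹ * (g.1 * sp 3 * g.1⁻¹) * (g.1 * r * g.1⁻¹)⁻¹ := by group
    _ = _ := by rw [(mem_Ga.1 g.2).1, mul_inv_cancel_right]
  choose f hf using h
  let F : Ga Nn →* Function.End (Fin 4) :=
    { toFun := f
      map_one' := funext fun p => sp_inj (by rw [← hf]; simp; rfl)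
      map_mul' := fun a b => funext fun p => sp_inj (by
        change _ = sp (f a (f b p))
        rw [← hf, ← hf, ← hf, coe_mul]; group) }
  exact ⟨MonoidHom.toHomPerm F, hf⟩

theorem off {A : M8} {d : V8} (h : A * diagonal d = diagonal d * A) {i j : Fin 8} (hd : d i ≠ d j) : A i j = 0 := by
  have := congrFun (congrFun h i) j
  rw [mul_diagonal, diagonal_mul, mul_comm] at this
  exact (mul_eq_mul_right_iff.1 this).resolve_left hd.symm

theorem off_Z {A : M8} (h1 : A * dec nZ1 = dec nZ1 * A) (h2 : A * dec nZ2 = dec nZ2 * A) {i j : Fin 8}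
    (h : i.1 / 2 ≠ j.1 / 2) : A i j = 0 := by
  rw [show dec nZ1 = diagonal ![1, 1, 1, 1, -1, -1, -1, -1] by decide +kernel] at h1
  rw [show dec nZ2 = diagonal ![1, 1, -1, -1, 1, 1, -1, -1] by decide +kernel] at h2
  exact ((by decide +kernel : ∀ i j : Fin 8, i.1 / 2 ≠ j.1 / 2 →
    (![1, 1, 1, 1, -1, -1, -1, -1] : V8) i ≠ ![1, 1, 1, 1, -1, -1, -1, -1] j ∨
    (![1, 1, -1, -1, 1, 1, -1, -1] : V8) i ≠ ![1, 1, -1, -1, 1, 1, -1, -1] j) i j h).elim (off h1) (off h2)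

theorem diag_of {A : M8} (h : ∀ a ∈ [nZ1, nZ2, nI, nJ], A * dec a = dec a * A) : A = diagonal A.diag := by
  have h3 : A * diagonal ![1, -1, 1, -1, 1, -1, 1, -1] = diagonal ![1, -1, 1, -1, 1, -1, 1, -1] * A := by
    rw [show diagonal ![1, -1, 1, -1, 1, -1, 1, -1] = dec nI * dec nJ - dec nJ by decide +kernel, mul_sub, sub_mul,
      ← mul_assoc, h nI (by simp), mul_assoc, h nJ (by simp), mul_assoc]
  ext i j
  by_cases e : i = j
  · rw [e, diagonal_apply_eq, diag_apply]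
  rw [diagonal_apply_ne _ e]
  exact ((by decide +kernel : ∀ i j : Fin 8, i ≠ j → i.1 / 2 ≠ j.1 / 2 ∨
    (![1, -1, 1, -1, 1, -1, 1, -1] : V8) i ≠ ![1, -1, 1, -1, 1, -1, 1, -1] j) i j e).elim
    (off_Z (h _ (by simp)) (h _ (by simp))) (off h3)

end Cfsg.Lib.Mon.B3
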