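import Cfsg.Agent.Mon.B3M

/-! Charts for a centraliser `3^{1+8}.2^{1+6}_-.X`: definitions and first properties. -/

set_option autoImplicit false

namespace Cfsg.Lib.Mon.B3

open Subgroup Matrix

/-- Fixed vectors. -/
def Cv (g : G8) : Submodule (ZMod 3) V8 := LinearMap.ker (toLin' (g.1 - 1))
/-- Commutator space. -/
def Iv (g : G8) : Submodule (ZMod 3) V8 := LinearMap.range (toLin' (g.1 - 1))
/-- Second commutator space. -/
def I2 (g : G8) : Submodule (ZMod 3) V8 := LinearMap.range (toLin' ((g.1 - 1) * (g.1 - 1)))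

theorem mem_Cv {g : G8} {v : V8} : v ∈ Cv g ↔ g.1 *ᵥ v = v := by
  rw [Cv, LinearMap.mem_ker, toLin'_apply, sub_mulVec, one_mulVec, sub_eq_zero]

theorem mem_Iv {g : G8} {v : V8} : v ∈ Iv g ↔ ∃ u, g.1 *ᵥ u - u = v := by
  simp only [Iv, LinearMap.mem_range, toLin'_apply, sub_mulVec, one_mulVec]

theorem mem_I2 {g : G8} {v : V8} : v ∈ I2 g ↔ ∃ u w, g.1 *ᵥ w - w = u ∧ g.1 *ᵥ u - u = v := by
  simp only [I2, LinearMap.mem_range, toLin'_apply, ← mulVec_mulVec, sub_mulVec, one_mulVec]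
  exact ⟨fun ⟨w, h⟩ => ⟨_, w, rfl, h⟩, fun ⟨_, w, e, h⟩ => ⟨w, by rw [e]; exact h⟩⟩

/-- The plane with coordinates `2p`, `2p+1`. -/
def Pl (p : Fin 4) : Submodule (ZMod 3) V8 where
  carrier := {v | ∀ i : Fin 8, i.1 / 2 ≠ p.1 → v i = 0}
  zero_mem' _ _ := rfl
  add_mem' ha hb i h := by rw [Pi.add_apply, ha i h, hb i h, add_zero]
  smul_mem' c _ ha i h := by rw [Pi.smul_apply, ha i h, smul_zero]

theorem mem_Pl {p : Fin 4} {v : V8} : v ∈ Pl p ↔ ∀ i : Fin 8, i.1 / 2 ≠ p.1 → v i = 0 := Iff.rfl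

/-- `g` acts on each of the four planes as an element of the quaternion group. -/
def Bd (g : G8) : Prop := g ^ 4 = 1 ∧ ∀ p, (∀ v ∈ Pl p, g.1 *ᵥ v ∈ Pl p) ∧
  ((∀ v ∈ Pl p, g.1 *ᵥ (g.1 *ᵥ v) = v) → (∀ v ∈ Pl p, g.1 *ᵥ v = v) ∨ ∀ v ∈ Pl p, g.1 *ᵥ v = -v)

/-- The centraliser of the reflection `sp 3` in `X`. -/
def Ga (X : Subgroup G8) : Subgroup G8 := centralizer {sp 3} ⊓ X

theorem mem_Ga {X : Subgroup G8} {g : G8} : g ∈ Ga X ↔ g * sp 3 = sp 3 * g ∧ g ∈ X :=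
  and_congr_left' mem_centralizer_singleton_iff

theorem sp3_fix {v : V8} : (sp 3).1 *ᵥ v = v ↔ v 6 = 0 ∧ v 7 = 0 := by
  have t : ∀ x : ZMod 3, -x = x ↔ x = 0 := by decide
  refine ⟨fun h => ⟨(t _).1 ?_, (t _).1 ?_⟩, fun h => funext fun i => ?_⟩
  · have := congrFun h 6; rwa [sp_ap, if_pos (by decide)] at this
  · have := congrFun h 7; rwa [sp_ap, if_pos (by decide)] at this
  · rw [sp_ap]; fin_cases i <;> simp [h]

theorem sp_sq (p : Fin 4) : sp p * sp p = 1 := by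
  rw [sp, gl_mul (ns_ok p) (ns_ok p), (by decide +kernel : ∀ p, mm (ns p) (ns p) = en), gl_en]

theorem sp_comm (p q : Fin 4) : sp p * sp q = sp q * sp p := by
  rw [sp, sp, gl_mul (ns_ok p) (ns_ok q), gl_mul (ns_ok q) (ns_ok p),
    (by decide +kernel : ∀ p q, mm (ns p) (ns q) = mm (ns q) (ns p))]

theorem sp_inj {p q : Fin 4} (h : sp p = sp q) : p = q := by
  by_contra n
  exact gl_ne (ns_ok p) (ns_ok q) ((by decide +kernel : ∀ p q, p ≠ q → dec (ns p) ≠ dec (ns q)) p q n) h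

theorem sp_ne_one (p : Fin 4) : sp p ≠ 1 := by
  rw [← gl_en]
  exact gl_ne (ns_ok p) (by decide +kernel) ((by decide +kernel : ∀ p, dec (ns p) ≠ dec en) p)

variable {G : Type*} [Group G]

/-- A chart for the centraliser of the element `z` of order three. -/
structure Ch (z : G) where
  Q : Subgroup G
  π : G → V8
  ρ : centralizer ({z} : Set G) →* G8
  z3 : orderOf z = 3
  zQ : z ∈ Q
  le : Q ≤ centralizer {z}
  cube : ∀ x ∈ Q, x ^ 3 = 1
  π_mul : ∀ x ∈ Q, ∀ y ∈ Q, π (x * y) = π x + π y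
  π_surj : ∀ v, ∃ x ∈ Q, π x = v
  π_zero : ∀ x ∈ Q, π x = 0 ↔ x ∈ zpowers z
  comm : ∀ x ∈ Q, ∀ y ∈ Q, x * y * x⁻¹ * y⁻¹ = z ^ (B0 (π x) (π y)).val
  nm : ∀ m ∈ centralizer ({z} : Set G), ∀ x ∈ Q, m * x * m⁻¹ ∈ Q
  ρ_π : ∀ m : centralizer ({z} : Set G), ∀ x ∈ Q, π (m * x * m⁻¹) = (ρ m).1 *ᵥ π x
  ker : ∀ m, ρ m = 1 ↔ m.1 ∈ Q
  mem : ∀ m, ρ m ∈ Nn

namespace Ch

variable {z : G} (C : Ch z)

theorem π_one : C.π 1 = 0 := (C.π_zero 1 C.Q.one_mem).2 (one_mem _)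
theorem π_z : C.π z = 0 := (C.π_zero z C.zQ).2 (mem_zpowers z)

theorem π_inv {x : G} (hx : x ∈ C.Q) : C.π x⁻¹ = -C.π x := by
  rw [eq_neg_iff_add_eq_zero, ← C.π_mul _ (C.Q.inv_mem hx) _ hx, inv_mul_cancel, C.π_one]

theorem π_pow {x : G} (hx : x ∈ C.Q) (n : ℕ) : C.π (x ^ n) = (n : ZMod 3) • C.π x := by
  induction n with
  | zero => rw [pow_zero, C.π_one, Nat.cast_zero, zero_smul]
  | succ n ih => rw [pow_succ, C.π_mul _ (C.Q.pow_mem hx n) _ hx, ih, Nat.cast_succ, add_smul, one_smul]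

include C in
theorem z_cube : z ^ 3 = 1 := C.cube z C.zQ

include C in
theorem z_ne : z ≠ 1 := fun e => by have := C.z3; rw [e, orderOf_one] at this; omega

include C in
theorem zpow_val (a b : ZMod 3) : z ^ (a + b).val = z ^ a.val * z ^ b.val := by
  have := pow_mod_orderOf z (a.val + b.val)
  rw [C.z3] at this
  rw [← pow_add, ZMod.val_add, this]

include C in
theorem zpow_inj {a b : ZMod 3} (h : z ^ a.val = z ^ b.val) : a = b := by
  rw [pow_inj_mod, C.z3, Nat.mod_eq_of_lt a.val_lt, Nat.mod_eq_of_lt b.val_lt] at h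
  exact ZMod.val_injective 3 h

include C in
theorem mem_zp {x : G} : x ∈ zpowers z ↔ ∃ a : ZMod 3, x = z ^ a.val := by
  refine ⟨fun ⟨k, e⟩ => ⟨(k : ZMod 3), ?_⟩, fun ⟨a, e⟩ => e ▸ pow_mem (mem_zpowers z) _⟩
  rw [← e, ← zpow_natCast, ZMod.val_intCast]
  change z ^ k = _
  rw [← zpow_mod_orderOf, C.z3]

theorem π_eq {x y : G} (hx : x ∈ C.Q) (hy : y ∈ C.Q) : C.π x = C.π y ↔ x * y⁻¹ ∈ zpowers z := by
  rw [← C.π_zero _ (C.Q.mul_mem hx (C.Q.inv_mem hy)), C.π_mul _ hx _ (C.Q.inv_mem hy), C.π_inv hy,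
    ← sub_eq_add_neg, sub_eq_zero]

theorem comm_z {x : G} (hx : x ∈ C.Q) : x * z = z * x := mem_centralizer_singleton_iff.1 (C.le hx)

theorem comm_iff {x y : G} (hx : x ∈ C.Q) (hy : y ∈ C.Q) : x * y = y * x ↔ B0 (C.π x) (C.π y) = 0 := by
  rw [← mul_inv_eq_one, _root_.mul_inv_rev, ← mul_assoc, mul_inv_eq_one, mul_inv_eq_iff_eq_mul,
    show x * y = y * x ↔ x * y * x⁻¹ * y⁻¹ = 1 by rw [mul_inv_eq_one, mul_inv_eq_iff_eq_mul],
    C.comm x hx y hy]
  exact ⟨fun h => C.zpow_inj (by rw [h, ZMod.val_zero, pow_zero]), fun h => by rw [h, ZMod.val_zero, pow_zero]⟩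

/-- An element of `C(z)` centralising `Q` lies in `⟨z⟩`. -/
theorem cent {m : G} (h : ∀ x ∈ C.Q, m * x = x * m) : m ∈ zpowers z := by
  have hm : m ∈ centralizer ({z} : Set G) := mem_centralizer_singleton_iff.2 (h z C.zQ)
  have hQ : m ∈ C.Q := (C.ker ⟨m, hm⟩).1 (Units.ext (toLin'.injective (LinearMap.ext fun v => by
    obtain ⟨x, hx, rfl⟩ := C.π_surj v
    rw [toLin'_apply, ← C.ρ_π _ x hx, Units.val_one, toLin'_one, LinearMap.id_apply]
    exact congrArg _ (by rw [coe_inv, h x hx, mul_inv_cancel_right]))))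
  refine (C.π_zero m hQ).1 (eq_zero_of_B0 fun u => ?_)
  obtain ⟨x, hx, rfl⟩ := C.π_surj u
  exact (C.comm_iff hx hQ).1 (h x hx).symm

/-- The image of a subgroup in the module. -/
def img (U : Subgroup G) : Submodule (ZMod 3) V8 where
  carrier := {v | ∃ x ∈ U, x ∈ C.Q ∧ C.π x = v}
  zero_mem' := ⟨1, U.one_mem, C.Q.one_mem, C.π_one⟩
  add_mem' := by
    rintro _ _ ⟨x, hx, hx', rfl⟩ ⟨y, hy, hy', rfl⟩
    exact ⟨x * y, U.mul_mem hx hy, C.Q.mul_mem hx' hy', C.π_mul x hx' y hy'⟩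
  smul_mem' := by
    rintro c _ ⟨x, hx, hx', rfl⟩
    exact ⟨x ^ c.val, U.pow_mem hx _, C.Q.pow_mem hx' _, by rw [C.π_pow hx', ZMod.natCast_zmod_val]⟩

theorem mem_img {U : Subgroup G} {v : V8} : v ∈ C.img U ↔ ∃ x ∈ U, x ∈ C.Q ∧ C.π x = v := Iff.rfl

/-- The preimage of a subspace. -/
def pre (W : Submodule (ZMod 3) V8) : Subgroup G where
  carrier := {x | x ∈ C.Q ∧ C.π x ∈ W}
  one_mem' := ⟨C.Q.one_mem, by rw [C.π_one]; exact W.zero_mem⟩
  mul_mem' {x y} hx hy := ⟨C.Q.mul_mem hx.1 hy.1, by rw [C.π_mul x hx.1 y hy.1]; exact W.add_mem hx.2 hy.2⟩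
  inv_mem' {x} hx := ⟨C.Q.inv_mem hx.1, by rw [C.π_inv hx.1]; exact W.neg_mem hx.2⟩

theorem mem_pre {W : Submodule (ZMod 3) V8} {x : G} : x ∈ C.pre W ↔ x ∈ C.Q ∧ C.π x ∈ W := Iff.rfl

theorem img_pre (W : Submodule (ZMod 3) V8) : C.img (C.pre W) = W := by
  ext v
  refine ⟨by rintro ⟨x, hx, -, rfl⟩; exact hx.2, fun hv => ?_⟩
  obtain ⟨x, hx, rfl⟩ := C.π_surj v
  exact ⟨x, ⟨hx, hv⟩, hx, rfl⟩

theorem card_img {U : Subgroup G} (hU : U ≤ C.Q) :
    Nat.card U = 3 ^ Module.finrank (ZMod 3) (C.img U) * Nat.card ↥(U ⊓ zpowers z) := by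
  let f : U →* Multiplicative (C.img U) := MonoidHom.mk' (fun x => Multiplicative.ofAdd
    ⟨C.π x, x, x.2, hU x.2, rfl⟩) fun x y => by
      rw [← ofAdd_add]; exact congrArg _ (Subtype.ext (C.π_mul x (hU x.2) y (hU y.2)))
  have hs : Function.Surjective f := by
    rintro ⟨_, x, hx, -, rfl⟩; exact ⟨⟨x, hx⟩, rfl⟩
  have hk : f.ker = (U ⊓ zpowers z).subgroupOf U := by
    ext x
    rw [mem_subgroupOf, mem_inf, and_iff_right x.2, ← C.π_zero _ (hU x.2), MonoidHom.mem_ker]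
    exact ⟨fun h => congrArg (fun w => (Multiplicative.toAdd w).1) h, fun h =>
      congrArg Multiplicative.ofAdd (Subtype.ext h)⟩
  rw [card_eq_card_quotient_mul_card_subgroup f.ker,
    Nat.card_congr (QuotientGroup.quotientKerEquivOfSurjective f hs).toEquiv, hk,
    Nat.card_congr (subgroupOfEquivOfLe inf_le_left).toEquiv]
  congr 1
  change Nat.card (C.img U) = _
  rw [Module.natCard_eq_pow_finrank (K := ZMod 3), Nat.card_zmod]

theorem card_of_mem {U : Subgroup G} (hU : U ≤ C.Q) (hz : z ∈ U) :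
    Nat.card U = 3 ^ (Module.finrank (ZMod 3) (C.img U) + 1) := by
  rw [C.card_img hU, inf_eq_right.2 (zpowers_le_of_mem hz), Nat.card_zpowers, C.z3, pow_succ]

theorem card_of_not_mem {U : Subgroup G} (hU : U ≤ C.Q) (hz : z ∉ U) :
    Nat.card U = 3 ^ Module.finrank (ZMod 3) (C.img U) := by
  have : U ⊓ zpowers z = ⊥ := eq_bot_iff.2 fun x ⟨h1, h2⟩ => by
    obtain ⟨a, rfl⟩ := C.mem_zp.1 h2
    have h3 := (by decide : ∀ a : ZMod 3, a = 0 ∨ a = 1 ∨ a = 2) a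
    rcases h3 with rfl | rfl | rfl
    · exact mem_bot.2 (pow_zero z)
    · exact absurd (pow_one z ▸ h1) hz
    · refine absurd ?_ hz
      have := U.mul_mem h1 h1
      rwa [← pow_add, show (2 : ZMod 3).val + (2 : ZMod 3).val = 3 + 1 from rfl, pow_succ, C.z_cube,
        one_mul] at this
  rw [C.card_img hU, this, card_bot, mul_one]

theorem card_pre (W : Submodule (ZMod 3) V8) :
    Nat.card (C.pre W) = 3 ^ (Module.finrank (ZMod 3) W + 1) := by
  rw [C.card_of_mem (U := C.pre W) (fun _ h => h.1) ⟨C.zQ, by rw [C.π_z]; exact W.zero_mem⟩, img_pre]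

/-- Transport along an isomorphism. -/
noncomputable def map {G' : Type*} [Group G'] (e : G ≃* G') {z' : G'} (hz : e z = z') : Ch z' :=
  have k : ∀ m ∈ centralizer ({z'} : Set G'), e.symm m ∈ centralizer ({z} : Set G) := fun m hm => by
    rw [mem_centralizer_singleton_iff] at hm ⊢
    apply e.injective; simpa [hz] using hm
  { Q := C.Q.comap e.symm.toMonoidHom
    π := fun x => C.π (e.symm x)
    ρ := C.ρ.comp ((e.symm.toMonoidHom.comp (centralizer ({z'} : Set G')).subtype).codRestrict _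
      fun m => k m m.2)
    z3 := by rw [← hz, e.orderOf_eq, C.z3]
    zQ := by rw [← hz]; simpa using C.zQ
    le := fun x hx => by
      rw [mem_centralizer_singleton_iff]
      apply e.symm.injective
      simpa [← hz] using C.comm_z hx
    cube := fun x hx => e.symm.injective (by simpa using C.cube _ hx)
    π_mul := fun x hx y hy => by rw [map_mul]; exact C.π_mul _ hx _ hy
    π_surj := fun v => by
      obtain ⟨x, hx, h⟩ := C.π_surj v
      exact ⟨e x, by simpa using hx, by simpa using h⟩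
    π_zero := fun x hx => by
      refine (C.π_zero _ hx).trans ?_
      rw [← hz, ← e.coe_toMonoidHom, ← MonoidHom.map_zpowers, mem_map_equiv]; rfl
    comm := fun x hx y hy => e.symm.injective (by simpa [← hz] using C.comm _ hx _ hy)
    nm := fun m hm x hx => by simpa using C.nm _ (k m hm) _ hx
    ρ_π := fun m x hx => by
      have := C.ρ_π ⟨_, k m m.2⟩ _ hx
      simpa using this
    ker := fun m => C.ker _
    mem := fun m => C.mem _ }

/-- Transport by conjugation. -/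
noncomputable def conj (g : G) : Ch (g * z * g⁻¹) := C.map (MulAut.conj g) rfl

theorem mem_conj {g x : G} : x ∈ (C.conj g).Q ↔ g⁻¹ * x * g ∈ C.Q := by
  simp [conj, map]

/-- Change of coordinates. -/
noncomputable def chg (n : G8) (hn : n ∈ Nn) : Ch z :=
  { C with
    π := fun x => n.1 *ᵥ C.π x
    ρ := (MulAut.conj n).toMonoidHom.comp C.ρ
    π_mul := fun x hx y hy => by rw [C.π_mul x hx y hy, mulVec_add]
    π_surj := fun v => by
      obtain ⟨x, hx, h⟩ := C.π_surj (n⁻¹.1 *ᵥ v)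
      exact ⟨x, hx, by rw [h, mulVec_mulVec, Units.mul_inv, one_mulVec]⟩
    π_zero := fun x hx => by
      rw [← C.π_zero x hx]
      refine ⟨fun h => ?_, fun h => by rw [h, mulVec_zero]⟩
      have := congrArg (n⁻¹.1 *ᵥ ·) h
      simpa only [mulVec_mulVec, Units.inv_mul, one_mulVec, mulVec_zero] using this
    comm := fun x hx y hy => by rw [hn.1, C.comm x hx y hy]
    ρ_π := fun m x hx => by
      rw [C.ρ_π m x hx]
      simp [mulVec_mulVec]
    ker := fun m => by rw [← C.ker]; simp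
    mem := fun m => Nn.mul_mem (Nn.mul_mem hn (C.mem m)) (Nn.inv_mem hn) }

theorem chg_ρ (n : G8) (hn : n ∈ Nn) (m : centralizer ({z} : Set G)) :
    (C.chg n hn).ρ m = n * C.ρ m * n⁻¹ := rfl

end Ch

end Cfsg.Lib.Mon.B3
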