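import Cfsg.Agent.Mon.B3Ea
import Cfsg.Agent.S0110
import Cfsg.Agent.Trans.GenFitting
import Cfsg.Agent.Solv.ElemAb
import Cfsg.Prelude.Def_Local
import Cfsg.Prelude.Def_Transfer

/-! Existence of a chart for a centraliser `3^{1+8}.2^{1+6}_-.X`. -/

set_option autoImplicit false

namespace Cfsg.Lib.Mon.B3

open Cfsg Subgroup Matrix Cfsg.Lib.Trans.ES
open scoped commutatorElement

namespace Ea

instance : Fact (Nat.Prime 3) := ⟨Nat.prime_three⟩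

theorem coord {E : Type*} [Group E] [Finite E] (hE : IsExtraspecial 2 E) (hc : Nat.card E = 2 ^ 7)
    (hm : ∀ A : Subgroup E, IsElementaryAbelian 2 A → Nat.card A ≤ 2 ^ 3) (τ : E →* G8)
    (hτ : Function.Injective τ) : ∃ n : G8, ∀ g, g ∈ R0 ↔ ∃ r, n * τ r * n⁻¹ = g := by
  obtain ⟨t, x1, z1, x2, z2, i, j, h⟩ := exists_EG hE hc hm
  obtain ⟨σ, hσ⟩ : ∃ σ : Representation F3 E V8, ∀ g v, σ g v = (τ g).1 *ᵥ v :=
    ⟨(toLinAlgEquiv' : M8 ≃ₐ[F3] _).toMonoidHom.comp ((Units.coeHom M8).comp τ), fun _ _ => rfl⟩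
  have m : ∀ a b v, σ a (σ b v) = σ (a * b) v := fun a b v => by rw [map_mul]; rfl
  have hU : ∀ v, v ∈ LinearMap.ker (σ t + 1) ↔ σ t v = -v := fun v => eq_neg_iff_add_eq_zero.symm
  obtain ⟨u, hu⟩ : ∃ u, σ t u ≠ u := not_forall.1 fun k => h.t1 (hτ (Units.ext (ext_iff_mulVec.2 fun v => by
    rw [← hσ, k, map_one, Units.val_one, one_mulVec])))
  obtain ⟨θ, hθ, k⟩ := lin h (σ.subrepresentation (LinearMap.ker (σ t + 1)) fun g v hv => (hU _).2 (by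
      rw [m, ← h.tc, ← m, (hU v).1 hv, map_neg])) (fun v => Subtype.ext ((hU _).1 v.2))
    ⟨⟨σ t u - u, (hU _).2 (by rw [map_sub, m, h.t2, map_one, neg_sub]; rfl)⟩,
      fun e => hu (sub_eq_zero.1 (congrArg Subtype.val e))⟩
  obtain ⟨M, hM⟩ : ∃ M : M8, ∀ v, M *ᵥ v = θ v := ⟨LinearMap.toMatrix' (Submodule.subtype _ ∘ₗ θ), fun v => by
    rw [← toLin'_apply, toLin'_toMatrix']; rfl⟩
  obtain ⟨n, rfl⟩ : IsUnit M := mulVec_injective_iff_isUnit.1 fun u v e =>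
    hθ (Subtype.ext (by rwa [← hM, ← hM]))
  have k' : ∀ p ∈ [(nX1, x1), (nZ1, z1), (nX2, x2), (nZ2, z2), (nI, i), (nJ, j)],
      (MulAut.conj n⁻¹).toMonoidHom.comp τ p.2 = gl p.1 ∧ gl p.1 ∈ R0 := fun p hp => by
    have o := named_inN.1 p.1 (List.mem_map_of_mem (f := Prod.fst) hp)
    refine ⟨?_, o.1.mem⟩
    change n⁻¹ * τ p.2 * n⁻¹⁻¹ = _
    rw [inv_inv, mul_assoc, inv_mul_eq_iff_eq_mul]
    refine Units.ext (ext_iff_mulVec.2 fun v => ?_)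
    rw [Units.val_mul, Units.val_mul, ← mulVec_mulVec, ← mulVec_mulVec, hM, hM, o.2.val, k p hp, ← hσ]
    rfl
  simp only [List.forall_mem_cons] at k'
  refine ⟨n⁻¹, fun g => ⟨fun hg => R0_le' (S := ((MulAut.conj n⁻¹).toMonoidHom.comp τ).range) ?_ hg, ?_⟩⟩
  · simp only [List.forall_mem_cons]
    exact ⟨⟨_, k'.1.1⟩, ⟨_, k'.2.1.1⟩, ⟨_, k'.2.2.1.1⟩, ⟨_, k'.2.2.2.1.1⟩, ⟨_, k'.2.2.2.2.1.1⟩,
      ⟨_, k'.2.2.2.2.2.1.1⟩, by simp⟩
  · rintro ⟨r, rfl⟩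
    refine h.gen (R0.comap ((MulAut.conj n⁻¹).toMonoidHom.comp τ)) ?_ r
    simp only [List.forall_mem_cons, mem_comap, k', true_and]
    simp

variable {Γ : Type*} [Group Γ] {Q Z : Subgroup Γ} {π : Γ → V8} {ρ : Γ →* G8}

/-- Coordinates on `Q / Z`. -/
structure Pre (Q Z : Subgroup Γ) (π : Γ → V8) (ρ : Γ →* G8) : Prop where
  mul : ∀ x ∈ Q, ∀ y ∈ Q, π (x * y) = π x + π y
  surj : ∀ v, ∃ x ∈ Q, π x = v
  zero : ∀ x ∈ Q, π x = 0 ↔ x ∈ Z
  act : ∀ m, ∀ x ∈ Q, π (m * x * m⁻¹) = (ρ m).1 *ᵥ π x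

theorem mem_of_eq (h1 : ∀ x ∈ Q, ∀ y ∈ Q, π (x * y) = π x + π y) (h3 : ∀ x ∈ Q, π x = 0 ↔ x ∈ Z)
    {x y : Γ} (hx : x ∈ Q) (hy : y ∈ Q) (e : π y = π x) : ∃ c ∈ Q, c ∈ Z ∧ y = x * c := by
  have hc := Q.mul_mem (Q.inv_mem hx) hy
  have := h1 x hx _ hc
  rw [mul_inv_cancel_left, e, left_eq_add] at this
  exact ⟨_, hc, (h3 _ hc).1 this, (mul_inv_cancel_left x y).symm⟩

theorem exists_rho [hQ : Q.Normal] [hZ : Z.Normal] (h1 : ∀ x ∈ Q, ∀ y ∈ Q, π (x * y) = π x + π y)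
    (h2 : ∀ v, ∃ x ∈ Q, π x = v) (h3 : ∀ x ∈ Q, π x = 0 ↔ x ∈ Z) : ∃ ρ, Pre Q Z π ρ := by
  have h2' := h2
  choose s hs e using h2'
  have cj : ∀ m, ∀ x ∈ Q, ∀ y ∈ Q, π (m * (x * y) * m⁻¹) = π (m * x * m⁻¹) + π (m * y * m⁻¹) :=
    fun m x hx y hy => by rw [← h1 _ (hQ.conj_mem x hx m) _ (hQ.conj_mem y hy m), conj_mul]
  have k : ∀ m, ∀ x ∈ Q, π (m * s (π x) * m⁻¹) = π (m * x * m⁻¹) := fun m x hx => by
    obtain ⟨c, hc, hc', e'⟩ := mem_of_eq h1 h3 hx (hs _) (e _)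
    rw [e', cj m x hx c hc, (h3 _ (hQ.conj_mem c hc m)).2 (hZ.conj_mem c hc' m), add_zero]
  have : ∀ m, ∃ M : M8, ∀ x ∈ Q, π (m * x * m⁻¹) = M *ᵥ π x := fun m =>
    ⟨LinearMap.toMatrix' ((AddMonoidHom.mk' (fun v => π (m * s v * m⁻¹)) fun u v => by
      rw [← cj m _ (hs u) _ (hs v), ← k m _ (Q.mul_mem (hs u) (hs v)), h1 _ (hs u) _ (hs v), e,
        e]).toZModLinearMap 3), fun x hx => by rw [← toLin'_apply, toLin'_toMatrix', ← k m x hx]; rfl⟩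
  choose M hM using this
  refine ⟨(MonoidHom.mk ⟨M, ext_iff_mulVec.2 fun v => ?_⟩ fun a b => ext_iff_mulVec.2 fun v => ?_).toHomUnits,
    h1, h2, h3, hM⟩
  · rw [← e v, ← hM _ _ (hs v), one_mulVec, one_mul, inv_one, mul_one]
  · change M (a * b) *ᵥ v = (M a * M b) *ᵥ v
    rw [← e v, ← mulVec_mulVec, ← hM _ _ (hs v), ← hM _ _ (hs v), ← hM _ _ (hQ.conj_mem _ (hs v) b)]
    congr 1; group

theorem Pre.chg (h : Pre Q Z π ρ) (n : G8) :
    Pre Q Z (fun x => n.1 *ᵥ π x) ((MulAut.conj n).toMonoidHom.comp ρ) where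
  mul x hx y hy := by rw [h.mul x hx y hy, mulVec_add]
  surj v := by
    obtain ⟨x, hx, e⟩ := h.surj (n⁻¹.1 *ᵥ v)
    exact ⟨x, hx, by rw [e, mulVec_mulVec, Units.mul_inv, one_mulVec]⟩
  zero x hx := by
    rw [← h.zero x hx]
    refine ⟨fun e => ?_, fun e => by rw [e, mulVec_zero]⟩
    simpa only [mulVec_mulVec, Units.inv_mul, one_mulVec, mulVec_zero] using congrArg (n⁻¹.1 *ᵥ ·) e
  act m x hx := by rw [h.act m x hx]; simp [mulVec_mulVec]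

theorem Pre.ker [Finite Γ] [hn : Q.Normal] (h : Pre Q Z π ρ) (hC : centralizer (Q : Set Γ) ≤ Q)
    (hQ : IsExtraspecial 3 Q) (hZ : Z ≤ centralizer (Q : Set Γ)) (m : Γ) : ρ m = 1 ↔ m ∈ Q := by
  have i : ∀ x ∈ Q, π x + π x⁻¹ = 0 := fun x hx => by
    rw [← h.mul x hx _ (Q.inv_mem hx), mul_inv_cancel, (h.zero 1 Q.one_mem).2 Z.one_mem]
  refine ⟨fun e => ?_, fun hm => Units.ext (ext_iff_mulVec.2 fun v => ?_)⟩
  · obtain ⟨a, ha, k⟩ := Agent.S0110.sup_centralizer_eq Q hQ m fun x hx => by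
      have hx' := hn.conj_mem x hx m
      have hc := Q.mul_mem hx' (Q.inv_mem hx)
      refine ⟨hc, hZ ((h.zero _ hc).1 ?_)⟩
      rw [h.mul _ hx' _ (Q.inv_mem hx), h.act m x hx, e, Units.val_one, one_mulVec, i x hx]
    simpa using mul_mem ha (hC k)
  · obtain ⟨x, hx, rfl⟩ := h.surj v
    rw [← h.act m x hx, h.mul _ (Q.mul_mem hm hx) _ (Q.inv_mem hm), h.mul m hm x hx, add_right_comm, i m hm,
      zero_add, Units.val_one, one_mulVec]

theorem zv_mod {z : Γ} (h : orderOf z = 3) (a : ℕ) : z ^ (a % 3) = z ^ a := h ▸ pow_mod_orderOf z a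

theorem zv_inj {z : Γ} (h : orderOf z = 3) {a b : F3} (e : z ^ a.val = z ^ b.val) : a = b := by
  rw [pow_inj_mod, h, Nat.mod_eq_of_lt a.val_lt, Nat.mod_eq_of_lt b.val_lt] at e
  exact ZMod.val_injective 3 e

theorem Pre.comm [Finite Γ] [hn : Q.Normal] {z : Γ} (h : Pre Q (zpowers z) π ρ) (z3 : orderOf z = 3)
    (zc : z ∈ center Γ) (hQ : IsExtraspecial 3 Q) (hc : ∀ x ∈ Q, ∀ y ∈ Q, ⁅x, y⁆ ∈ zpowers z)
    (hR : R0 ≤ ρ.range) : ∃ l : F3, l * l = 1 ∧ (∀ m, ρ m ∈ Sp) ∧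
      ∀ x ∈ Q, ∀ y ∈ Q, ⁅x, y⁆ = z ^ (l * B0 (π x) (π y)).val := by
  have c2 := (IsPre.of_isExtraspecial hQ).classTwo
  have ml : ∀ x ∈ Q, ∀ y ∈ Q, ∀ w ∈ Q, ⁅x * y, w⁆ = ⁅x, w⁆ * ⁅y, w⁆ := fun x hx y hy w hw =>
    congrArg Subtype.val (c2.mul_left ⟨x, hx⟩ ⟨y, hy⟩ ⟨w, hw⟩)
  have mr : ∀ x ∈ Q, ∀ y ∈ Q, ∀ w ∈ Q, ⁅x, y * w⁆ = ⁅x, y⁆ * ⁅x, w⁆ := fun x hx y hy w hw =>
    congrArg Subtype.val (c2.mul_right ⟨x, hx⟩ ⟨y, hy⟩ ⟨w, hw⟩)
  have cz : ∀ c ∈ zpowers z, ∀ g, g * c = c * g := fun c hc => mem_center_iff.1 (zpowers_le.2 zc hc)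
  choose s hs e using h.surj
  have : ∀ u v, ∃ b : F3, ⁅s u, s v⁆ = z ^ b.val := fun u v => by
    obtain ⟨k, e'⟩ := (Submonoid.mem_powers_iff _ _).1 (mem_powers_iff_mem_zpowers.2 (hc _ (hs u) _ (hs v)))
    exact ⟨k, by rw [ZMod.val_natCast, zv_mod z3, e']⟩
  choose B hB using this
  have k : ∀ x ∈ Q, ∀ y ∈ Q, ⁅x, y⁆ = z ^ (B (π x) (π y)).val := fun x hx y hy => by
    obtain ⟨c, h1, h2, e1⟩ := mem_of_eq h.mul h.zero hx (hs _) (e _)
    obtain ⟨d, h3, h4, e2⟩ := mem_of_eq h.mul h.zero hy (hs _) (e _)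
    rw [← hB, e1, ml x hx c h1 _ (hs _), commutatorElement_eq_one_iff_mul_comm.2 (cz c h2 _).symm, mul_one,
      e2, mr x hx y hy d h3, commutatorElement_eq_one_iff_mul_comm.2 (cz d h4 _), mul_one]
  have ad : ∀ a b : F3, z ^ (a + b).val = z ^ a.val * z ^ b.val := fun a b => by
    rw [ZMod.val_add, zv_mod z3, pow_add]
  have iv : ∀ m u v, B ((ρ m).1 *ᵥ u) ((ρ m).1 *ᵥ v) = B u v := fun m u v => zv_inj z3 (by
    rw [← hB u v, ← e u, ← e v, ← h.act m _ (hs u), ← h.act m _ (hs v), e, e,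
      ← k _ (hn.conj_mem _ (hs u) m) _ (hn.conj_mem _ (hs v) m), ← conjugate_commutatorElement,
      cz _ (hc _ (hs u) _ (hs v)), mul_inv_cancel_right])
  have f := form B (fun u v w => zv_inj z3 (by
      rw [ad, ← hB u, ← hB v, ← ml _ (hs u) _ (hs v) _ (hs w), k _ (Q.mul_mem (hs u) (hs v)) _ (hs w),
        h.mul _ (hs u) _ (hs v), e, e, e]))
    (fun u v w => zv_inj z3 (by
      rw [ad, ← hB u v, ← hB u w, ← mr _ (hs u) _ (hs v) _ (hs w), k _ (hs u) _ (Q.mul_mem (hs v) (hs w)),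
        h.mul _ (hs v) _ (hs w), e, e, e]))
    (fun u => zv_inj z3 (by rw [← hB, commutatorElement_self, ZMod.val_zero, pow_zero])) fun n hn u v => by
      have o := named_inN.1 n (by revert n; simp)
      obtain ⟨m, hm⟩ := hR o.1.mem
      rw [← o.2.val, ← hm, iv]
  generalize B (Pi.single 0 1) (Pi.single 1 1) = l at f
  have l0 : l ≠ 0 := fun l0 => center_ne_top_of_isExtraspecial hQ (eq_top_iff.2 fun x _ =>
    mem_center_iff.2 fun y => Subtype.ext (commutatorElement_eq_one_iff_mul_comm.1 (by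
      rw [k _ y.2 _ x.2, f, l0, zero_mul, ZMod.val_zero, pow_zero])))
  exact ⟨l, (by decide : ∀ l : F3, l ≠ 0 → l * l = 1) l l0, fun m u v => mul_left_cancel₀ l0 (by
    rw [← f, ← f, iv]), fun x hx y hy => by rw [k x hx y hy, f]⟩

theorem core [Finite Γ] [hn : Q.Normal] {z0 : Γ} (z3 : orderOf z0 = 3) (zc : z0 ∈ center Γ)
    (hC : centralizer (Q : Set Γ) ≤ Q) (hQ : IsExtraspecial 3 Q) (hc : Nat.card Q = 3 ^ 9)
    (h3 : ∀ x ∈ Q, x ^ 3 = 1) {R : Subgroup (Γ ⧸ Q)} [hRn : R.Normal] (hR : IsExtraspecial 2 R)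
    (hRc : Nat.card R = 2 ^ 7) (hm : ∀ A : Subgroup R, IsElementaryAbelian 2 A → Nat.card A ≤ 2 ^ 3) :
    ∃ (z : Γ) (π : Γ → V8) (ρ : Γ →* G8), zpowers z = zpowers z0 ∧ z ∈ Q ∧ Pre Q (zpowers z) π ρ ∧
      (∀ x ∈ Q, ∀ y ∈ Q, ⁅x, y⁆ = z ^ (B0 (π x) (π y)).val) ∧ (∀ m, ρ m = 1 ↔ m ∈ Q) ∧ (∀ m, ρ m ∈ Nn) ∧
      R0 ≤ ρ.range ∧ ∀ m : Γ, (m : Γ ⧸ Q) ∈ R ↔ ρ m ∈ R0 := by
  have hZ : zpowers z0 ≤ centralizer (Q : Set Γ) := (zpowers_le.2 zc).trans (center_le_centralizer _)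
  have zQ : z0 ∈ Q := hC (hZ (mem_zpowers z0))
  have : (zpowers z0).Normal := ⟨fun c hc g => by
    rwa [mem_center_iff.1 (zpowers_le.2 zc hc) g, mul_inv_cancel_right]⟩
  have ce : ∀ x : Q, x ∈ center Q ↔ x.1 ∈ zpowers z0 := fun x => by
    rw [← (IsPre.of_isExtraspecial hQ).zpowers_eq (z := ⟨z0, zQ⟩) (mem_center_iff.2 fun q =>
      Subtype.ext (mem_center_iff.1 zc q)) fun e => by
        rw [show z0 = 1 from congrArg Subtype.val e, orderOf_one] at z3; omega]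
    exact ⟨fun ⟨k, e⟩ => ⟨k, congrArg Subtype.val e⟩, fun ⟨k, e⟩ => ⟨k, Subtype.ext e⟩⟩
  have : Solv.ElemAb 3 (Q ⧸ center Q) := (Solv.ElemAb.quotient_iff _).2 ⟨hQ.1.2.2.le, fun x => by
    rw [show x ^ 3 = 1 from Subtype.ext (h3 x x.2)]; exact one_mem _⟩
  obtain ⟨ε⟩ := Solv.Vec.nonempty_mulEquiv_pi (p := 3) (V := Q ⧸ center Q) (n := 8) (by
    have := card_eq_card_quotient_mul_card_subgroup (center Q)
    rw [hc, hQ.2] at this; omega)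
  obtain ⟨π, hπ⟩ : ∃ π : Γ → V8, ∀ x (hx : x ∈ Q), π x = (ε (⟨x, hx⟩ : Q)).toAdd :=
    ⟨Function.extend Subtype.val (fun x : Q => (ε x).toAdd) 0, fun x hx =>
      Subtype.val_injective.extend_apply _ _ (⟨x, hx⟩ : Q)⟩
  obtain ⟨ρ, h⟩ := exists_rho (Q := Q) (Z := zpowers z0) (π := π) (fun x hx y hy => by
      rw [hπ x hx, hπ y hy, hπ _ (Q.mul_mem hx hy), ← toAdd_mul, ← map_mul]; rfl)
    (fun v => by
      obtain ⟨x, e⟩ := QuotientGroup.mk_surjective (ε.symm (Multiplicative.ofAdd v))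
      exact ⟨x, x.2, by rw [hπ _ x.2, e, ε.apply_symm_apply]; rfl⟩)
    fun x hx => by rw [hπ x hx, toAdd_eq_zero, map_eq_one_iff _ ε.injective, QuotientGroup.eq_one_iff, ce]
  have ker := h.ker hC hQ hZ
  have inj : Function.Injective (QuotientGroup.lift Q ρ fun m => (ker m).2) :=
    (injective_iff_map_eq_one _).2 fun m => QuotientGroup.induction_on m fun m e =>
      (QuotientGroup.eq_one_iff m).2 ((ker m).1 e)
  obtain ⟨n, hn'⟩ := coord hR hRc hm ((QuotientGroup.lift Q ρ fun m => (ker m).2).comp R.subtype)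
    (inj.comp R.subtype_injective)
  have h' := h.chg n
  have kR : ∀ m : Γ, (m : Γ ⧸ Q) ∈ R ↔ (MulAut.conj n).toMonoidHom.comp ρ m ∈ R0 := fun m =>
    ⟨fun hm => (hn' _).2 ⟨⟨_, hm⟩, rfl⟩, fun hm => by
      obtain ⟨r, e⟩ := (hn' _).1 hm
      rw [← inj (a₁ := r) (a₂ := m) ((MulAut.conj n).injective e)]; exact r.2⟩
  have rg : R0 ≤ ((MulAut.conj n).toMonoidHom.comp ρ).range := fun g hg => by
    obtain ⟨⟨r, hr⟩, rfl⟩ := (hn' _).1 hg
    obtain ⟨m, rfl⟩ := QuotientGroup.mk_surjective r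
    exact ⟨m, rfl⟩
  generalize (MulAut.conj n).toMonoidHom.comp ρ = ρ' at h' kR rg
  obtain ⟨l, ll, sp, cm⟩ := h'.comm z3 zc hQ (fun x hx y hy => (ce ⁅⟨x, hx⟩, ⟨y, hy⟩⁆).1
    ((IsPre.of_isExtraspecial hQ).classTwo _ _)) rg
  have pw : ∀ b : F3, (z0 ^ l.val) ^ b.val = z0 ^ (l * b).val := fun b => by
    rw [ZMod.val_mul, zv_mod z3, pow_mul]
  have ez : zpowers (z0 ^ l.val) = zpowers z0 := le_antisymm (zpowers_le.2 (pow_mem (mem_zpowers _) _))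
    (zpowers_le.2 (by
      have := pow_mem (mem_zpowers (z0 ^ l.val)) l.val
      rwa [pw, ll, ZMod.val_one, pow_one] at this))
  refine ⟨z0 ^ l.val, _, ρ', ez, pow_mem zQ _, ez ▸ h', fun x hx y hy => by rw [pw, cm x hx y hy],
    h'.ker hC hQ hZ, fun m => ⟨sp m, mem_norm_R0 fun y _ => ?_⟩, rg, kR⟩
  obtain ⟨a, e⟩ := rg (rr_mem y)
  rw [← e, ← map_inv, ← map_mul, ← map_mul, ← kR]
  exact hRn.conj_mem _ ((kR a).2 (e ▸ rr_mem y)) m

end Ea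

theorem exists_ch {G : Type*} [Group G] [Finite G] (Z : Subgroup G) (hZ : Nat.card Z = 3)
    (hQ : IsExtraspecial 3 (generalizedFittingSubgroup (centralizer (Z : Set G))))
    (hQcard : Nat.card (generalizedFittingSubgroup (centralizer (Z : Set G))) = 3 ^ 9)
    [hQn : (generalizedFittingSubgroup (centralizer (Z : Set G))).Normal]
    (hexp : ∀ x ∈ generalizedFittingSubgroup (centralizer (Z : Set G)), x ^ 3 = 1)
    (hR : IsExtraspecial 2 (pCore 2 (centralizer (Z : Set G) ⧸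
      generalizedFittingSubgroup (centralizer (Z : Set G)))))
    (hRcard : Nat.card (pCore 2 (centralizer (Z : Set G) ⧸
      generalizedFittingSubgroup (centralizer (Z : Set G)))) = 2 ^ 7)
    (hRminus : ∀ A : Subgroup (pCore 2 (centralizer (Z : Set G) ⧸
      generalizedFittingSubgroup (centralizer (Z : Set G)))), IsElementaryAbelian 2 A → Nat.card A ≤ 2 ^ 3)
    [hRn : (pCore 2 (centralizer (Z : Set G) ⧸ generalizedFittingSubgroup (centralizer (Z : Set G)))).Normal]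
    {T : Type*} [Group T] (e : ((centralizer (Z : Set G) ⧸ generalizedFittingSubgroup (centralizer (Z : Set G))) ⧸
      pCore 2 (centralizer (Z : Set G) ⧸ generalizedFittingSubgroup (centralizer (Z : Set G)))) ≃* T) :
    ∃ z, zpowers z = Z ∧ ∃ (C : Ch z) (f : centralizer ({z} : Set G) →* T), Function.Surjective f ∧
      R0 ≤ C.ρ.range ∧ ∀ m, f m = 1 ↔ C.ρ m ∈ R0 := by
  have mH : ∀ {z : G}, zpowers z = Z → centralizer {z} = centralizer (Z : Set G) := fun e => by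
    rw [← e, zpowers_eq_closure, centralizer_closure]
  have o3 : ∀ {z : G}, zpowers z = Z → orderOf z = 3 := fun e => by rw [← Nat.card_zpowers, e, hZ]
  obtain ⟨z1, h1⟩ : ∃ z, zpowers z = Z := (Z.isCyclic_iff_exists_zpowers_eq_top).1 (isCyclic_of_prime_card hZ)
  obtain ⟨z, π, ρ, ez, zQ, h, cm, ker, mem, rg, kR⟩ := Ea.core (z0 := ⟨z1, (mH h1).le
      (mem_centralizer_singleton_iff.2 rfl)⟩) (by rw [orderOf_mk, o3 h1])
    (mem_center_iff.2 fun g => Subtype.ext (mem_centralizer_singleton_iff.1 ((mH h1).ge g.2)))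
    (Trans.centralizer_genFitting_le _) hQ hQcard hexp hR hRcard hRminus
  have hz : zpowers z.1 = Z := by
    have := congrArg (map (centralizer (Z : Set G)).subtype) ez
    rw [MonoidHom.map_zpowers, MonoidHom.map_zpowers] at this
    exact this.trans h1
  generalize generalizedFittingSubgroup (centralizer (Z : Set G)) = Q at *
  have hH := mH hz
  obtain ⟨p, hp⟩ : ∃ p : G → V8, ∀ x : centralizer (Z : Set G), p x = π x :=
    ⟨Function.extend Subtype.val π 0, fun x => Subtype.val_injective.extend_apply _ _ x⟩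
  have sj : ∀ m, ∃ m', inclusion hH.le m' = m := fun m => ⟨⟨m, hH.ge m.2⟩, rfl⟩
  refine ⟨z, hz,
    { Q := Q.map (centralizer (Z : Set G)).subtype
      π := p
      ρ := ρ.comp (inclusion hH.le)
      z3 := o3 hz
      zQ := ⟨z, zQ, rfl⟩
      le := (map_subtype_le Q).trans hH.ge
      cube := by rintro _ ⟨x, hx, rfl⟩; exact congrArg Subtype.val (hexp x hx)
      π_mul := by
        rintro _ ⟨x, hx, rfl⟩ _ ⟨y, hy, rfl⟩
        exact (hp (x * y)).trans ((h.mul x hx y hy).trans (congrArg₂ _ (hp x) (hp y)).symm)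
      π_surj := fun v => let ⟨x, hx, e⟩ := h.surj v; ⟨x, ⟨x, hx, rfl⟩, (hp x).trans e⟩
      π_zero := by
        rintro _ ⟨x, hx, rfl⟩
        rw [coe_subtype, hp, h.zero x hx]
        exact ⟨fun ⟨k, e⟩ => ⟨k, congrArg Subtype.val e⟩, fun ⟨k, e⟩ => ⟨k, Subtype.ext e⟩⟩
      comm := by
        rintro _ ⟨x, hx, rfl⟩ _ ⟨y, hy, rfl⟩
        rw [coe_subtype, hp, hp]
        exact congrArg Subtype.val (cm x hx y hy)
      nm := by rintro m hm _ ⟨x, hx, rfl⟩; exact ⟨_, hQn.conj_mem x hx ⟨m, hH.le hm⟩, rfl⟩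
      ρ_π := by
        rintro m _ ⟨x, hx, rfl⟩
        rw [coe_subtype, hp]
        exact (hp (inclusion hH.le m * x * (inclusion hH.le m)⁻¹)).trans (h.act _ x hx)
      ker := fun m => (ker _).trans ⟨fun k => ⟨_, k, rfl⟩, fun ⟨x, k, e⟩ =>
        (Subtype.ext e : x = inclusion hH.le m) ▸ k⟩
      mem := fun m => mem _ },
    e.toMonoidHom.comp ((QuotientGroup.mk' _).comp ((QuotientGroup.mk' _).comp (inclusion hH.le))),
    e.surjective.comp ((QuotientGroup.mk'_surjective _).comp ((QuotientGroup.mk'_surjective _).comp sj)),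
    fun g hg => ?_, fun m => (map_eq_one_iff _ e.injective).trans
      ((QuotientGroup.eq_one_iff _).trans (kR _))⟩
  obtain ⟨m, rfl⟩ := rg hg
  obtain ⟨m, rfl⟩ := sj m
  exact ⟨m, rfl⟩

end Cfsg.Lib.Mon.B3
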