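import Cfsg.Agent.Mon.B3D
import Cfsg.Agent.Trans.Extraspecial
import Cfsg.Agent.GHB.Basic
import Mathlib.RepresentationTheory.Basic

/-! The extraspecial group `2^{1+6}_-` and its faithful module over the field with three elements. -/

set_option autoImplicit false

namespace Cfsg.Lib.Mon.B3

open Cfsg Subgroup Matrix Cfsg.Lib.Trans.ES
open scoped commutatorElement

namespace Ea

variable {E : Type*} [Group E]

/-- Generators of the extraspecial group of minus type. -/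
structure EG (t x1 z1 x2 z2 i j : E) : Prop where
  t1 : t ≠ 1
  t2 : t * t = 1
  tc : ∀ g, g * t = t * g
  x1s : x1 * x1 = 1
  z1s : z1 * z1 = 1
  x2s : x2 * x2 = 1
  z2s : z2 * z2 = 1
  is : i * i = t
  js : j * j = t
  xz1 : z1 * x1 = t * (x1 * z1)
  xz2 : z2 * x2 = t * (x2 * z2)
  ij : j * i = t * (i * j)
  c1 : ∀ g ∈ [x2, z2, i, j], g * x1 = x1 * g ∧ g * z1 = z1 * g
  c2 : ∀ g ∈ [i, j], g * x2 = x2 * g ∧ g * z2 = z2 * g
  gen : ∀ S : Subgroup E, (∀ g ∈ [x1, z1, x2, z2, i, j], g ∈ S) → ∀ g, g ∈ S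

instance : Fact (Nat.Prime 2) := ⟨Nat.prime_two⟩

theorem cen2 (h : IsPre 2 E) {t c : E} (ht : t ∈ center E) (t1 : t ≠ 1) (hc : c ∈ center E) :
    c = 1 ∨ c = t := by
  obtain ⟨k, hk, rfl⟩ := h.exists_pow_eq ht t1 hc
  interval_cases k <;> simp

theorem exists_nc [Finite E] (h : IsPre 2 E) (hc : 2 < Nat.card E) : ∃ x y : E, ⁅x, y⁆ ≠ 1 := by
  obtain ⟨t, ht, t1⟩ := h.exists_center_ne_one
  obtain ⟨x, y, e⟩ := h.exists_pair (fun e => hc.ne' (h.card_eq_of_center_eq_top e)) ht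
  exact ⟨x, y, e ▸ t1⟩

theorem inv_pair [Finite E] (h : IsPre 2 E) (hc : 8 < Nat.card E) :
    ∃ x z : E, x * x = 1 ∧ z * z = 1 ∧ ⁅x, z⁆ ≠ 1 := by
  obtain ⟨t, ht, t1⟩ := h.exists_center_ne_one
  have t2 : t * t = 1 := by rw [← sq, h.pow_eq_one_of_mem_center ht]
  have s : ∀ g : E, g * g = 1 ∨ g * g = t := fun g => cen2 h ht t1 (sq g ▸ h.pow_mem_center g)
  obtain ⟨z, y, z2, e⟩ : ∃ z y : E, z * z = 1 ∧ ⁅y, z⁆ ≠ 1 := by
    obtain ⟨a, b, e⟩ := exists_nc h (by omega)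
    have k := h.card_eq_mul e
    obtain ⟨⟨c, hc⟩, d, e'⟩ := exists_nc (h.centralizer_pair e) (by omega)
    obtain ⟨c1, c2⟩ := mem_centralizer_pair.1 hc
    rcases s b with b2 | b2
    · exact ⟨b, a, b2, e⟩
    rcases s c with c3 | c3
    · exact ⟨c, d, c3, fun k => e' (Subtype.ext (commutatorElement_eq_one_iff_mul_comm.2
        (commutatorElement_eq_one_iff_mul_comm.1 k).symm))⟩
    exact ⟨b * c, a, by rw [Commute.mul_mul_mul_comm c2.symm, b2, c3, t2], by
      rwa [h.classTwo.mul_right, commutatorElement_eq_one_iff_mul_comm.2 c1, mul_one]⟩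
  rcases s y with y2 | y2
  · exact ⟨y, z, y2, z2, e⟩
  refine ⟨y * z, z, ?_, z2, by rwa [h.classTwo.mul_left, commutatorElement_self, mul_one]⟩
  have := h.classTwo.mul_pow y z 2
  rw [sq, sq, sq, y2, z2, (cen2 h ht t1 (h.classTwo z y)).resolve_left fun k => e (by
    rw [← commutatorElement_inv, k, inv_one])] at this
  simpa [t2] using this

theorem adj {B : Subgroup E} {g : E} (hB : ∀ b ∈ B, b * b = 1) (g2 : g * g = 1)
    (c : ∀ b ∈ B, g * b = b * g) (n : g ∉ B) :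
    (∀ b ∈ B ⊔ zpowers g, b * b = 1) ∧ Nat.card ↥(B ⊔ zpowers g) = 2 * Nat.card B := by
  have h1 : ∀ b ∈ B, g * b * g⁻¹ ∈ B := fun b hb => by rwa [c b hb, mul_inv_cancel_right]
  refine ⟨fun b hb => ?_, GHB.card_adj h1 (g2 ▸ one_mem _) n⟩
  rcases (GHB.mem_adj h1 (g2 ▸ one_mem _)).1 hb with hb | hb
  · exact hB b hb
  · rw [← mul_inv_cancel_left g b, Commute.mul_mul_mul_comm (c _ hb).symm, g2, hB _ hb, one_mul]

theorem exists_EG [Finite E] (hE : IsExtraspecial 2 E) (hc : Nat.card E = 2 ^ 7)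
    (hm : ∀ A : Subgroup E, IsElementaryAbelian 2 A → Nat.card A ≤ 2 ^ 3) :
    ∃ t x1 z1 x2 z2 i j : E, EG t x1 z1 x2 z2 i j := by
  have h := IsPre.of_isExtraspecial hE
  obtain ⟨t, ht, t1⟩ := h.exists_center_ne_one
  have tc := mem_center_iff.1 ht
  have t2 : t * t = 1 := by rw [← sq, h.pow_eq_one_of_mem_center ht]
  obtain ⟨x1, z1, a1, a2, e1⟩ := inv_pair h (by omega)
  have h1 := h.centralizer_pair e1
  have k1 := h.card_eq_mul e1
  obtain ⟨x2, z2, b1, b2, e2⟩ := inv_pair h1 (by omega)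
  have h2 := h1.centralizer_pair e2
  have k2 := h1.card_eq_mul e2
  obtain ⟨i, j, e3⟩ := exists_nc h2 (by omega)
  have k3 := h2.card_eq_mul e3
  have nc : ∀ {a b : E}, a * b ≠ b * a → b * a = t * (a * b) := fun {a b} e => by
    rw [swap_eq a b, (cen2 h ht t1 (h.classTwo b a)).resolve_left fun k =>
      e (commutatorElement_eq_one_iff_mul_comm.1 k).symm]
  have n1 : x1 * z1 ≠ z1 * x1 := mt commutatorElement_eq_one_iff_mul_comm.2 e1
  have n2 : (x2 : E) * z2 ≠ z2 * x2 := fun k =>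
    e2 (commutatorElement_eq_one_iff_mul_comm.2 (Subtype.ext k))
  have n3 : (i.1 : E) * j.1 ≠ j.1 * i.1 := fun k =>
    e3 (commutatorElement_eq_one_iff_mul_comm.2 (Subtype.ext (Subtype.ext k)))
  have m1 : ∀ g : centralizer ({x1, z1} : Set E), g.1 * x1 = x1 * g ∧ g.1 * z1 = z1 * g := fun g =>
    (mem_centralizer_pair.1 g.2).imp Eq.symm Eq.symm
  have m2 : ∀ g : centralizer {x2, z2}, (g.1 : E) * x2 = x2 * g.1 ∧ (g.1 : E) * z2 = z2 * g.1 := fun g =>
    (mem_centralizer_pair.1 g.2).imp (fun e => congrArg Subtype.val e.symm)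
      fun e => congrArg Subtype.val e.symm
  have sq : ∀ u v : centralizer {x2, z2}, (u.1 : E) * v.1 ≠ v.1 * u.1 → (u.1 : E) * u.1 = t := fun u v n => by
    refine (cen2 h ht t1 (sq (u.1 : E) ▸ h.pow_mem_center _)).resolve_left fun u2 => ?_
    have C : ∀ {a b : E}, a * b = b * a → zpowers a ≤ centralizer {b} := fun e =>
      zpowers_le.2 (mem_centralizer_singleton_iff.2 e)
    have D : ∀ {B : Subgroup E} {b : E}, B ≤ centralizer {b} → ∀ a ∈ B, b * a = a * b := fun e a ha =>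
      (mem_centralizer_singleton_iff.1 (e ha)).symm
    obtain ⟨p0, q0⟩ := adj (B := ⊥) (by simp) t2 (by simp) (by simpa using t1)
    have s0 : ∀ b, ⊥ ⊔ zpowers t ≤ centralizer {b} := fun b => sup_le bot_le (C (tc b).symm)
    obtain ⟨p1, q1⟩ := adj p0 a2 (D (s0 _)) fun k => n1 (D (s0 _) _ k)
    obtain ⟨p2, q2⟩ := adj p1 (congrArg Subtype.val b2) (D (sup_le (s0 _) (C (m1 _).2.symm)))
      fun k => n2 (D (sup_le (s0 _) (C (m1 _).2.symm)) _ k)
    obtain ⟨p3, q3⟩ := adj p2 u2 (D (sup_le (sup_le (s0 _) (C (m1 _).2.symm)) (C (m2 _).2.symm)))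
      fun k => n (D (sup_le (sup_le (s0 _) (C (m1 _).2.symm)) (C (m2 _).2.symm)) _ k).symm
    have := hm _ ⟨⟨⟨fun a b => Subtype.ext (by
      have k := p3 _ (mul_mem a.2 b.2)
      rw [coe_mul, coe_mul, ← inv_eq_of_mul_eq_one_right k, _root_.mul_inv_rev,
        inv_eq_of_mul_eq_one_right (p3 _ a.2), inv_eq_of_mul_eq_one_right (p3 _ b.2)])⟩⟩,
      fun a ha => (_root_.sq a).trans (p3 a ha)⟩
    rw [q3, q2, q1, q0, card_bot] at this
    omega
  refine ⟨t, x1, z1, x2, z2, i.1, j.1, t1, t2, tc, a1, a2, congrArg Subtype.val b1,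
    congrArg Subtype.val b2, sq i j n3, sq j i n3.symm, nc n1, nc n2, nc n3, by simp [m1], by simp [m2],
    fun S hS g => ?_⟩
  simp only [List.forall_mem_cons] at hS
  obtain ⟨s1, s2, s3, s4, s5, s6, -⟩ := hS
  obtain ⟨a, b, -, -, c, hc, rfl⟩ := h.exists_word e1 g
  refine mul_mem (mul_mem (pow_mem s1 _) (pow_mem s2 _)) ?_
  obtain ⟨a, b, -, -, d, hd, e⟩ := h1.exists_word e2 ⟨c, hc⟩
  rw [show c = x2 ^ a * z2 ^ b * d from congrArg Subtype.val e]
  refine mul_mem (mul_mem (pow_mem s3 _) (pow_mem s4 _)) ?_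
  obtain ⟨a, b, -, -, f, hf, e⟩ := h2.exists_word e3 ⟨d, hd⟩
  rw [show (d : E) = i.1 ^ a * j.1 ^ b * f.1 from congrArg (fun x => (x.1 : E)) e]
  refine mul_mem (mul_mem (pow_mem s5 _) (pow_mem s6 _)) ?_
  have := ((h2.centralizer_pair e3).center_eq_top_of_card (by omega)).ge (mem_top ⟨f, hf⟩)
  rw [h2.center_centralizer_pair e3, mem_subgroupOf, h1.center_centralizer_pair e2, mem_subgroupOf,
    h.center_centralizer_pair e1, mem_subgroupOf] at this
  rcases cen2 h ht t1 this with e | e <;> rw [e]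
  exacts [one_mem _, sq i j n3 ▸ mul_mem s5 s5]

variable {V : Type*} [AddCommGroup V] [Module F3 V]

theorem proj {P : V → Prop} {Z X : V →ₗ[F3] V} (hP : ∀ u v, P u → P v → P (u + v)) (pZ : ∀ v, P v → P (Z v))
    (pX : ∀ v, P v → P (X v)) (z2 : ∀ v, Z (Z v) = v) (zx : ∀ v, Z (X v) = -X (Z v))
    (xi : ∀ v, X v = 0 → v = 0) (h : ∃ w, w ≠ 0 ∧ P w) : ∃ w, w ≠ 0 ∧ P w ∧ Z w = w := by
  obtain ⟨w, w0, hw⟩ := h
  by_cases c : w + Z w = 0
  · exact ⟨X w, mt (xi w) w0, pX w hw, by rw [zx, eq_neg_of_add_eq_zero_right c, map_neg, neg_neg]⟩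
  · exact ⟨_, c, hP _ _ hw (pZ w hw), by rw [map_add, z2, add_comm]⟩

theorem mono (f : Fin 8 → V) (M : M8) (π : Fin 8 → Fin 8) (s : Fin 8 → F3)
    (hn : ∀ a, M *ᵥ Pi.single a 1 = s a • Pi.single (π a) 1) (A : V →ₗ[F3] V)
    (hA : ∀ a, A (f a) = s a • f (π a)) (v : V8) :
    Fintype.linearCombination F3 f (M *ᵥ v) = A (Fintype.linearCombination F3 f v) :=
  LinearMap.congr_fun ((Pi.basisFun F3 (Fin 8)).ext (f₁ := Fintype.linearCombination F3 f ∘ₗ toLin' M)
    (f₂ := A ∘ₗ Fintype.linearCombination F3 f) fun a => by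
      simp only [LinearMap.comp_apply, toLin'_apply, Pi.basisFun_apply, hn, map_smul,
        Fintype.linearCombination_apply_single, one_smul, hA]) v

def d1 : V8 := ![1, 1, 1, 1, -1, -1, -1, -1]
def d2 : V8 := ![1, 1, -1, -1, 1, 1, -1, -1]
def d3 : V8 := ![1, -1, 1, -1, 1, -1, 1, -1]

theorem lin {t x1 z1 x2 z2 i j : E} (h : EG t x1 z1 x2 z2 i j) (σ : Representation F3 E V)
    (ht : ∀ v, σ t v = -v) (h0 : ∃ w : V, w ≠ 0) : ∃ θ : V8 →ₗ[F3] V, Function.Injective θ ∧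
      ∀ p ∈ [(nX1, x1), (nZ1, z1), (nX2, x2), (nZ2, z2), (nI, i), (nJ, j)], ∀ v,
        θ (dec p.1 *ᵥ v) = σ p.2 (θ v) := by
  have m : ∀ a b v, σ a (σ b v) = σ (a * b) v := fun a b v => by rw [map_mul]; rfl
  have c : ∀ {a b}, a * b = b * a → ∀ v, σ a (σ b v) = σ b (σ a v) := fun e v => by rw [m, e, m]
  have n : ∀ {a b}, a * b = t * (b * a) → ∀ v, σ a (σ b v) = -σ b (σ a v) := fun e v => by
    rw [m, e, ← m, ht, m]
  have o : ∀ {a}, a * a = 1 → ∀ v, σ a (σ a v) = v := fun e v => by rw [m, e, map_one]; rfl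
  have q : ∀ {a}, a * a = t → ∀ v, σ a (σ a v) = -v := fun e v => by rw [m, e, ht]
  have inj : ∀ a v, σ a v = 0 → v = 0 := fun a v e => by
    have := congrArg (σ a⁻¹) e
    rwa [m, inv_mul_cancel, map_one, map_zero] at this
  have c1 := h.c1
  have c2 := h.c2
  simp only [List.forall_mem_cons] at c1 c2
  obtain ⟨⟨r1, r2⟩, ⟨r3, r4⟩, ⟨r5, r6⟩, ⟨r7, r8⟩, -⟩ := c1
  obtain ⟨⟨r9, r10⟩, ⟨r11, r12⟩, -⟩ := c2
  obtain ⟨Z, hZ⟩ : ∃ Z : V →ₗ[F3] V, ∀ v, Z v = σ i (σ j v) - σ j v := ⟨σ i ∘ₗ σ j - σ j, fun _ => rfl⟩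
  have t3 : ∀ v : V, -v - v = v := fun v => by
    rw [← neg_add', ← two_smul F3, show (2 : F3) = -1 from rfl, neg_one_smul, neg_neg]
  have zi : ∀ v, Z (σ i v) = -σ i (Z v) := fun v => by
    simp only [hZ, n h.ij, map_sub, map_neg, q h.is]; abel
  have zc : ∀ {a}, i * a = a * i → j * a = a * j → ∀ v, Z (σ a v) = σ a (Z v) := fun e e' v => by
    simp only [hZ, c e, c e', map_sub]
  have jz : ∀ v, σ j v = σ i (Z v) + Z v := fun v => by
    rw [hZ, map_sub, q h.is]; exact (t3 _).symm.trans (by abel)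
  have zz : ∀ v, Z (Z v) = v := fun v => by
    simp only [hZ, map_sub, n h.ij, q h.js, q h.is, map_neg, neg_neg]; exact Eq.trans (by abel) (t3 v)
  obtain ⟨w, w0, ⟨⟨-, w1⟩, w2⟩, w3⟩ := proj (P := fun v => (True ∧ σ z1 v = v) ∧ σ z2 v = v)
    (fun u v a b => by simp [a, b]) (fun v a => by simp [← zc r6 r8, ← zc r10 r12, a])
    (fun v a => by simp [← c r6, ← c r10, a]) zz zi (inj i)
    (proj (fun u v a b => by simp [a, b]) (fun v a => by simp [← c r4, a])
      (fun v a => by simp [← c r2, a]) (o h.z2s) (n h.xz2) (inj x2)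
      (proj (fun _ _ _ _ => trivial) (fun _ _ => trivial) (fun _ _ => trivial) (o h.z1s) (n h.xz1)
        (inj x1) (h0.imp fun _ e => ⟨e, trivial⟩)))
  let f : Fin 8 → V := ![w, σ i w, σ x2 w, σ x2 (σ i w), σ x1 w, σ x1 (σ i w), σ x1 (σ x2 w),
    σ x1 (σ x2 (σ i w))]
  have f0 : ∀ a, f a ≠ 0 := fun a e => w0 (by
    fin_cases a <;> first | exact e | exact inj _ _ e | exact inj _ _ (inj _ _ e) |
      exact inj _ _ (inj _ _ (inj _ _ e)))
  have k1 := mono f (dec nX1) ![4, 5, 6, 7, 0, 1, 2, 3] 1 (by decide +kernel) (σ x1) fun a => by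
    fin_cases a <;> simp [f, o h.x1s]
  have k2 := mono f (dec nZ1) id d1 (by decide +kernel) (σ z1) fun a => by
    fin_cases a <;> simp [f, d1, n h.xz1, ← c r2, ← c r6, w1]
  have k3 := mono f (dec nX2) ![2, 3, 0, 1, 6, 7, 4, 5] 1 (by decide +kernel) (σ x2) fun a => by
    fin_cases a <;> simp [f, o h.x2s, c r1]
  have k4 := mono f (dec nZ2) id d2 (by decide +kernel) (σ z2) fun a => by
    fin_cases a <;> simp [f, d2, n h.xz2, c r3, ← c r10, w2]
  have k5 := mono f (dec nI) ![1, 0, 3, 2, 5, 4, 7, 6] d3 (by decide +kernel) (σ i) fun a => by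
    fin_cases a <;> simp [f, d3, q h.is, c r5, c r9]
  have k6 := mono f (diagonal d3) id d3 (by decide +kernel) Z fun a => by
    fin_cases a <;> simp [f, d3, zi, zc r5 r7, zc r9 r11, w3]
  refine ⟨Fintype.linearCombination F3 f, (injective_iff_map_eq_zero _).2 fun v hv => funext fun a => ?_, ?_⟩
  · have cl : ∀ {d : V8} {A : V →ₗ[F3] V}, (∀ v, Fintype.linearCombination F3 f (diagonal d *ᵥ v) =
        A (Fintype.linearCombination F3 f v)) → ∀ v, Fintype.linearCombination F3 f v = 0 →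
          Fintype.linearCombination F3 f ((1 + d a • d) * v) = 0 := fun {d A} k v e => by
      rw [add_mul, one_mul, smul_mul_assoc, map_add, map_smul, show d * v = diagonal d *ᵥ v from
        funext fun i => (mulVec_diagonal d v i).symm, k, e, map_zero, smul_zero, add_zero]
    rw [show dec nZ1 = diagonal d1 by decide +kernel] at k2
    rw [show dec nZ2 = diagonal d2 by decide +kernel] at k4
    have := cl k2 _ (cl k4 _ (cl k6 v hv))
    rw [← mul_assoc, ← mul_assoc, (by decide +kernel : ∀ a, (1 + d1 a • d1) * (1 + d2 a • d2) *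
      (1 + d3 a • d3) = Pi.single a (-1)) a, show Pi.single a (-1) * v = Pi.single a (-v a) by
        rw [← Pi.single_mul_left, neg_one_mul], Fintype.linearCombination_apply_single] at this
    exact neg_eq_zero.1 ((smul_eq_zero.1 this).resolve_right (f0 a))
  · simp only [List.forall_mem_cons]
    refine ⟨k1, k2, k3, k4, k5, fun v => ?_, by simp⟩
    rw [show dec nJ = dec nI * diagonal d3 + diagonal d3 by decide +kernel, add_mulVec, ← mulVec_mulVec,
      map_add, k5, k6, jz]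

theorem add0 {f : V8 → F3} (h : ∀ u v, f (u + v) = f u + f v) (h0 : ∀ a, f (Pi.single a 1) = 0) (v : V8) :
    f v = 0 :=
  LinearMap.congr_fun ((Pi.basisFun F3 (Fin 8)).ext (f₁ := (AddMonoidHom.mk' f h).toZModLinearMap 3)
    (f₂ := 0) fun a => by simpa using h0 a) v

/-- Pairs on which an invariant alternating form vanishing on the first pair vanishes. -/
def Vn (u v : V8) : Prop := (∃ n ∈ [nX1, nZ1, nX2, nZ2], dec n *ᵥ u = u ∧ dec n *ᵥ v = -v) ∨ u = v ∨
  ∃ M ∈ [1, dec nX1], ∃ N ∈ [1, dec nX2], u = M *ᵥ N *ᵥ Pi.single 0 1 ∧ v = M *ᵥ N *ᵥ Pi.single 1 1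

instance (u v : V8) : Decidable (Vn u v) := inferInstanceAs (Decidable (_ ∨ _))

theorem form0 (B : V8 → V8 → F3) (b1 : ∀ u v w, B (u + v) w = B u w + B v w)
    (b2 : ∀ u v w, B u (v + w) = B u v + B u w) (alt : ∀ u, B u u = 0)
    (inv : ∀ n ∈ [nX1, nZ1, nX2, nZ2], ∀ u v, B (dec n *ᵥ u) (dec n *ᵥ v) = B u v)
    (h : B (Pi.single 0 1) (Pi.single 1 1) = 0) (u v : V8) : B u v = 0 := by
  have k : ∀ u v, Vn u v → B u v = 0 := by
    rintro u v (⟨n, hn, e, e'⟩ | rfl | ⟨M, hM, N, hN, rfl, rfl⟩)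
    · have := inv n hn u v
      rw [e, e', show B u (-v) = -B u v from map_neg (AddMonoidHom.mk' (B u) (b2 u)) v] at this
      exact (by decide : ∀ x : F3, -x = x → x = 0) _ this
    · exact alt _
    · simp only [List.mem_cons, List.not_mem_nil, or_false] at hM hN
      rcases hM with rfl | rfl <;> rcases hN with rfl | rfl <;>
        simp only [one_mulVec, inv nX1 (by simp), inv nX2 (by simp), h]
  refine add0 (f := (B · v)) (fun a b => b1 a b v) (fun a => add0 (b2 _) (fun b => ?_) v) u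
  refine ((by decide +kernel : ∀ a b : Fin 8, Vn (Pi.single a 1) (Pi.single b 1) ∨
    Vn (Pi.single b 1) (Pi.single a 1)) a b).elim (k _ _) fun e => ?_
  have := alt (Pi.single a 1 + Pi.single b 1)
  rwa [b1, b2, b2, alt, alt, k _ _ e, zero_add, zero_add, add_zero] at this

theorem form (B : V8 → V8 → F3) (b1 : ∀ u v w, B (u + v) w = B u w + B v w)
    (b2 : ∀ u v w, B u (v + w) = B u v + B u w) (alt : ∀ u, B u u = 0)
    (inv : ∀ n ∈ [nX1, nZ1, nX2, nZ2], ∀ u v, B (dec n *ᵥ u) (dec n *ᵥ v) = B u v) (u v : V8) :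
    B u v = B (Pi.single 0 1) (Pi.single 1 1) * B0 u v :=
  sub_eq_zero.1 (form0 (fun u v => B u v - B (Pi.single 0 1) (Pi.single 1 1) * B0 u v)
    (fun u v w => by rw [b1, B0_add]; ring) (fun u v w => by rw [b2, B0_add']; ring)
    (fun u => by rw [alt, B0_self, mul_zero, sub_zero]) (fun n hn u v => by
      have o := (named_inN.1 n (by revert n; simp)).2
      rw [inv n hn, ← o.val, o.sp]) (by simp [B0]) u v)

end Ea

end Cfsg.Lib.Mon.B3
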