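import Cfsg.Agent.Mon.B3O
import Cfsg.Agent.Mon.B3C
import Cfsg.Agent.Solv.ExtraSub
import Cfsg.Agent.Trans.GenFitting

/-! The centraliser of `z` in `C(s) / ⟨s⟩`. -/

set_option autoImplicit false

namespace Cfsg.Lib.Mon.B3

open Cfsg Subgroup Matrix Module

variable {G : Type*} [Group G] {z : G}

theorem Ch.comm_s (C : Ch z) {s x : G} (hs : s ∈ centralizer ({z} : Set G)) (h2 : s * s = 1)
    (hρ : C.ρ ⟨s, hs⟩ = sp 3) (hx : x ∈ C.Q) : x * s = s * x ↔ C.π x 6 = 0 ∧ C.π x 7 = 0 := by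
  have e : C.π (s * x * s⁻¹) = (sp 3).1 *ᵥ C.π x := hρ ▸ C.ρ_π ⟨s, hs⟩ x hx
  rw [← sp3_fix, ← e]
  refine ⟨fun h => by rw [← h, mul_inv_cancel_right], fun h => ?_⟩
  obtain ⟨a, ha⟩ := C.mem_zp.1 ((C.π_eq (C.nm s hs x hx) hx).1 h)
  have h3 : (z ^ a.val) ^ 3 = 1 := by rw [← pow_mul, mul_comm, pow_mul, C.z_cube, one_pow]
  have h4 : s * z ^ a.val = z ^ a.val * s :=
    ((Commute.pow_right (mem_centralizer_singleton_iff.1 hs) _).eq :)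
  generalize z ^ a.val = c at ha h3 h4
  have h5 : c * c * x = x :=
    calc c * c * x = c * (s * x * s⁻¹) := by rw [mul_assoc, ← ha]; group
      _ = s * (c * x) * s⁻¹ := by rw [← mul_assoc, ← mul_assoc, ← h4]; group
      _ = s * s * x * (s * s)⁻¹ := by rw [← ha]; group
      _ = x := by rw [h2]; group
  rw [pow_three', mul_eq_right.1 h5, one_mul] at h3
  rw [h3, mul_inv_eq_one, mul_inv_eq_iff_eq_mul] at ha
  exact ha.symm

theorem Ch.lift_Ga [Finite G] (C : Ch z) {s : G} (hs : s ∈ centralizer ({z} : Set G)) (h2 : s * s = 1)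
    (hρ : C.ρ ⟨s, hs⟩ = sp 3) {g : G8} (hg : g ∈ Ga C.ρ.range) :
    ∃ m : centralizer ({z} : Set G), m.1 * s = s * m.1 ∧ C.ρ m = g := by
  obtain ⟨h1, m, rfl⟩ := mem_Ga.1 hg
  have h3 : C.ρ (m * ⟨s, hs⟩ * m⁻¹ * ⟨s, hs⟩⁻¹) = 1 := by
    rw [map_mul, map_mul, map_mul, map_inv, map_inv, hρ, h1]; group
  refine ⟨m * ⟨s, hs⟩ * m⁻¹ * ⟨s, hs⟩⁻¹ * m, ?_, by rw [map_mul, h3, one_mul]⟩
  have h4 := C.cube _ ((C.ker _).1 h3)
  have hi : s⁻¹ = s := inv_eq_of_mul_eq_one_right h2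
  simp only [coe_mul, coe_inv, hi] at h4 ⊢
  generalize m.1 = n at h4 ⊢
  calc _ = (n * s * n⁻¹ * s) ^ 3 * (s⁻¹ * (n * s⁻¹ * n⁻¹) * s⁻¹ * n) := by rw [pow_three']; group
    _ = _ := by rw [h4, hi]; group

theorem finrank_six : ∃ W : Submodule (ZMod 3) V8, finrank (ZMod 3) W = 6 ∧
    ∀ v, v ∈ W ↔ v 6 = 0 ∧ v 7 = 0 := by
  let L : V8 →ₗ[ZMod 3] ZMod 3 × ZMod 3 := (LinearMap.proj 6).prod (LinearMap.proj 7)
  refine ⟨LinearMap.ker L, ?_, fun v => Prod.ext_iff⟩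
  have := L.finrank_range_add_finrank_ker
  rw [LinearMap.range_eq_top.2 fun p => ⟨Pi.single 6 p.1 + Pi.single 7 p.2, by simp [L]⟩] at this
  simp at this
  omega

theorem Ch.exists_H [Finite G] (C : Ch z) {s : G} (hs : s ∈ centralizer ({z} : Set G)) (h2 : s * s = 1)
    (hρ : C.ρ ⟨s, hs⟩ = sp 3) (h0 : X0 ≤ C.ρ.range) {K : Type*} [Group K]
    (φ : centralizer ({s} : Set G) →* K) (hφ : Function.Surjective φ)
    (hk : ∀ x, φ x = 1 ↔ x.1 = 1 ∨ x.1 = s) (zs : z ∈ centralizer ({s} : Set G))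
    (H : Subgroup K) (hH : H = centralizer {φ ⟨z, zs⟩}) :
    ∃ (Q : Subgroup H) (_ : Q.Normal) (f : Ga C.ρ.range →* H ⧸ Q),
      Q = generalizedFittingSubgroup H ∧ IsExtraspecial 3 Q ∧ Nat.card Q = 3 ^ 7 ∧
      (center Q).map Q.subtype = center H ∧ (center H).map H.subtype = zpowers (φ ⟨z, zs⟩) ∧
      Function.Surjective f ∧ (∀ g, f g = 1 ↔ g.1 = 1 ∨ g.1 = sp 3) ∧
      (∀ h : H, h ∈ Q ↔ ∃ x : centralizer ({s} : Set G), x.1 ∈ C.Q ∧ φ x = h) ∧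
      ∀ h : H, ∃ (x : centralizer ({s} : Set G)) (hx : x.1 ∈ centralizer ({z} : Set G)) (g : Ga C.ρ.range),
        φ x = h ∧ g.1 = C.ρ ⟨x.1, hx⟩ ∧ f g = QuotientGroup.mk h := by
  have : Finite K := Finite.of_surjective φ hφ
  have : Fact (Nat.Prime 3) := ⟨Nat.prime_three⟩
  have cs := @mem_centralizer_singleton_iff G _
  have mH : ∀ k, k ∈ H ↔ k * φ ⟨z, zs⟩ = φ ⟨z, zs⟩ * k := fun k => hH ▸ mem_centralizer_singleton_iff
  have three : ∀ a b : centralizer ({s} : Set G), a.1 ^ 3 = 1 → b.1 ^ 3 = 1 → φ a = φ b → a.1 = b.1 := by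
    intro a b ha hb e
    refine mul_inv_eq_one.1 (((hk (a * b⁻¹)).1 (by rw [map_mul, map_inv, e, mul_inv_cancel])).resolve_right
      fun e1 => sp_ne_one 3 ?_)
    rw [eq_mul_of_mul_inv_eq e1, (Commute.symm (cs.1 b.2)).mul_pow, hb, mul_one, pow_three', h2,
      one_mul] at ha
    rw [← hρ, ← map_one C.ρ]
    exact congrArg _ (Subtype.ext ha)
  let M := (centralizer ({z} : Set G)).subgroupOf (centralizer {s})
  let ψ : M →* H := (φ.comp M.subtype).codRestrict H fun m => (mH _).2 (by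
    rw [MonoidHom.comp_apply, ← map_mul, ← map_mul]; exact congrArg φ (Subtype.ext (cs.1 m.2)))
  have hψ : Function.Surjective ψ := fun h => by
    obtain ⟨x, e⟩ := hφ h
    refine ⟨⟨x, cs.2 (mul_inv_eq_iff_eq_mul.1
      (three (x * ⟨z, zs⟩ * x⁻¹) ⟨z, zs⟩ ?_ C.z_cube ?_ :))⟩, Subtype.ext e⟩
    · rw [coe_mul, coe_mul, coe_inv, conj_pow, C.z_cube, mul_one, mul_inv_cancel]
    · rw [map_mul, map_mul, map_inv, e, (mH _).1 h.2, mul_inv_cancel_right]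
  let r : M →* Ga C.ρ.range := (C.ρ.comp (((centralizer {s}).subtype.comp M.subtype).codRestrict _
    fun m => m.2)).codRestrict _ fun m => mem_Ga.2 ⟨by
      rw [MonoidHom.comp_apply, ← hρ, ← map_mul, ← map_mul]
      exact congrArg _ (Subtype.ext (cs.1 m.1.2)), _, rfl⟩
  have hr : Function.Surjective r := fun g => by
    obtain ⟨m, h1, h3⟩ := C.lift_Ga hs h2 hρ g.2
    exact ⟨⟨⟨m, cs.2 h1⟩, m.2⟩, Subtype.ext h3⟩
  have kr : ∀ m, m ∈ r.ker ↔ m.1.1 ∈ C.Q := fun m => Subtype.ext_iff.trans (C.ker _)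
  have hn : (r.ker.map ψ).Normal := Normal.map inferInstance ψ hψ
  generalize hQ : r.ker.map ψ = Q at hn
  have mQ : ∀ h : H, h ∈ Q ↔ ∃ x : centralizer ({s} : Set G), x.1 ∈ C.Q ∧ φ x = h := fun h => hQ ▸
    ⟨by rintro ⟨m, hm, rfl⟩; exact ⟨m.1, (kr m).1 hm, rfl⟩,
      fun ⟨x, hx, e⟩ => ⟨⟨x, C.le hx⟩, (kr _).2 hx, Subtype.ext e⟩⟩
  let f := r.liftOfSurjective hr ⟨(QuotientGroup.mk' Q).comp ψ, fun m hm =>
    (QuotientGroup.eq_one_iff _).2 (hQ ▸ mem_map_of_mem ψ hm)⟩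
  have fr : ∀ m, f (r m) = QuotientGroup.mk (ψ m) := fun m =>
    MonoidHom.liftOfRightInverse_comp_apply _ _ _ _ m
  have fs : Function.Surjective f := fun q => by
    obtain ⟨h, rfl⟩ := QuotientGroup.mk_surjective q
    obtain ⟨m, rfl⟩ := hψ h
    exact ⟨r m, fr m⟩
  have ss : s ∈ centralizer ({s} : Set G) := cs.2 rfl
  have adj : ∀ m : M, (r m).1 = 1 ∨ (r m).1 = sp 3 → ∃ x : centralizer ({s} : Set G),
      x.1 ∈ C.Q ∧ φ x = ψ m ∧ (x.1 = m.1.1 ∨ x.1 = m.1.1 * s) := by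
    rintro m (e | e)
    · exact ⟨m.1, (C.ker _).1 e, rfl, .inl rfl⟩
    · refine ⟨m.1 * ⟨s, ss⟩, (C.ker (⟨m.1.1, m.2⟩ * ⟨s, hs⟩)).1 ?_, ?_, .inr rfl⟩
      · rw [map_mul, hρ, ← sp_sq 3]; exact congrArg (· * _) e
      · rw [map_mul, (hk ⟨s, ss⟩).2 (.inr rfl), mul_one]; rfl
  have fk : ∀ g, f g = 1 ↔ g.1 = 1 ∨ g.1 = sp 3 := fun g => by
    obtain ⟨m, rfl⟩ := hr g
    rw [fr, QuotientGroup.eq_one_iff, mQ]
    refine ⟨fun ⟨x, hx, e⟩ => ?_, fun h => let ⟨x, h1, h3, _⟩ := adj m h; ⟨x, h1, h3⟩⟩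
    have e1 : (r m).1 = C.ρ (⟨x, C.le hx⟩⁻¹ * ⟨m.1.1, m.2⟩) := by
      rw [map_mul, map_inv, (C.ker _).2 hx, inv_one, one_mul]; rfl
    rw [e1, ← hρ, ← map_one C.ρ]
    exact ((hk (x⁻¹ * m.1)).1 (by rw [map_mul, map_inv, e]; exact inv_mul_cancel _)).imp
      (fun e => congrArg _ (Subtype.ext e)) fun e => congrArg _ (Subtype.ext e)
  let ζ : H := ⟨φ ⟨z, zs⟩, (mH _).2 rfl⟩
  have ζQ : zpowers ζ ≤ Q := zpowers_le.2 ((mQ _).2 ⟨⟨z, zs⟩, C.zQ, rfl⟩)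
  have ζc : zpowers ζ ≤ center H := zpowers_le.2 (mem_center_iff.2 fun h => Subtype.ext ((mH _).1 h.2))
  have zp : ∀ x : centralizer ({s} : Set G), x.1 ∈ zpowers z → ∀ h : H, φ x = h → h ∈ zpowers ζ := by
    rintro x ⟨k, e⟩ h e1
    exact ⟨k, Subtype.ext (by rw [← e1, coe_zpow, ← map_zpow]; exact congrArg φ (Subtype.ext e))⟩
  have cQ : centralizer (Q : Set H) ≤ zpowers ζ := fun h hh => by
    obtain ⟨m, rfl⟩ := hψ h
    have k : ∀ x ∈ C.Q, C.π x 6 = 0 → C.π x 7 = 0 → x * s = s * x ∧ m.1.1 * x * m.1.1⁻¹ = x :=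
      fun x hx a b => by
      have h1 := (C.comm_s hs h2 hρ hx).2 ⟨a, b⟩
      refine ⟨h1, three (m.1 * ⟨x, cs.2 h1⟩ * m.1⁻¹) ⟨x, cs.2 h1⟩ (C.cube _ (C.nm _ m.2 _ hx))
        (C.cube _ hx) ?_⟩
      rw [map_mul, map_mul, map_inv, mul_inv_eq_iff_eq_mul]
      exact (congrArg Subtype.val (hh (ψ ⟨⟨x, cs.2 h1⟩, C.le hx⟩) ((mQ _).2 ⟨_, hx, rfl⟩))).symm
    obtain ⟨y, y1, y2, y3⟩ := adj m (fix6 (C.mem _) fun v a b => by
      obtain ⟨x, hx, rfl⟩ := C.π_surj v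
      exact (C.ρ_π ⟨m.1.1, m.2⟩ x hx).symm.trans (congrArg _ (k x hx a b).2))
    refine zp y ((C.π_zero _ y1).1 (eq_zero_of_B0 fun u => ?_)) _ y2
    obtain ⟨x, hx, e⟩ := C.π_surj (Function.update (Function.update u 6 0) 7 0)
    obtain ⟨k1, k2⟩ := k x hx (by simp [e]) (by simp [e])
    rw [mul_inv_eq_iff_eq_mul] at k2
    have h1 := (C.comm_iff hx y1).1 (by
      rcases y3 with e | e <;> rw [e]
      exacts [k2.symm, by rw [← mul_assoc, ← k2, mul_assoc, k1, mul_assoc]])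
    have h3 := (C.comm_s hs h2 hρ y1).1 (cs.1 y.2)
    rw [e] at h1
    simpa [B0, h3.1, h3.2] using h1
  have cc : center H = zpowers ζ := le_antisymm ((center_le_centralizer _).trans cQ) ζc
  have ci : Q ⊓ centralizer (Q : Set H) = zpowers ζ :=
    le_antisymm (inf_le_right.trans cQ) (le_inf ζQ (ζc.trans (center_le_centralizer _)))
  have c3 : Nat.card (zpowers ζ) = 3 := by
    rw [Nat.card_zpowers]
    refine orderOf_eq_prime (Subtype.ext ?_) fun e => C.z_ne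
      (three ⟨z, zs⟩ 1 C.z_cube (one_pow 3) ((congrArg Subtype.val e).trans (map_one φ).symm))
    rw [coe_pow, ← map_pow, coe_one, ← map_one φ]
    exact congrArg φ (Subtype.ext C.z_cube)
  have c7 : Nat.card Q = 3 ^ 7 := by
    obtain ⟨W, h6, hW⟩ := finrank_six
    have k : ∀ x : C.pre W, x.1 ∈ centralizer ({s} : Set G) := fun x =>
      cs.2 ((C.comm_s hs h2 hρ x.2.1).2 ((hW _).1 x.2.2))
    rw [show 7 = 6 + 1 from rfl, ← h6, ← C.card_pre W]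
    refine (Nat.card_eq_of_bijective (fun x : C.pre W => (⟨ψ ⟨⟨x, k x⟩, C.le x.2.1⟩,
      (mQ _).2 ⟨_, x.2.1, rfl⟩⟩ : Q)) ⟨fun x y e => Subtype.ext (three ⟨x, k x⟩ ⟨y, k y⟩
        (C.cube _ x.2.1) (C.cube _ y.2.1) (congrArg (fun q : Q => q.1.1) e)), fun q => ?_⟩).symm
    obtain ⟨x, hx, e⟩ := (mQ _).1 q.2
    exact ⟨⟨x, hx, (hW _).2 ((C.comm_s hs h2 hρ hx).1 (cs.1 x.2))⟩, Subtype.ext (Subtype.ext e)⟩
  have pc : pCore 3 H = Q := by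
    refine le_antisymm ?_ (Solv.le_pCore hn (IsPGroup.of_card c7))
    rw [← QuotientGroup.ker_mk' Q, ← Subgroup.map_eq_bot_iff, eq_bot_iff,
      ← o3 h0 (by rintro _ ⟨m, rfl⟩; exact C.mem m) f fs fk]
    exact Solv.map_pCore_le _ (QuotientGroup.mk'_surjective Q)
  refine ⟨Q, hn, f, ?_, Solv.PG.isExtraspecial_of (ci ▸ c3) (commutator_le.2 fun a ha b hb => ?_)
    fun h => ?_, c7, by rw [Solv.map_subtype_center, ci, cc], by
      rw [cc, MonoidHom.map_zpowers]; rfl, fs, fk, mQ, fun h => ?_⟩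
  · rw [← pc, eq_comm, Trans.genFitting_eq_pCore_iff, pc]
    exact cQ.trans ζQ
  · obtain ⟨x, hx, e1⟩ := (mQ a).1 ha
    obtain ⟨y, hy, e2⟩ := (mQ b).1 hb
    refine center_le_centralizer _ (ζc (zp (x * y * x⁻¹ * y⁻¹) ?_ _ ?_))
    · exact (C.comm _ hx _ hy ▸ pow_mem (mem_zpowers z) _ : x.1 * y.1 * x.1⁻¹ * y.1⁻¹ ∈ _)
    · simp [commutatorElement_def, e1, e2]
  · have := card_le_of_le (h.trans cQ)
    omega
  · obtain ⟨m, rfl⟩ := hψ h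
    exact ⟨m.1, m.2, r m, rfl, rfl, fr m⟩

end Cfsg.Lib.Mon.B3
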