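import Cfsg.Agent.Mon.B3Qa
import Cfsg.Agent.Mon.B3P

/-! A conjugate of `z` inside `Q`. -/

set_option autoImplicit false

namespace Cfsg.Lib.Mon.B3

open Cfsg Subgroup Matrix Module

variable {G : Type*} [Group G] {z y : G}

namespace Qb

theorem mem_span {n v : V8} (h : ∀ u, B0 u n = 0 → B0 u v = 0) : ∃ k : ZMod 3, v = k • n := by
  by_cases h0 : n = 0
  · exact ⟨0, by rw [zero_smul]; exact eq_zero_of_B0 fun u => h u (h0 ▸ B0_zero' u)⟩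
  obtain ⟨w, hw⟩ := exists_B0 h0 1
  refine ⟨B0 w v, sub_eq_zero.1 (eq_zero_of_B0 fun u => ?_)⟩
  have := h (u - B0 u n • w) (by rw [B0_sub, B0_smul, hw, mul_one, sub_self])
  rw [B0_sub, B0_smul] at this
  rw [B0_sub', B0_smul', mul_comm, this]

theorem eq_one (C : Ch z) {U : Subgroup G} (hz : z ∉ U) {x : G} (h1 : x ∈ U) (h2 : x ∈ zpowers z) :
    x = 1 := by
  obtain ⟨a, rfl⟩ := C.mem_zp.1 h2
  rcases (by decide : ∀ a : ZMod 3, a = 0 ∨ a = 1 ∨ a = 2) a with rfl | rfl | rfl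
  · exact pow_zero z
  · exact absurd (pow_one z ▸ h1) hz
  · refine absurd ?_ hz
    have := U.mul_mem h1 h1
    rwa [← pow_add, show (2 : ZMod 3).val + (2 : ZMod 3).val = 3 + 1 from rfl, pow_succ, C.z_cube,
      one_mul] at this

theorem comm_zp (C : Ch z) {a b : G} (ha : a ∈ C.Q) (hb : b ∈ C.Q) :
    a * b * a⁻¹ * b⁻¹ ∈ zpowers z := C.comm a ha b hb ▸ pow_mem (mem_zpowers z) _

theorem rank_le (C : Ch z) {U : Subgroup G} {n : V8} (h : ∀ x ∈ U, x ∈ C.Q → ∃ k : ZMod 3, C.π x = k • n) :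
    finrank (ZMod 3) (C.img U) ≤ 1 := by
  have : C.img U ≤ Submodule.span (ZMod 3) {n} := by
    rintro _ ⟨x, h1, h2, rfl⟩
    obtain ⟨k, e⟩ := h x h1 h2
    exact Submodule.mem_span_singleton.2 ⟨k, e.symm⟩
  exact (Submodule.finrank_mono this).trans (by simpa using finrank_span_le_card ({n} : Set V8))

/-- The image of a subgroup in the linear group. -/
def im (C : Ch z) (D : Subgroup G) : Subgroup G8 := (D.subgroupOf (centralizer {z})).map C.ρ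

theorem card_im (C : Ch z) {D : Subgroup G} (h : D ≤ centralizer {z}) :
    Nat.card D = Nat.card (im C D) * Nat.card ↥(D ⊓ C.Q) := by
  rw [im, ← relIndex_ker, show C.ρ.ker = C.Q.subgroupOf _ from Subgroup.ext C.ker,
    relIndex_subgroupOf h, ← Nat.card_congr (subgroupOfEquivOfLe (inf_le_left : D ⊓ C.Q ≤ D)).toEquiv,
    inf_subgroupOf_left, relIndex, mul_comm, card_mul_index]

theorem im_le (C : Ch z) (D : Subgroup G) : im C D ≤ Nn := by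
  rintro _ ⟨x, -, rfl⟩; exact C.mem x

theorem im_cube (C : Ch z) {D : Subgroup G} (h : ∀ d ∈ D, d ^ 3 = 1) : ∀ a ∈ im C D, a ^ 3 = 1 := by
  rintro _ ⟨x, hx, rfl⟩
  rw [← map_pow, show x ^ 3 = 1 from Subtype.ext (h x hx), map_one]

theorem card_le [Finite G] (C : Ch z) {D : Subgroup G} (h : D ≤ centralizer {z})
    (h3 : ∀ d ∈ D, d ^ 3 = 1) : Nat.card D ≤ 27 * Nat.card ↥(D ⊓ C.Q) :=
  (card_im C h).le.trans (Nat.mul_le_mul_right _ (exp3 (im_le C D) (im_cube C h3)))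

theorem sym [Finite G] (C : Ch z) (C' : Ch y) (h : y ∈ C.Q) : z ∈ C'.Q := by
  by_contra hz
  let f : V8 →ₗ[ZMod 3] ZMod 3 :=
    { toFun := fun v => B0 v (C.π y), map_add' := fun u v => B0_add u v _,
      map_smul' := fun c v => B0_smul c v _ }
  have a1 : C.pre f.ker ≤ centralizer {y} := fun x hx =>
    mem_centralizer_singleton_iff.2 ((C.comm_iff hx.1 h).2 hx.2)
  have a2 := card_le C' a1 fun d hd => C.cube d hd.1
  have a3 := rank_le C (U := C.pre f.ker ⊓ C'.Q) (n := C.π y) fun x hx hx' => mem_span fun u hu => by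
    obtain ⟨d, hd, rfl⟩ := C.π_surj u
    have := eq_one C hz (mul_mem (C'.nm d (a1 ⟨hd, hu⟩) x hx.2) (inv_mem hx.2)) (comm_zp C hd hx')
    exact (C.comm_iff hd hx').1 (mul_inv_eq_iff_eq_mul.1 (mul_inv_eq_one.1 this))
  have a4 := f.finrank_range_add_finrank_ker
  have a5 := f.range.finrank_le
  rw [C.card_pre, C.card_of_not_mem (U := C.pre f.ker ⊓ C'.Q) (fun x hx => hx.1.1) fun e => hz e.2,
    show 27 = 3 ^ 3 from rfl, ← pow_add, Nat.pow_le_pow_iff_right (by omega)] at a2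
  simp only [finrank_self, finrank_fintype_fun_eq_card, Fintype.card_fin] at a4 a5
  omega

/-- A pair of commuting conjugates far from each other. -/
structure Pa (C : Ch z) (C' : Ch y) : Prop where
  com : y * z = z * y
  cj : IsConj z y
  n1 : y ∉ C.Q
  n2 : z ∉ C'.Q
  w1 : ∀ x, IsConj z x → x ∈ C.Q → x ∈ zpowers z
  w2 : ∀ x, IsConj y x → x ∈ C'.Q → x ∈ zpowers y

namespace Pa

variable {C : Ch z} {C' : Ch y} (P : Pa C C')
include P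

theorem symm : Pa C' C := ⟨P.com.symm, P.cj.symm, P.n2, P.n1, P.w2, P.w1⟩

theorem hy : y ∈ centralizer ({z} : Set G) := mem_centralizer_singleton_iff.2 P.com

omit P in
theorem inf_eq : C.Q ⊓ centralizer {y} ⊓ C'.Q = C.Q ⊓ C'.Q := by
  rw [inf_assoc, inf_eq_right.2 C'.le]

theorem ab [Finite G] (h1 : ∀ a ∈ C.Q ⊓ centralizer {y}, ∀ b ∈ C.Q ⊓ centralizer {y}, a * b = b * a)
    (h2 : Nat.card ↥(C.Q ⊓ centralizer {y}) = 27 * Nat.card ↥(C.Q ⊓ C'.Q)) :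
    ∃ n : V8, (∀ x ∈ C'.Q, (∀ d ∈ C.Q ⊓ centralizer {y}, d * x = x * d) → ∃ k : ZMod 3, C'.π x = k • n) ∧
      n ∈ Iv (C'.ρ ⟨z, P.symm.hy⟩) ∧
      (finrank (ZMod 3) (Cv (C'.ρ ⟨z, P.symm.hy⟩)) = 3 → n ∈ I2 (C'.ρ ⟨z, P.symm.hy⟩)) := by
  rw [card_im C' inf_le_right, inf_eq] at h2
  obtain ⟨n, a1, a2⟩ := ab27 (im_le C' _) (im_cube C' (D := C.Q ⊓ centralizer {y})
    fun d hd => C.cube d hd.1) (by
    rintro _ ⟨a, ha, rfl⟩ _ ⟨b, hb, rfl⟩
    rw [← map_mul, ← map_mul, show a * b = b * a from Subtype.ext (h1 a ha b hb)])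
    (Nat.eq_of_mul_eq_mul_right Nat.card_pos h2)
  refine ⟨n, fun x hx h => a1 _ ?_, a2 _ ⟨_, ⟨C.zQ, P.symm.hy⟩, rfl⟩ fun e => P.n2 ((C'.ker _).1 e)⟩
  rintro _ ⟨d, hd, rfl⟩
  rw [← C'.ρ_π d x hx, h d hd, coe_inv, mul_inv_cancel_right]

theorem ce {e d : G} (he : e ∈ C.Q ⊓ C'.Q) (hd : d ∈ C.Q ⊓ centralizer {y}) : d * e = e * d :=
  mul_inv_eq_iff_eq_mul.1 (mul_inv_eq_one.1 (eq_one C P.n2
    (mul_mem (C'.nm d hd.2 e he.2) (inv_mem he.2)) (comm_zp C hd.1 he.1)))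

theorem lo [Finite G] : C.Lo y (C.Q ⊓ C'.Q) := by
  refine ⟨P.hy, C'.z_cube, P.n1, inf_le_inf_left _ C'.le, fun e => P.n2 e.2,
    fun e he d hd => (P.ce he hd).symm, fun u _ h => ?_, ?_, fun h1 h2 => ?_⟩
  · exact mul_inv_eq_iff_eq_mul.1 (mul_inv_eq_one.1 (eq_one C' P.n1 h.1 (mul_mem
      (P.w2 _ (isConj_iff.2 ⟨u, rfl⟩) ((mul_mem_cancel_right (inv_mem C'.zQ)).1 h.2))
      (inv_mem (mem_zpowers y)))))
  · simpa only [inf_eq] using card_le C' (D := C.Q ⊓ centralizer {y}) inf_le_right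
      fun d hd => C.cube d hd.1
  · obtain ⟨n, a1, -⟩ := P.ab h1 h2
    have := rank_le C' (U := C.Q ⊓ C'.Q) (n := n) fun x hx hx' => a1 x hx' fun d hd => P.ce hx hd
    rw [C'.card_of_not_mem inf_le_right fun e => P.n1 e.1]
    exact Nat.pow_le_pow_right (n := 3) (by omega) this

theorem mv [Finite G] {e : G} (he : e ∈ C.Q ⊓ C'.Q) (h1 : e ≠ 1) :
    ∃ u ∈ C.Q, u * e = e * u ∧ (u * y * u⁻¹ = e * z * y ∨ u * y * u⁻¹ = e * z⁻¹ * y) := by
  obtain ⟨a1, a2, -⟩ := P.symm.lo.main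
  obtain ⟨n, b1, b2, b3⟩ := P.symm.ab a1 a2
  obtain ⟨k, hk⟩ := b1 e he.1 fun d hd => P.symm.ce ⟨he.2, he.1⟩ hd
  exact P.lo.main.2.2.2 e he h1 (hk ▸ Submodule.smul_mem _ k b2)
    fun h => hk ▸ Submodule.smul_mem _ k (b3 h)

theorem ne_bot [Finite G] : C.Q ⊓ C'.Q ≠ ⊥ := fun h => by
  obtain ⟨a1, a2, -⟩ := P.lo.main
  obtain ⟨n, b1, -⟩ := P.ab a1 a2
  have c1 := P.symm.lo.main.2.1
  have := rank_le C' (U := C'.Q ⊓ centralizer {z}) (n := n) fun x hx hx' => b1 x hx' fun d hd => by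
    have c2 : d * x * d⁻¹ * x⁻¹ ∈ C.Q ⊓ C'.Q := mem_inf.2 ⟨by
      simpa only [mul_assoc] using C.Q.mul_mem hd.1 (C.nm x hx.2 _ (C.Q.inv_mem hd.1)),
      mul_mem (C'.nm d hd.2 x hx') (inv_mem hx')⟩
    rw [h, mem_bot] at c2
    exact mul_inv_eq_iff_eq_mul.1 (mul_inv_eq_one.1 c2)
  rw [inf_comm C'.Q C.Q, h, card_bot, C'.card_of_mem inf_le_left ⟨C'.zQ, P.hy⟩] at c1
  have c3 := Nat.pow_le_pow_right (n := 3) (by omega) (Nat.add_le_add_right this 1)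
  omega

end Pa

theorem inv_cj {u c : G} (h : u * y * u⁻¹ = c * y) (hc : Commute u c) : u⁻¹ * y * u = c⁻¹ * y := by
  rw [eq_inv_mul_iff_mul_eq, ← mul_assoc, ← mul_assoc, ← hc.inv_left.eq, mul_assoc u⁻¹, ← h]
  group

theorem word {e u v : G} (ez : Commute z e) (ey : Commute y e) (zy : Commute y z) (ue : Commute u e)
    (uz : Commute u z) (ve : Commute v e) (vy : Commute v y)
    (h1 : u * y * u⁻¹ = e * z * y ∨ u * y * u⁻¹ = e * z⁻¹ * y)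
    (h2 : v * z * v⁻¹ = e * y * z ∨ v * z * v⁻¹ = e * y⁻¹ * z) :
    ∃ f t, IsConj z (f * f * t) ∧ (f = e ∨ f = e⁻¹) ∧ (t = y ∨ t = y⁻¹) := by
  have k1 : ∀ {a : G}, Commute u a → u * a * u⁻¹ = a := fun h => by rw [h.eq, mul_inv_cancel_right]
  have k2 : ∀ {a : G}, Commute u a → u⁻¹ * a * u = a := fun h => by
    rw [h.inv_left.eq, inv_mul_cancel_right]
  rcases h1 with h1 | h1 <;> rcases h2 with h2 | h2
  · refine ⟨e⁻¹, y⁻¹, isConj_iff.2 ⟨u * v⁻¹, ?_⟩, .inr rfl, .inr rfl⟩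
    calc _ = u * (v⁻¹ * z * v) * u⁻¹ := by group
      _ = (u * y * u⁻¹)⁻¹ * (u * e * u⁻¹)⁻¹ * (u * z * u⁻¹) := by
        rw [inv_cj h2 (ve.mul_right vy)]; group
      _ = _ := by
        rw [h1, k1 ue, k1 uz]
        simp only [_root_.mul_inv_rev, mul_assoc, ez.inv_inv.left_comm, ey.inv_inv.left_comm,
          inv_mul_cancel, mul_one, ey.inv_inv.eq]
  · refine ⟨e⁻¹, y, isConj_iff.2 ⟨u⁻¹ * v⁻¹, ?_⟩, .inr rfl, .inl rfl⟩
    calc _ = u⁻¹ * (v⁻¹ * z * v) * u := by group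
      _ = (u⁻¹ * y * u) * (u⁻¹ * e * u)⁻¹ * (u⁻¹ * z * u) := by
        rw [inv_cj h2 (ve.mul_right vy.inv_right)]; group
      _ = _ := by
        rw [inv_cj h1 (ue.mul_right uz), k2 ue, k2 uz]
        simp only [_root_.mul_inv_rev, mul_assoc, ez.inv_inv.left_comm, ey.inv_right.left_comm,
          zy.eq, inv_mul_cancel_left]
  · refine ⟨e, y, isConj_iff.2 ⟨u * v, ?_⟩, .inl rfl, .inl rfl⟩
    calc _ = u * (v * z * v⁻¹) * u⁻¹ := by group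
      _ = (u * e * u⁻¹) * (u * y * u⁻¹) * (u * z * u⁻¹) := by rw [h2]; group
      _ = _ := by
        rw [h1, k1 ue, k1 uz]
        simp only [mul_assoc, zy.eq, inv_mul_cancel_left]
  · refine ⟨e, y⁻¹, isConj_iff.2 ⟨u⁻¹ * v, ?_⟩, .inl rfl, .inr rfl⟩
    calc _ = u⁻¹ * (v * z * v⁻¹) * u := by group
      _ = (u⁻¹ * e * u) * (u⁻¹ * y * u)⁻¹ * (u⁻¹ * z * u) := by rw [h2]; group
      _ = _ := by
        rw [inv_cj h1 (ue.mul_right uz.inv_right), k2 ue, k2 uz]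
        simp only [_root_.mul_inv_rev, inv_inv, mul_assoc, inv_mul_cancel, mul_one, ey.inv_left.eq]

theorem Pa.false [Finite G] {C : Ch z} {C' : Ch y} (P : Pa C C') : False := by
  obtain ⟨e, he, h1⟩ := (bot_or_exists_ne_one _).resolve_left P.ne_bot
  obtain ⟨u, u1, u2, u3⟩ := P.mv he h1
  obtain ⟨v, v1, v2, v3⟩ := P.symm.mv ⟨he.2, he.1⟩ h1
  obtain ⟨f, t, a1, a2, a3⟩ := word (C.comm_z he.1).symm (C'.comm_z he.2).symm P.com u2 (C.comm_z u1)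
    v2 (C'.comm_z v1) u3 v3
  have b1 : f ∈ C.Q ⊓ C'.Q := by rcases a2 with rfl | rfl; exacts [he, inv_mem he]
  have b2 : t ∈ zpowers y := by
    rcases a3 with rfl | rfl; exacts [mem_zpowers _, inv_mem (mem_zpowers _)]
  have b3 := eq_one C' P.n1 (mul_mem b1.1 b1.1) ((mul_mem_cancel_right b2).1 (P.w2 _
    (P.cj.symm.trans a1) (mul_mem (mul_mem b1.2 b1.2) (zpowers_le.2 C'.zQ b2))))
  have b4 := C.cube f b1.1
  rw [pow_three, b3, mul_one] at b4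
  rcases a2 with rfl | rfl
  exacts [h1 b4, h1 (inv_eq_one.1 b4)]

end Qb

theorem Ch.sym [Finite G] (C : Ch z) {g : G} (h : g * z * g⁻¹ ∈ C.Q) : g⁻¹ * z * g ∈ C.Q :=
  C.mem_conj.1 (Qb.sym C (C.conj g) h)

theorem Ch.exists_in_Q [Finite G] (C : Ch z) {g : G} (h1 : g * z * g⁻¹ ∉ zpowers z)
    (h2 : g * z * g⁻¹ * z = z * (g * z * g⁻¹)) : ∃ k, k * z * k⁻¹ ∈ C.Q ∧ k * z * k⁻¹ ∉ zpowers z := by
  by_contra h
  push Not at h
  refine Qb.Pa.false (C := C) (C' := C.conj g) ⟨h2, isConj_iff.2 ⟨g, rfl⟩, fun e => h1 (h g e),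
    fun e => h1 (h g (Qb.sym _ C e)), fun x hx => ?_, fun x hx e => ?_⟩
  · obtain ⟨k, rfl⟩ := isConj_iff.1 hx
    exact h k
  · obtain ⟨k, rfl⟩ := isConj_iff.1 hx
    obtain ⟨n, hn⟩ := h (g⁻¹ * k * g) (by
      simpa only [_root_.mul_inv_rev, inv_inv, mul_assoc] using C.mem_conj.1 e)
    exact ⟨n, by simp only at hn ⊢; rw [conj_zpow, hn]; group⟩

end Cfsg.Lib.Mon.B3
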