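import Cfsg.Agent.Mon.B3C
import Cfsg.Agent.Mon.B3Qb
import Cfsg.Agent.Local.Tight

/-! The involution `s` acting as a reflection in a plane. -/

set_option autoImplicit false

namespace Cfsg.Lib.Mon.B3

open Cfsg Subgroup Matrix

variable {G : Type*} [Group G] {z : G}

theorem eq_or_inv {x : G} (hz : orderOf z = 3) (hx : x ∈ zpowers z) (h1 : x ≠ 1) : x = z ∨ x = z⁻¹ := by
  obtain ⟨k, rfl⟩ := hx
  have h3 : z ^ 3 = 1 := hz ▸ pow_orderOf_eq_one z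
  change z ^ k ≠ 1 at h1
  change z ^ k = z ∨ z ^ k = z⁻¹
  rw [← zpow_mod_orderOf, hz] at h1 ⊢
  rcases (by omega : k % (3 : ℕ) = 0 ∨ k % (3 : ℕ) = 1 ∨ k % (3 : ℕ) = 2) with e | e | e <;> rw [e] at h1 ⊢
  · exact absurd (zpow_zero z) h1
  · exact Or.inl (zpow_one z)
  · exact Or.inr (eq_inv_of_mul_eq_one_left (by rw [zpow_two, ← h3, pow_three'])) 

theorem ne_inv (hz : orderOf z = 3) : z ≠ z⁻¹ := fun e => by
  have : orderOf z ∣ 2 := orderOf_dvd_of_pow_eq_one (by rw [pow_two]; nth_rw 1 [e]; exact inv_mul_cancel z)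
  rw [hz] at this; omega

/-- A subgroup of order three that is not weakly closed commutes with another conjugate. -/
theorem exists_far [Finite G] (hz : orderOf z = 3) {S : Subgroup G} (hS : IsPGroup 3 S) (zS : z ∈ S) {g : G}
    (h1 : g * z * g⁻¹ ∈ S) (h2 : g * z * g⁻¹ ∉ zpowers z) :
    ∃ k, k * z * k⁻¹ ∉ zpowers z ∧ k * z * k⁻¹ * z = z * (k * z * k⁻¹) := by
  have : Fact (Nat.Prime 3) := ⟨Nat.prime_three⟩
  by_cases h : centralizer ({⟨z, zS⟩} : Set S) = ⊤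
  · refine ⟨g, h2, ?_⟩
    have : (⟨_, h1⟩ : S) ∈ centralizer ({⟨z, zS⟩} : Set S) := h ▸ mem_top _
    exact congrArg Subtype.val (mem_centralizer_singleton_iff.1 this)
  have := hS.isNilpotent
  obtain ⟨x, hx, hx'⟩ := SetLike.exists_of_lt (Group.normalizerCondition_of_isNilpotent _ (lt_top_iff_ne_top.2 h))
  have c := mem_centralizer_singleton_iff.1 ((mem_normalizer_iff.1 hx ⟨z, zS⟩).1
    (mem_centralizer_singleton_iff.2 rfl))
  refine ⟨x, fun k => hx' (mem_centralizer_singleton_iff.2 (Subtype.ext ?_)), congrArg Subtype.val c⟩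
  rcases eq_or_inv hz k (fun e => by
    rw [conj_eq_one_iff] at e; rw [e, orderOf_one] at hz; omega) with e | e
  · exact mul_inv_eq_iff_eq_mul.1 e
  · exfalso
    obtain ⟨n, hn⟩ := hS x
    have k : ∀ n : ℕ, (x : G) ^ 3 ^ n * z * ((x : G) ^ 3 ^ n)⁻¹ = z⁻¹ := fun n => by
      induction n with
      | zero => simpa using e
      | succ n ih =>
        have ih' : (x : G) ^ 3 ^ n * z⁻¹ * ((x : G) ^ 3 ^ n)⁻¹ = z := by rw [← conj_inv, ih, inv_inv]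
        rw [pow_succ, pow_mul]
        generalize (x : G) ^ 3 ^ n = y at *
        calc y ^ 3 * z * (y ^ 3)⁻¹ = y * (y * (y * z * y⁻¹) * y⁻¹) * y⁻¹ := by rw [pow_three]; group
          _ = z⁻¹ := by rw [ih, ih', ih]
    have := k n
    rw [← coe_pow, hn] at this
    exact ne_inv hz (by simpa using this)

namespace Ch

variable (C : Ch z)

theorem isPGroup : IsPGroup 3 C.Q := fun x => ⟨1, Subtype.ext (by simpa using C.cube x x.2)⟩

theorem comm_of_fix {s x : G} (hs : s ∈ centralizer ({z} : Set G)) (h2 : s * s = 1) (hx : x ∈ C.Q)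
    (h : (C.ρ ⟨s, hs⟩).1 *ᵥ C.π x = C.π x) : s * x = x * s := by
  have hz : s * z = z * s := mem_centralizer_singleton_iff.1 hs
  obtain ⟨a, ha⟩ := C.mem_zp.1 ((C.π_eq (C.nm s hs x hx) hx).1 ((C.ρ_π ⟨s, hs⟩ x hx).trans h))
  have c : s * z ^ a.val = z ^ a.val * s := (Commute.pow_right hz _).eq
  have e : s * x * s⁻¹ = z ^ a.val * x := mul_inv_eq_iff_eq_mul.1 ha
  have e2 : z ^ a.val * z ^ a.val = 1 := by
    have : s * (s * x * s⁻¹) * s⁻¹ = x := by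
      calc _ = (s * s) * x * (s * s)⁻¹ := by group
        _ = x := by rw [h2]; group
    rw [e, ← mul_assoc, c, mul_assoc, mul_assoc, ← mul_assoc s, e, ← mul_assoc] at this
    exact mul_eq_right.1 this
  rw [← C.zpow_val] at e2
  have a0 : a = 0 := (by decide : ∀ a : ZMod 3, a + a = 0 → a = 0) a
    (C.zpow_inj (by rw [e2, ZMod.val_zero, pow_zero]))
  rw [a0, ZMod.val_zero, pow_zero, one_mul] at e
  exact mul_inv_eq_iff_eq_mul.1 e

theorem fix_of_comm {s x : G} (hs : s ∈ centralizer ({z} : Set G)) (hx : x ∈ C.Q) (h : s * x = x * s) :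
    (C.ρ ⟨s, hs⟩).1 *ᵥ C.π x = C.π x := by
  rw [← C.ρ_π ⟨s, hs⟩ x hx]; exact congrArg _ (mul_inv_eq_iff_eq_mul.2 h)

theorem exists_q {s y : G} (hs : s ∈ centralizer ({z} : Set G)) (h2 : s * s = 1) (hy : y ∈ C.Q)
    (hy' : y ∉ zpowers z) (h : s * y = y * s) (a : ZMod 3) :
    ∃ q ∈ C.Q, s * q = q * s ∧ q * y * q⁻¹ = z ^ a.val * y := by
  obtain ⟨v, hv⟩ := exists_B0 (fun e => hy' ((C.π_zero y hy).1 e)) a
  obtain ⟨q, hq, e⟩ := C.π_surj (-(v + (C.ρ ⟨s, hs⟩).1 *ᵥ v))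
  have ss : (C.ρ ⟨s, hs⟩).1 * (C.ρ ⟨s, hs⟩).1 = 1 := by
    rw [← Units.val_mul, ← map_mul, show (⟨s, hs⟩ * ⟨s, hs⟩ : centralizer ({z} : Set G)) = 1 from Subtype.ext h2,
      map_one, Units.val_one]
  refine ⟨q, hq, C.comm_of_fix hs h2 hq ?_, mul_inv_eq_iff_eq_mul.1 ?_⟩
  · rw [e, mulVec_neg, mulVec_add, mulVec_mulVec, ss, one_mulVec, add_comm]
  · have k := (C.mem ⟨s, hs⟩).1 v (C.π y)
    rw [C.fix_of_comm hs hy h] at k
    rw [C.comm q hq y hy, e, B0_neg, B0_add, k, hv, (by decide : ∀ a : ZMod 3, -(a + a) = a)]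

theorem inv_conj {a b : centralizer ({z} : Set G)} (ha : a * a = 1) (hb : b * b = 1) (h : C.ρ a = C.ρ b) :
    ∃ q : centralizer ({z} : Set G), q.1 ∈ C.Q ∧ q * a * q⁻¹ = b := by
  have hc : (b * a).1 ∈ C.Q := (C.ker _).1 (by rw [map_mul, ← h, ← map_mul, ha, map_one])
  have c3 : (b * a) ^ 3 = 1 := Subtype.ext (C.cube _ hc)
  refine ⟨(b * a)⁻¹, C.Q.inv_mem hc, ?_⟩
  have ia : a⁻¹ = a := inv_eq_of_mul_eq_one_right ha
  have ib : b⁻¹ = b := inv_eq_of_mul_eq_one_right hb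
  have : (a * b) ^ 3 = 1 := by rw [← ia, ← ib, ← _root_.mul_inv_rev, inv_pow, c3, inv_one]
  rw [inv_inv, _root_.mul_inv_rev, ia, ib]
  calc a * b * a * (b * a) = (a * b) ^ 3 * b⁻¹ := by rw [pow_three]; group
    _ = b := by rw [this, one_mul, ib]

theorem lift' {s : G} (hs : s ∈ centralizer ({z} : Set G)) (h2 : s * s = 1)
    (hρ : C.ρ ⟨s, hs⟩ = sp 3) {g : G8} (hg : g ∈ Ga C.ρ.range) :
    ∃ m : centralizer ({z} : Set G), m.1 * s = s * m.1 ∧ C.ρ m = g := by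
  obtain ⟨h1, m, rfl⟩ := mem_Ga.1 hg
  have h3 : (⟨s, hs⟩ * ⟨s, hs⟩ : centralizer ({z} : Set G)) = 1 := Subtype.ext h2
  obtain ⟨q, hq, e⟩ := C.inv_conj (a := m * ⟨s, hs⟩ * m⁻¹) (b := ⟨s, hs⟩) (by rw [conj_mul, h3]; group) h3
    (by rw [map_mul, map_mul, map_inv, hρ, h1, mul_inv_cancel_right])
  refine ⟨q * m, ?_, by rw [map_mul, (C.ker q).2 hq, one_mul]⟩
  have : q * m * ⟨s, hs⟩ = ⟨s, hs⟩ * (q * m) := by
    rw [← mul_inv_eq_iff_eq_mul]; exact Eq.trans (by group) e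
  exact congrArg Subtype.val this

theorem exists_inv {m : centralizer ({z} : Set G)} (h : C.ρ m * C.ρ m = 1) :
    m ^ 3 * m ^ 3 = 1 ∧ C.ρ (m ^ 3) = C.ρ m := by
  have hc : (m * m).1 ∈ C.Q := (C.ker _).1 (by rw [map_mul, h])
  refine ⟨?_, by rw [map_pow, pow_three, h, mul_one]⟩
  rw [← pow_add, show 3 + 3 = 2 * 3 from rfl, pow_mul, pow_two]
  exact Subtype.ext (C.cube _ hc)

/-- The involution `s` and the elements of its centraliser moving `z`. -/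
structure Sd (s q q' : G) : Prop where
  hs : s ∈ centralizer ({z} : Set G)
  sq : s * s = 1
  ρs : C.ρ ⟨s, hs⟩ = sp 3
  qQ : q ∈ C.Q
  qQ' : ∃ k, k * q' * k⁻¹ ∈ C.Q
  sq1 : s * q = q * s
  sq2 : s * q' = q' * s
  far : q' * z * q'⁻¹ ∉ zpowers z
  inQ : q' * z * q'⁻¹ ∈ C.Q
  inv : (q * q' * q) ^ 2 * z * ((q * q' * q) ^ 2)⁻¹ = z⁻¹

theorem exists_sd [Finite G] (h0 : X0 ≤ C.ρ.range) {g : G} (h1 : g * z * g⁻¹ ∉ zpowers z)
    (h2 : g * z * g⁻¹ * z = z * (g * z * g⁻¹)) : ∃ s q q', C.Sd s q q' := by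
  obtain ⟨k, hk, hk'⟩ := C.exists_in_Q h1 h2
  obtain ⟨n, hn, e6, e7⟩ := cover (C.π (k * z * k⁻¹))
  obtain ⟨m, rfl⟩ := h0 hn
  obtain ⟨m0, hm0⟩ := h0 (sp_mem_X0 3)
  obtain ⟨s2, hρ⟩ := C.exists_inv (m := m0) (by rw [hm0, sp_sq])
  rw [hm0] at hρ
  generalize m0 ^ 3 = s at s2 hρ
  obtain ⟨s, hs⟩ := s
  replace s2 : s * s = 1 := congrArg Subtype.val s2
  have mz : m.1 * z = z * m.1 := mem_centralizer_singleton_iff.1 m.2
  have e : m.1 * k * z * (m.1 * k)⁻¹ = m.1 * (k * z * k⁻¹) * m.1⁻¹ := by group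
  have hy : m.1 * k * z * (m.1 * k)⁻¹ ∈ C.Q := e ▸ C.nm _ m.2 _ hk
  have hy' : m.1 * k * z * (m.1 * k)⁻¹ ∉ zpowers z := fun h => hk' (by
    obtain ⟨a, ha⟩ := C.mem_zp.1 h
    have c : m.1 * z ^ a.val = z ^ a.val * m.1 := (Commute.pow_right mz _).eq
    rw [e, mul_inv_eq_iff_eq_mul, ← c, mul_right_inj] at ha
    exact ha ▸ pow_mem (mem_zpowers z) _)
  have sy := C.comm_of_fix hs s2 hy (by
    rw [hρ, e, ← coe_inv, C.ρ_π m _ hk, sp3_fix]; exact ⟨e6, e7⟩)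
  have zQ : z ∈ (C.conj (m.1 * k)).Q := C.mem_conj.2 (C.sym hy)
  have hQ' : ∀ x ∈ (C.conj (m.1 * k)).Q, ∃ k, k * x * k⁻¹ ∈ C.Q := fun x hx =>
    ⟨(m.1 * k)⁻¹, by rw [inv_inv]; exact C.mem_conj.1 hx⟩
  generalize C.conj (m.1 * k) = C' at zQ hQ'
  clear e
  generalize m.1 * k * z * (m.1 * k)⁻¹ = y at *
  have yz : y * z = z * y := C.comm_z hy
  have hz' : z ∉ zpowers y := fun h => hy' (by
    rcases eq_or_inv C'.z3 h C.z_ne with e | e
    · exact e ▸ mem_zpowers z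
    · rw [← inv_inv y, ← e]; exact inv_mem (mem_zpowers z))
  obtain ⟨q, hq, c1, a1⟩ := C.exists_q hs s2 hy hy' sy 1
  obtain ⟨q', hq', c2, a2⟩ := C'.exists_q (mem_centralizer_singleton_iff.2 sy) s2 zQ hz'
    (mem_centralizer_singleton_iff.1 hs) 2
  have y2 : y ^ (2 : ZMod 3).val = y⁻¹ := eq_inv_of_mul_eq_one_left (by rw [← pow_succ]; exact C'.z_cube)
  rw [show (1 : ZMod 3).val = 1 from rfl, pow_one] at a1
  rw [y2] at a2
  have b1 : q * z * q⁻¹ = z := mul_inv_eq_iff_eq_mul.2 (C.comm_z hq)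
  have b2 : q' * y * q'⁻¹ = y := mul_inv_eq_iff_eq_mul.2 (C'.comm_z hq')
  refine ⟨s, q, q', hs, s2, hρ, hq, hQ' _ hq', c1, c2, fun h => hy' ?_, ?_, ?_⟩
  · rw [a2] at h
    simpa using mul_mem (mem_zpowers z) (inv_mem h) |> fun k => by
      rwa [_root_.mul_inv_rev, inv_inv, mul_inv_cancel_left] at k
  · rw [a2]; exact mul_mem (inv_mem hy) C.zQ
  have w1 : q * q' * q * z * (q * q' * q)⁻¹ = y⁻¹ := by
    calc _ = q * (q' * (q * z * q⁻¹) * q'⁻¹) * q⁻¹ := by group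
      _ = q * (y⁻¹ * z) * q⁻¹ := by rw [b1, a2]
      _ = (q * y * q⁻¹)⁻¹ * (q * z * q⁻¹) := by group
      _ = y⁻¹ := by rw [a1, b1]; group
  have w2 : q * q' * q * y * (q * q' * q)⁻¹ = z := by
    calc _ = q * (q' * (q * y * q⁻¹) * q'⁻¹) * q⁻¹ := by group
      _ = q * ((q' * z * q'⁻¹) * (q' * y * q'⁻¹)) * q⁻¹ := by rw [a1]; group
      _ = z := by rw [a2, b2, mul_assoc y⁻¹, ← yz, inv_mul_cancel_left, b1]
  generalize q * q' * q = w at w1 w2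
  calc w ^ 2 * z * (w ^ 2)⁻¹ = w * (w * z * w⁻¹) * w⁻¹ := by rw [pow_two]; group
    _ = z⁻¹ := by rw [w1, ← conj_inv, w2]

namespace Sd

variable {C} {s q q' : G} (D : C.Sd s q q')
include D

theorem ne_one : s ≠ 1 := fun e => sp_ne_one 3 (by
  rw [← D.ρs, show (⟨s, D.hs⟩ : centralizer ({z} : Set G)) = 1 from Subtype.ext e, map_one])

theorem ord : orderOf s = 2 := orderOf_eq_prime (by rw [pow_two, D.sq]) D.ne_one

theorem zs : z ∈ centralizer ({s} : Set G) :=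
  mem_centralizer_singleton_iff.2 (mem_centralizer_singleton_iff.1 D.hs).symm

theorem q3 : q ^ 3 = 1 := C.cube q D.qQ

theorem q3' : q' ^ 3 = 1 := by
  obtain ⟨k, hk⟩ := D.qQ'
  have := C.cube _ hk
  rwa [conj_pow, conj_eq_one_iff] at this

theorem mem_comm (h0 : X0 ≤ C.ρ.range) (x : centralizer ({s} : Set G)) (hx : x.1 = s) :
    x ∈ commutator (centralizer ({s} : Set G)) := by
  obtain ⟨a, ha, b, hb, e⟩ := sp3_comm
  obtain ⟨a, a1, rfl⟩ := C.lift' D.hs D.sq D.ρs (g := a) ⟨ha.1, h0 ha.2⟩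
  obtain ⟨b, b1, rfl⟩ := C.lift' D.hs D.sq D.ρs (g := b) ⟨hb.1, h0 hb.2⟩
  have hc : (a * b * a⁻¹ * b⁻¹ * ⟨s, D.hs⟩).1 ∈ C.Q := (C.ker _).1 (by
    simp only [map_mul, map_inv, e, D.ρs, sp_sq])
  let a' : centralizer ({s} : Set G) := ⟨a, mem_centralizer_singleton_iff.2 a1⟩
  let b' : centralizer ({s} : Set G) := ⟨b, mem_centralizer_singleton_iff.2 b1⟩
  have h1 : a' * b' * a'⁻¹ * b'⁻¹ ∈ commutator _ := commutator_mem_commutator (mem_top a') (mem_top b')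
  have h2 : Commute (a' * b' * a'⁻¹ * b'⁻¹).1 s := mem_centralizer_singleton_iff.1 (a' * b' * a'⁻¹ * b'⁻¹).2
  have h3 : ((a' * b' * a'⁻¹ * b'⁻¹).1 * s) ^ 3 = 1 := C.cube _ hc
  rw [h2.mul_pow, pow_three s, D.sq, mul_one, mul_eq_one_iff_eq_inv, inv_eq_of_mul_eq_one_right D.sq] at h3
  rw [show x = (a' * b' * a'⁻¹ * b'⁻¹) ^ 3 from Subtype.ext (hx.trans h3.symm)]
  exact pow_mem h1 3

theorem exists_conj (h0 : X0 ≤ C.ρ.range) : ∃ g : G, g * s * g⁻¹ * s = s * (g * s * g⁻¹) ∧ g * s * g⁻¹ ≠ s := by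
  obtain ⟨r, hr, e⟩ := sp_conj
  obtain ⟨m, rfl⟩ := h0 (R0_le_X0 hr)
  obtain ⟨t, t1, t2⟩ := C.lift' D.hs D.sq D.ρs (g := sp 0) (mem_Ga.2 ⟨sp_comm 0 3, h0 (sp_mem_X0 0)⟩)
  obtain ⟨t3, t4⟩ := C.exists_inv (m := t) (by rw [t2, sp_sq])
  have h3 : (⟨s, D.hs⟩ * ⟨s, D.hs⟩ : centralizer ({z} : Set G)) = 1 := Subtype.ext D.sq
  obtain ⟨u, -, hu⟩ := C.inv_conj (a := m * ⟨s, D.hs⟩ * m⁻¹) (b := t ^ 3) (by rw [conj_mul, h3]; group) t3
    (by rw [map_mul, map_mul, map_inv, D.ρs, e, t4, t2])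
  have k : (u * m).1 * s * (u * m).1⁻¹ = (t ^ 3).1 := by
    rw [← hu]; simp only [coe_mul, coe_inv]; group
  refine ⟨(u * m).1, ?_, fun h => ?_⟩
  · rw [k]; exact (Commute.pow_left t1 3).eq
  · have : t ^ 3 = ⟨s, D.hs⟩ := Subtype.ext (k.symm.trans h)
    rw [this, D.ρs, t2] at t4
    exact absurd (sp_inj t4) (by decide)

end Sd

/-- A Sylow subgroup containing `Q` has centre `⟨z⟩`. -/
theorem exists_sylow [Finite G] : ∃ T : Sylow 3 G, C.Q ≤ T ∧ (T : Subgroup G) ≤ centralizer {z} ∧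
    ∀ x ∈ T, (∀ t ∈ T, x * t = t * x) → x ∈ zpowers z := by
  have : Fact (Nat.Prime 3) := ⟨Nat.prime_three⟩
  obtain ⟨T, hT⟩ := C.isPGroup.exists_le_sylow
  have h : ∀ x ∈ T, (∀ t ∈ T, x * t = t * x) → x ∈ zpowers z := fun x _ h => C.cent fun t ht => h t (hT ht)
  refine ⟨T, hT, fun t ht => mem_centralizer_singleton_iff.2 ?_, h⟩
  obtain ⟨c, hc, c3, k⟩ := Local.exists_central_mem T.isPGroup' le_rfl
    (fun g hg a ha => mul_mem (mul_mem hg ha) (inv_mem hg)) fun e => C.z_ne (mem_bot.1 (e ▸ hT C.zQ))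
  rcases eq_or_inv C.z3 (h c hc fun t ht => (k t ht).symm) (fun e => by
    rw [e, orderOf_one] at c3; omega) with e | e
  · rw [← e]; exact k t ht
  · have : Commute t c := k t ht
    rw [e] at this
    exact (Commute.inv_right_iff.1 this).eq

include C in
theorem mem_normal [Finite G] {N : Subgroup G} [hN : N.Normal] (h : 3 ∣ Nat.card N) : z ∈ N := by
  have : Fact (Nat.Prime 3) := ⟨Nat.prime_three⟩
  obtain ⟨T, -, -, hT⟩ := C.exists_sylow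
  obtain ⟨x, hx⟩ := exists_prime_orderOf_dvd_card' 3 h
  rw [← orderOf_coe] at hx
  obtain ⟨P, hP⟩ := (IsPGroup.of_card (n := 1) (by rw [Nat.card_zpowers, hx, pow_one]) :
    IsPGroup 3 (zpowers x.1)).exists_le_sylow
  obtain ⟨g, rfl⟩ := MulAction.exists_smul_eq G P T
  have x1 : g * x.1 * g⁻¹ ∈ ((g • P : Sylow 3 G) : Subgroup G) :=
    smul_mem_pointwise_smul x.1 (MulAut.conj g) _ (hP (mem_zpowers _))
  obtain ⟨c, hc, c3, k⟩ := Local.exists_central_mem (A := N ⊓ (g • P : Sylow 3 G)) (g • P).isPGroup' inf_le_right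
    (fun g hg a ha => ⟨hN.conj_mem _ ha.1 _, Subgroup.mul_mem _ (Subgroup.mul_mem _ hg ha.2) (Subgroup.inv_mem _ hg)⟩) fun e => by
      have := conj_eq_one_iff.1 (mem_bot.1 (e.le (mem_inf.2 ⟨hN.conj_mem _ x.2 g, x1⟩)))
      rw [this, orderOf_one] at hx; omega
  rcases eq_or_inv C.z3 (hT c hc.2 fun t ht => (k t ht).symm) (fun e => by
    rw [e, orderOf_one] at c3; omega) with e | e
  exacts [e ▸ hc.1, inv_mem_iff.1 (e ▸ hc.1)]

include C in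
theorem eq_top [Finite G] {N : Subgroup G} [N.Normal] (h : centralizer {z} ≤ N) {w : G} (hw : w ∈ N)
    (e : w * z * w⁻¹ = z⁻¹) : N = ⊤ := by
  have : Fact (Nat.Prime 3) := ⟨Nat.prime_three⟩
  obtain ⟨T, hQ, h1, hT⟩ := C.exists_sylow
  rw [← Sylow.normalizer_sup_eq_top' T (h1.trans h), eq_comm, sup_eq_right]
  intro n hn
  have k := mem_normalizer_iff.1 hn
  have k' := mem_normalizer_iff.1 (inv_mem hn)
  have : n * z * n⁻¹ ∈ zpowers z := hT _ ((k z).1 (hQ C.zQ)) fun t ht => by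
    have := mem_centralizer_singleton_iff.1 (h1 ((k' t).1 ht))
    rw [inv_inv] at this
    calc _ = n * (z * (n⁻¹ * t * n)) * n⁻¹ := by group
      _ = _ := by rw [← this]; group
  rcases eq_or_inv C.z3 this (fun e => C.z_ne (conj_eq_one_iff.1 e)) with e1 | e1
  · exact h (mem_centralizer_singleton_iff.2 (mul_inv_eq_iff_eq_mul.1 e1))
  · have : w⁻¹ * n ∈ N := h (mem_centralizer_singleton_iff.2 (by
      calc w⁻¹ * n * z = w⁻¹ * (n * z * n⁻¹) * n := by group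
        _ = _ := by rw [e1, ← e]; group))
    simpa using N.mul_mem hw this

end Ch

end Cfsg.Lib.Mon.B3
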