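import Cfsg.Agent.Mon.B3Oa
import Cfsg.Prelude.Def_Local

/-! The largest normal `2`- and `3`-subgroups of the centraliser of a reflection. -/

set_option autoImplicit false

namespace Cfsg.Lib.Mon.B3

open Cfsg Subgroup Matrix Cfsg.Lib.LX.O6 QuaternionGroup

namespace O

theorem pow_of {H : Type*} [Group H] {x : H} {p r k m : ℕ} (c : r.Coprime p) (h : x ^ p ^ k = 1)
    (h' : x ^ (r * m) = 1) : x ^ m = 1 :=
  orderOf_dvd_iff_pow_eq_one.1 (((c.symm.pow_left k).of_dvd_left (orderOf_dvd_of_pow_eq_one h)).dvd_of_dvd_mul_left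
    (orderOf_dvd_of_pow_eq_one h'))

noncomputable def σ : Ga Nn →* Equiv.Perm (Fin 4) := exists_pm.choose
theorem σ_sp (g : Ga Nn) (p : Fin 4) : g.1 * sp p * g.1⁻¹ = sp (σ g p) := exists_pm.choose_spec g p

theorem σ_three (g : Ga Nn) : σ g 3 = 3 :=
  sp_inj (by rw [← σ_sp, (mem_Ga.1 g.2).1, mul_inv_cancel_right])

theorem σ_one {g : Ga Nn} : σ g = 1 ↔ ∀ p, g.1 * sp p = sp p * g.1 :=
  ⟨fun h p => by rw [← mul_inv_eq_iff_eq_mul, σ_sp, h]; rfl, fun h => Equiv.ext fun p =>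
    sp_inj (by rw [← σ_sp, h, mul_inv_cancel_right]; rfl)⟩

def cy : Equiv.Perm (Fin 4) := Equiv.swap 0 2 * Equiv.swap 0 1

theorem oc : ok nc0 := (named_inN.2.1 _ (by simp)).1

theorem c0_sp (p : Fin 4) : c0 * sp p * c0⁻¹ = sp (cy p) := by
  rw [c0, sp, gl_conj oc (ns_ok p), sp]
  exact congrArg gl ((by decide +kernel : ∀ p, mm (mm nc0 (ns p)) (iv nc0) = ns (cy p)) p)

theorem c0_Ga : c0 ∈ Ga X0 := mem_Ga.2 ⟨mul_inv_eq_iff_eq_mul.1 (c0_sp 3), c0_mem_X0⟩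

theorem Ga_mono {X Y : Subgroup G8} (h : X ≤ Y) : Ga X ≤ Ga Y := inf_le_inf_left _ h

theorem σ_c0 (h : c0 ∈ Ga Nn) : σ ⟨c0, h⟩ = cy := Equiv.ext fun p => sp_inj (by rw [← σ_sp, c0_sp])

theorem δ_Ga {X : Subgroup G8} {q : Fin 4 → Q8} (h : δ q ∈ X) : δ q ∈ Ga X := mem_Ga.2 ⟨δ_comm q 3, h⟩

variable {Δ : Type*} [Group Δ] {X : Subgroup G8} {f : Ga X →* Δ}

theorem pc (p : ℕ) : IsPGroup p (pCore p Δ) := Sylow.sSup_of_normal _ (fun _ h => h.2) (fun _ h => h.1)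

theorem tw (hk : ∀ g, f g = 1 ↔ g.1 = 1 ∨ g.1 = sp 3) {x : Ga X} (hx : f x ∈ pCore 2 Δ) :
    ∃ k, x ^ 2 ^ k = 1 := by
  obtain ⟨k, e⟩ := pc 2 ⟨_, hx⟩
  have := (hk (x ^ 2 ^ k)).1 (by rw [map_pow]; exact congrArg Subtype.val e)
  refine ⟨k + 1, Subtype.ext ?_⟩
  rw [pow_succ, pow_mul, sq, coe_mul]
  rcases this with e | e <;> rw [e]
  exacts [one_mul _, sp_sq 3]

theorem mem_pc (h0 : X0 ≤ X) (h : X ≤ Nn) (hs : Function.Surjective f)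
    (hk : ∀ g, f g = 1 ↔ g.1 = 1 ∨ g.1 = sp 3) (g : Ga X) : f g ∈ pCore 2 Δ ↔ g.1 ∈ δ.range := by
  let s : Ga X →* Equiv.Perm (Fin 4) := σ.comp (inclusion (Ga_mono h))
  have sp' : ∀ g : Ga X, g.1 ∈ Sp := fun g => (h g.2.2).1
  have one : ∀ g : Ga X, s g = 1 ↔ ∀ p, g.1 * sp p = sp p * g.1 := fun g => σ_one
  constructor
  · intro hg
    have t : ∀ x, f x ∈ pCore 2 Δ → s x ^ 2 = 1 := fun x hx => by
      obtain ⟨k, e⟩ := tw hk hx
      exact pow_of (p := 2) (r := 3) (k := k) (by decide) (by rw [← map_pow, e, map_one])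
        ((by decide +kernel : ∀ s : Equiv.Perm (Fin 4), s 3 = 3 → s ^ (3 * 2) = 1) _ (σ_three _))
    let c : Ga X := ⟨c0, Ga_mono h0 c0_Ga⟩
    have t2 := t (c * g * c⁻¹ * g⁻¹) (by
      rw [map_mul, map_mul, map_mul, map_inv, map_inv]
      exact mul_mem ((pCore_normal 2 Δ).conj_mem _ hg _) (inv_mem hg))
    rw [map_mul, map_mul, map_mul, map_inv, map_inv, show s c = cy from σ_c0 _] at t2
    have e := (one g).1 ((by decide +kernel : ∀ s : Equiv.Perm (Fin 4), s 3 = 3 → s ^ 2 = 1 →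
      (cy * s * cy⁻¹ * s⁻¹) ^ 2 = 1 → s = 1) _ (σ_three _) (t g hg) t2)
    obtain ⟨k, ek⟩ := tw hk hg
    exact (mem_D (sp' g)).2 ⟨e, pow_of (p := 2) (k := k) (by decide) (congrArg Subtype.val ek) (pow12 (sp' g) e)⟩
  · have n : (δ.range.subgroupOf (Ga X)).Normal := ⟨fun x hx g => by
      have hx := (mem_D (sp' x)).1 hx
      refine (mem_D (sp' (g * x * g⁻¹))).2 ⟨(one _).1 ?_, ?_⟩
      · rw [map_mul, map_mul, (one x).2 hx.1, map_inv, mul_one, mul_inv_cancel]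
      · rw [coe_mul, coe_mul, coe_inv, conj_pow, hx.2, mul_one, mul_inv_cancel]⟩
    have p : IsPGroup 2 (δ.range.subgroupOf (Ga X)) := fun x =>
      ⟨2, Subtype.ext (Subtype.ext ((mem_D (sp' x.1)).1 x.2).2)⟩
    exact fun hg => (le_sSup ⟨n.map f hs, p.map f⟩ : _ ≤ pCore 2 Δ) (mem_map_of_mem f hg)

/-- The first three components. -/
def β : (Fin 4 → Q8) →* Q8 × Q8 × Q8 :=
  (Pi.evalMonoidHom _ 0).prod ((Pi.evalMonoidHom _ 1).prod (Pi.evalMonoidHom _ 2))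

theorem pc_equiv (h0 : X0 ≤ X) (h : X ≤ Nn) (hs : Function.Surjective f)
    (hk : ∀ g, f g = 1 ↔ g.1 = 1 ∨ g.1 = sp 3) : Nonempty (pCore 2 Δ ≃* (X.comap δ).map β) := by
  let α0 : X.comap δ →* Ga X := (δ.comp (X.comap δ).subtype).codRestrict _ fun q => δ_Ga q.2
  let α : X.comap δ →* pCore 2 Δ := (f.comp α0).codRestrict _ fun q => (mem_pc h0 h hs hk _).2 ⟨q.1, rfl⟩
  have sa : Function.Surjective α := fun ⟨d, hd⟩ => by
    obtain ⟨g, rfl⟩ := hs d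
    obtain ⟨q, e⟩ := (mem_pc h0 h hs hk g).1 hd
    exact ⟨⟨q, show δ q ∈ X from e ▸ g.2.2⟩, Subtype.ext (congrArg f (Subtype.ext e))⟩
  have e : α.ker = (β.subgroupMap (X.comap δ)).ker := by
    ext q
    rw [MonoidHom.mem_ker, MonoidHom.mem_ker, Subtype.ext_iff, Subtype.ext_iff]
    change f (α0 q) = 1 ↔ β q.1 = 1
    rw [hk]
    change δ q.1 = 1 ∨ δ q.1 = sp 3 ↔ _
    refine ⟨?_, fun e => fix_blk (h q.2) (δ_val _) fun p hp => ?_⟩
    · rw [← δ_sp, ← map_one δ]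
      rintro (e | e) <;> rw [δ_inj e] <;> rfl
    · have : q.1 p = 1 := by
        fin_cases p
        exacts [congrArg (·.1) e, congrArg (·.2.1) e, congrArg (·.2.2) e, absurd rfl hp]
      rw [this]; exact map_one psiH
  exact ⟨(QuotientGroup.quotientKerEquivOfSurjective α sa).symm.trans
    ((QuotientGroup.quotientMulEquivOfEq e).trans
      (QuotientGroup.quotientKerEquivOfSurjective _ (β.subgroupMap_surjective _)))⟩

theorem mem_B {X : Subgroup G8} {q : Fin 4 → Q8} (h : gl (cd q) ∈ X) : (q 0, q 1, q 2) ∈ (X.comap δ).map β :=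
  ⟨q, show δ q ∈ X from gl_cd q ▸ h, rfl⟩

theorem card_B : Nat.card ((X0.comap δ).map β) = 2 ^ 7 := by
  have k : ∀ x, (x, 1, 1) ∈ (X0.comap δ).map β ↔ x = 1 ∨ x = zz := fun x => by
    refine ⟨fun ⟨q, hq, e⟩ => ker_X (w := q 3) ?_, ?_⟩
    · have : ![x, 1, 1, q 3] = q := by
        ext1 p; fin_cases p
        exacts [(congrArg (·.1) e).symm, (congrArg (·.2.1) e).symm, (congrArg (·.2.2) e).symm, rfl]
      rw [this]; exact hq
    · rintro (rfl | rfl)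
      exacts [one_mem _, ⟨Pi.mulSingle 0 zz, show δ _ ∈ X0 from δ_sp 0 ▸ sp_mem_X0 0, rfl⟩]
  have m : ∀ t : Q8 × Q8 × Q8, t ∈ (X0.comap δ).map β ↔ t.1 * (th (th t.2.1) * th t.2.2)⁻¹ = 1 ∨
      t.1 * (th (th t.2.1) * th t.2.2)⁻¹ = zz := fun ⟨x, y, u⟩ => by
    rw [← k, ← mul_mem_cancel_right (inv_mem (mul_mem (mem_B (gen_X y).1.mem) (mem_B (gen_X u).2.mem)))]
    simp
  rw [Nat.card_congr (Equiv.subtypeEquivRight m), Nat.card_eq_fintype_card]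
  decide +kernel

theorem R0_bd {r : G8} (hr : r ∈ R0) (h : r * sp 3 = sp 3 * r) : r ∈ δ.range := by
  obtain ⟨n, ⟨h1, h2⟩, o, rfl⟩ := R0_cases (P := fun n => mm (mm n n) (mm n n) = en ∧
    ((∀ p, p ≠ 3 → bk (dec n) p 3 = 0) → ∀ p q, p ≠ q → bk (dec n) p q = 0)) (by decide +kernel) hr
  refine (mem_D o.sp).2 ⟨bd_iff.1 ⟨_, o.val.trans (eq_blk (h2 fun p n3 => ?_))⟩, Units.ext ?_⟩
  · have := congrArg (fun x : G8 => bk x.1 p 3) h
    simp only [Units.val_mul, sp_val, bk_blk_mul, bk_mul_blk, if_true, if_neg n3, mul_neg, mul_one, one_mul,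
      o.val] at this
    ext c d
    exact (by decide : ∀ x : ZMod 3, -x = x → x = 0) _ (congrFun (congrFun this c) d)
  · rw [Units.val_pow_eq_pow_val, o.val, show 4 = 2 + 2 from rfl, pow_add, sq, ← dec_mm, ← dec_mm, h1, dec_en]; rfl

theorem blk_rel {g : G8} (hg : g ∈ Nn) {b : Fin 4 → M2} (e : g.1 = blk b) (p : Fin 4) :
    ∃ q, b p = psi q * b 3 := by
  obtain ⟨n, -, h1, o, h3⟩ := (by decide +kernel : ∀ p : Fin 4, ∃ n ∈ [en, nX1, nX2, mm nX1 nX2], inR n ∧ ok n ∧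
    bk (dec n) p 3 = 1) p
  have hr : g * gl n * g⁻¹ * (gl n)⁻¹ ∈ R0 := mul_mem ((mem_normalizer_iff.1 hg.2 _).1 h1.mem) (inv_mem h1.mem)
  obtain ⟨r, hr'⟩ := cj_sp (inv_mem h1.mem)
  have c := bd_iff.1 ⟨b, e⟩
  have c' : ∀ p, g⁻¹ * sp p = sp p * g⁻¹ := fun p => (Commute.inv_left (c p)).eq
  obtain ⟨q, hq⟩ := R0_bd hr (by
    calc _ = g * gl n * (g⁻¹ * ((gl n)⁻¹ * sp 3 * (gl n)⁻¹⁻¹)) * (gl n)⁻¹ := by group
    _ = g * gl n * (((gl n)⁻¹ * sp 3 * (gl n)⁻¹⁻¹) * g⁻¹) * (gl n)⁻¹ := by rw [hr', c']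
    _ = g * sp 3 * gl n * g⁻¹ * (gl n)⁻¹ := by group
    _ = _ := by rw [c]; group)
  have k : δ q * gl n * g = g * gl n := by rw [hq]; group
  have := congrArg (fun x : G8 => bk x.1 p 3) k
  simp only [Units.val_mul, e, δ_val, bk_blk_mul, bk_mul_blk, o.val, h3, mul_one] at this
  exact ⟨_, this.symm⟩

theorem t1_facts : (gl nt1).1 = (blk fun _ => tt) ∧ gl nt1 ∈ Ga X0 := by
  have o : inX nt1 ∧ ok nt1 ∧ mm nt1 (ns 3) = mm (ns 3) nt1 := by decide +kernel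
  exact ⟨by rw [o.2.1.val]; decide +kernel, mem_Ga_gl o.1.mem o.2⟩

theorem δt_pow (q : Fin 4 → Q8) (n : ℕ) : ((δ q * gl nt1) ^ n).1 = blk fun p => (psi (q p) * tt) ^ n := by
  rw [Units.val_pow_eq_pow_val, Units.val_mul, δ_val, t1_facts.1, blk_mul, blk_pow]; rfl

end O

open O

theorem o3 {Δ : Type*} [Group Δ] {X : Subgroup G8} (h0 : X0 ≤ X) (h : X ≤ Nn) (f : Ga X →* Δ)
    (hs : Function.Surjective f) (hk : ∀ g, f g = 1 ↔ g.1 = 1 ∨ g.1 = sp 3) : pCore 3 Δ = ⊥ := by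
  refine eq_bot_iff.2 fun d hd => ?_
  obtain ⟨g, rfl⟩ := hs d
  have cm : ∀ q, δ q ∈ X → g.1 * δ q = δ q * g.1 ∨ g.1 * δ q = sp 3 * δ q * g.1 := fun q hq => by
    let e : Ga X := ⟨_, δ_Ga hq⟩
    have he : f e ∈ pCore 2 Δ := (mem_pc h0 h hs hk e).2 ⟨q, rfl⟩
    have : f (g * e * g⁻¹ * e⁻¹) = 1 := by
      refine mem_bot.1 ((IsPGroup.disjoint_of_ne 2 3 (by decide) _ _ (pc 2) (pc 3)).le_bot
        (mem_inf.2 ⟨?_, ?_⟩)) <;>
        rw [map_mul, map_mul, map_mul, map_inv, map_inv]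
      · exact mul_mem ((pCore_normal 2 Δ).conj_mem _ he _) (inv_mem he)
      · have := mul_mem hd ((pCore_normal 3 Δ).conj_mem _ (inv_mem hd) (f e))
        rwa [← mul_assoc, ← mul_assoc] at this
    refine ((hk _).1 this).imp (fun k => ?_) fun k => ?_
    · rw [← one_mul (δ q * g.1), ← k]; simp [e]
    · rw [← k]; simp [e]
  obtain ⟨b, e⟩ := bd_iff.2 fun p => by
    rcases cm _ ((δ_sp p).symm ▸ h0 (sp_mem_X0 p)) with k | k <;> rw [δ_sp] at k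
    · exact k
    have := σ_sp ⟨g.1, Ga_mono h g.2⟩ p
    rw [k, mul_inv_cancel_right, Units.ext_iff, Units.val_mul, sp_val, sp_val, sp_val] at this
    exact absurd this ((by decide +kernel : ∀ p q : Fin 4, (blk (fun r => if r = 3 then -1 else 1) *
      blk fun r => if r = p then -1 else 1) ≠ blk fun r => if r = q then -1 else 1) _ _)
  have c : ∀ x : Q8, δ (fun _ => x) ∈ X → ∀ p, p ≠ 3 → b p * psi x = psi x * b p := fun x hx p hp => by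
    rcases cm _ hx with k | k <;> rw [Units.ext_iff] at k <;>
      simp only [Units.val_mul, e, δ_val, sp_val, blk_mul] at k
    · exact blk_inj k p
    · simpa only [Pi.mul_apply, if_neg hp, one_mul] using blk_inj k p
  have m : ∀ x ∈ [a 1, xa 0], δ (fun _ => x) ∈ X := fun x hx => gl_cd _ ▸ h0 (R0_le_X0
    ((by decide +kernel : ∀ x ∈ [a 1, xa 0], inR (cd fun _ => x)) x hx).mem)
  have k := (hk (g * g)).2 (fix_blk (h (g * g).2.2) (b := b * b) (by rw [coe_mul, Units.val_mul, e, blk_mul]) fun p hp =>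
    (sl2 _ (det_of (h g.2.2).1 e p)).2.2.2 (c _ (m _ (by simp)) p hp) (c _ (m _ (by simp)) p hp))
  obtain ⟨n, hn⟩ := pc 3 ⟨_, hd⟩
  have := pow_of (p := 3) (r := 2) (k := n) (m := 1) (x := f g) (by decide) (congrArg Subtype.val hn)
    (by rw [mul_one, sq, ← map_mul, k])
  rwa [pow_one] at this

theorem o2B {Δ : Type*} [Group Δ] (f : Ga Nn →* Δ) (hs : Function.Surjective f)
    (hk : ∀ g, f g = 1 ↔ g.1 = 1 ∨ g.1 = sp 3) :
    Nonempty (pCore 2 Δ ≃* QuaternionGroup 2 × QuaternionGroup 2 × QuaternionGroup 2) := by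
  obtain ⟨e⟩ := pc_equiv X0_le le_rfl hs hk
  have t : (Nn.comap δ).map β = ⊤ := eq_top_iff.2 fun ⟨x, y, u⟩ _ => by
    simpa using mul_mem (mul_mem (mem_B (gen_N x).1.mem) (mem_B (gen_N y).2.1.mem)) (mem_B (gen_N u).2.2.mem)
  exact ⟨e.trans ((MulEquiv.subgroupCongr t).trans topEquiv)⟩

theorem o2F {Δ : Type*} [Group Δ] (f : Ga X0 →* Δ) (hs : Function.Surjective f)
    (hk : ∀ g, f g = 1 ↔ g.1 = 1 ∨ g.1 = sp 3) :
    Nat.card (pCore 2 Δ) = 2 ^ 7 ∧ (∀ g, f g ∈ pCore 2 Δ → Bd g.1) ∧ ∀ g p, g.1 = sp p → f g ∈ pCore 2 Δ := by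
  obtain ⟨e⟩ := pc_equiv le_rfl X0_le hs hk
  refine ⟨(Nat.card_congr e.toEquiv).trans card_B, fun g hg => ?_, fun g p hg =>
    (mem_pc le_rfl X0_le hs hk g).2 ⟨_, (δ_sp p).trans hg.symm⟩⟩
  obtain ⟨q, e⟩ := (mem_pc le_rfl X0_le hs hk g).1 hg
  exact e ▸ δ_bd q

section
variable {S : Subgroup G8} (hS : ∀ g ∈ Ga X0, g ^ 3 = 1 → g ∈ S)
include hS

theorem O.t1_mem : gl nt1 ∈ S := hS _ t1_facts.2 (Units.ext (by
    rw [Units.val_pow_eq_pow_val, t1_facts.1, blk_pow]; decide +kernel))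

theorem O.c0_mem' : c0 ∈ S := hS _ c0_Ga (by
    rw [c0, pow_three', gl_mul oc oc, gl_mul (by decide +kernel) oc, ← gl_en]; exact congrArg gl (by decide +kernel))

theorem O.sp_mem' (p : Fin 4) : sp p ∈ S := by
  have k : ∀ q, inX (cd q) → (∀ p, (psi (q p) * tt) ^ 3 = 1) → δ q ∈ S := fun q hq h3 =>
    (S.mul_mem_cancel_right (t1_mem hS)).1 (hS _ (mul_mem (δ_Ga (gl_cd q ▸ hq.mem)) t1_facts.2) (Units.ext (by
      rw [δt_pow, funext h3]; exact blk_one)))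
  have cm : ∀ p q r, δ q ∈ S → δ r ∈ S → q * r * q⁻¹ * r⁻¹ = Pi.mulSingle p zz → sp p ∈ S :=
    fun p q r hq hr e => by
      rw [← δ_sp, ← e, map_mul, map_mul, map_mul, map_inv, map_inv]
      exact mul_mem (mul_mem (mul_mem hq hr) (inv_mem hq)) (inv_mem hr)
  have u := k _ (gen_X (xa 0)).2 (by decide +kernel)
  have s3 := cm 3 _ _ u (k _ (gen_X (a 1)).1 (by decide +kernel)) (by decide +kernel)
  have s0 := cm 0 _ _ u (k _ (gen_X (xa 3)).1 (by decide +kernel)) (by decide +kernel)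
  have hc := c0_mem' hS
  have cj : ∀ p, sp p ∈ S → sp (cy p) ∈ S := fun p hp => c0_sp p ▸ mul_mem (mul_mem hc hp) (inv_mem hc)
  rcases (by decide : ∀ p : Fin 4, p = 0 ∨ p = cy 0 ∨ p = cy (cy 0) ∨ p = 3) p with e | e | e | e <;> rw [e]
  exacts [s0, cj 0 s0, cj _ (cj 0 s0), s3]

theorem O.δ_mem {q : Fin 4 → Q8} (hq : δ q ∈ X0) : δ q ∈ S := by
  have hm := mul_mem (δ_Ga hq) t1_facts.2
  have h4 := hS _ (pow_mem hm 4) (by
    rw [← pow_mul, mul_comm 4]; exact pow12 (X0_le hm.2).1 (bd_iff.1 ⟨_, pow_one (δ q * gl nt1) ▸ δt_pow q 1⟩))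
  choose ε h1 h2 using fun p => q8.2.2.2 (q p)
  have h3 : (δ q * gl nt1) ^ 3 ∈ S := by
    rw [show (δ q * gl nt1) ^ 3 = δ ε from Units.ext (by rw [δt_pow, funext h2, δ_val])]
    exact sign_mem (sp_mem' hS) h1
  rw [pow_succ] at h4
  exact (S.mul_mem_cancel_right (t1_mem hS)).1 ((S.mul_mem_cancel_left h3).1 h4)

theorem O.bd_mem {g : G8} (hg : g ∈ X0) (h : ∀ p, g * sp p = sp p * g) : g ∈ S := by
  obtain ⟨b, e⟩ := bd_iff.2 h
  obtain ⟨q3, n, e3⟩ := (sl2 _ (det_of (X0_le hg).1 e 3)).2.2.1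
  choose q hq using blk_rel (X0_le hg) e
  have w : g = δ (q * fun _ => q3) * gl nt1 ^ n.1 := Units.ext (by
    rw [e, Units.val_mul, Units.val_pow_eq_pow_val, t1_facts.1, δ_val, blk_pow, blk_mul]
    congr 1; ext1 p
    rw [hq, e3, ← mul_assoc]
    exact congrArg (· * _) (map_mul psiH _ _).symm)
  rw [w] at hg ⊢
  exact mul_mem (δ_mem hS ((X0.mul_mem_cancel_right (pow_mem t1_facts.2.2 _)).1 hg)) (pow_mem (t1_mem hS) _)

end

theorem no2 {S : Subgroup G8} (hS : ∀ g ∈ Ga X0, g ^ 3 = 1 → g ∈ S) : Ga X0 ≤ S := by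
  intro g hg
  obtain ⟨G, hG⟩ : ∃ G : Ga Nn, G.1 = g := ⟨⟨g, Ga_mono X0_le hg⟩, rfl⟩
  obtain ⟨c, hc, sc⟩ : ∃ c : Ga Nn, c.1 = c0 ∧ σ c = cy := ⟨⟨c0, Ga_mono X0_le c0_Ga⟩, rfl, σ_c0 _⟩
  have r : σ (G * c * G⁻¹ * c⁻¹) = 1 := by
    obtain ⟨q, e⟩ := R0_bd (r := (G * c * G⁻¹ * c⁻¹).1) (by
      rw [coe_mul, coe_mul, coe_mul, coe_inv, coe_inv, hG, hc]; exact hg.2.2) (mem_Ga.1 (G * c * G⁻¹ * c⁻¹).2).1
    exact σ_one.2 fun p => by rw [← e]; exact δ_comm q p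
  rw [map_mul, map_mul, map_mul, map_inv, map_inv, sc] at r
  obtain ⟨n, e⟩ := (by decide +kernel : ∀ s : Equiv.Perm (Fin 4), s 3 = 3 → s * cy * s⁻¹ * cy⁻¹ = 1 →
    ∃ n : Fin 3, s * cy ^ n.1 = 1) _ (σ_three G) r
  rw [← sc, ← map_pow, ← map_mul, σ_one, coe_mul, coe_pow, hG, hc] at e
  exact (S.mul_mem_cancel_right (pow_mem (c0_mem' hS) n.1)).1 (bd_mem hS (mul_mem hg.2 (pow_mem c0_mem_X0 _)) e)

end Cfsg.Lib.Mon.B3
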