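import Cfsg.Agent.Mon.B3C
import Mathlib.GroupTheory.SpecificGroups.Quaternion

/-! Block diagonal matrices and the group `Q₈⁴` inside `Sp₈(3)`. -/

set_option autoImplicit false

namespace Cfsg.Lib.Mon.B3.O

open Subgroup Matrix Cfsg.Lib.LX.O6 QuaternionGroup

abbrev M2 := Matrix (Fin 2) (Fin 2) (ZMod 3)
abbrev Q8 := QuaternionGroup 2

def pp (i : Fin 8) : Fin 4 := ⟨i.1 / 2, by omega⟩
def cc (i : Fin 8) : Fin 2 := ⟨i.1 % 2, by omega⟩
def ix (p : Fin 4) (c : Fin 2) : Fin 8 := ⟨2 * p.1 + c.1, by omega⟩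

theorem pp_ix (p : Fin 4) (c : Fin 2) : pp (ix p c) = p := by revert p c; decide
theorem cc_ix (p : Fin 4) (c : Fin 2) : cc (ix p c) = c := by revert p c; decide
theorem ix_pc (i : Fin 8) : ix (pp i) (cc i) = i := by revert i; decide

/-- Block diagonal matrix. -/
def blk (b : Fin 4 → M2) : M8 := of fun i j => if pp i = pp j then b (pp i) (cc i) (cc j) else 0
/-- A block of a matrix. -/
def bk (A : M8) (p q : Fin 4) : M2 := of fun c d => A (ix p c) (ix q d)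
/-- The part of a vector in a plane. -/
def rs (v : V8) (p : Fin 4) : Fin 2 → ZMod 3 := fun d => v (ix p d)

theorem sum8 (f : Fin 8 → ZMod 3) : ∑ i, f i = ∑ p, ∑ c, f (ix p c) := by
  simp only [Fin.sum_univ_eight, Fin.sum_univ_four, Fin.sum_univ_two, add_assoc]; rfl

theorem ext_bk {A B : M8} (h : ∀ p q, bk A p q = bk B p q) : A = B := by
  ext i j
  simpa only [bk, of_apply, ix_pc] using congrFun (congrFun (h (pp i) (pp j)) (cc i)) (cc j)

theorem ext_rs {v w : V8} (h : ∀ p, rs v p = rs w p) : v = w := by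
  ext i
  simpa only [rs, ix_pc] using congrFun (h (pp i)) (cc i)

theorem bk_blk (b : Fin 4 → M2) (p q : Fin 4) : bk (blk b) p q = if p = q then b p else 0 := by
  ext c d
  simp only [bk, blk, of_apply, pp_ix, cc_ix]
  split_ifs <;> rfl

theorem bk_mul (A B : M8) (p q : Fin 4) : bk (A * B) p q = ∑ r, bk A p r * bk B r q := by
  ext c d
  simp only [bk, mul_apply, sum8, Matrix.sum_apply, of_apply]

theorem bk_blk_mul (b : Fin 4 → M2) (A : M8) (p q : Fin 4) : bk (blk b * A) p q = b p * bk A p q := by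
  simp [bk_mul, bk_blk]

theorem bk_mul_blk (b : Fin 4 → M2) (A : M8) (p q : Fin 4) : bk (A * blk b) p q = bk A p q * b q := by
  simp [bk_mul, bk_blk]

theorem blk_mul (b c : Fin 4 → M2) : blk b * blk c = blk (b * c) := ext_bk fun p q => by
  rw [bk_blk_mul, bk_blk, bk_blk]
  split_ifs <;> simp

theorem blk_one : blk 1 = 1 := by decide +kernel

def blkH : (Fin 4 → M2) →* M8 := ⟨⟨blk, blk_one⟩, fun b c => (blk_mul b c).symm⟩

theorem blk_pow (b : Fin 4 → M2) (n : ℕ) : blk b ^ n = blk (b ^ n) := (map_pow blkH b n).symm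

theorem blk_inj {b c : Fin 4 → M2} (h : blk b = blk c) (p : Fin 4) : b p = c p := by
  simpa only [bk_blk, if_true] using congrArg (bk · p p) h

theorem eq_blk {A : M8} (h : ∀ p q, p ≠ q → bk A p q = 0) : A = blk fun p => bk A p p := ext_bk fun p q => by
  rw [bk_blk]
  split_ifs with e
  exacts [e ▸ rfl, h p q e]

theorem rs_blk (b : Fin 4 → M2) (v : V8) (p : Fin 4) : rs (blk b *ᵥ v) p = b p *ᵥ rs v p := by
  ext c
  simp [rs, mulVec, dotProduct, sum8, blk, pp_ix, cc_ix]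

theorem mem_Pl' {p : Fin 4} {v : V8} : v ∈ Pl p ↔ ∀ q, q ≠ p → rs v q = 0 := by
  refine ⟨fun h q hq => funext fun c => h _ fun e => hq ?_, fun h i hi => ?_⟩
  · rw [← pp_ix q c]; exact Fin.ext e
  · have := congrFun (h (pp i) fun e => hi (congrArg Fin.val e)) (cc i)
    rwa [rs, ix_pc] at this

/-- A vector in a plane. -/
def em (p : Fin 4) (w : Fin 2 → ZMod 3) : V8 := fun i => if pp i = p then w (cc i) else 0

theorem rs_em (p q : Fin 4) (w : Fin 2 → ZMod 3) : rs (em p w) q = if q = p then w else 0 := by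
  ext c
  simp only [rs, em, pp_ix, cc_ix]
  split_ifs <;> rfl

theorem em_mem (p : Fin 4) (w : Fin 2 → ZMod 3) : em p w ∈ Pl p := mem_Pl'.2 fun q h => by rw [rs_em, if_neg h]

theorem B0_rs (u v : V8) : B0 u v = ∑ p, (rs u p 0 * rs v p 1 - rs u p 1 * rs v p 0) := by
  simp only [Fin.sum_univ_four]; rfl

theorem det_of {g : G8} (hg : g ∈ Sp) {b : Fin 4 → M2} (e : g.1 = blk b) (p : Fin 4) : (b p).det = 1 := by
  have := hg (em p ![1, 0]) (em p ![0, 1])
  rw [e, B0_rs, B0_rs, Finset.sum_eq_single p, Finset.sum_eq_single p] at this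
  · rw [det_fin_two]
    simpa [rs_blk, rs_em, mulVec, dotProduct, mul_comm] using this
  all_goals simp +contextual [rs_blk, rs_em]

theorem sp_val (p : Fin 4) : (sp p).1 = blk fun r => if r = p then -1 else 1 := by
  rw [sp, (ns_ok p).val]; revert p; decide +kernel

theorem bd_iff {g : G8} : (∃ b, g.1 = blk b) ↔ ∀ p, g * sp p = sp p * g := by
  refine ⟨fun ⟨b, e⟩ p => Units.ext ?_, fun h => ⟨_, eq_blk fun p q n => ?_⟩⟩
  · rw [Units.val_mul, Units.val_mul, e, sp_val, blk_mul, blk_mul]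
    congr 1; ext1 r
    simp only [Pi.mul_apply]
    split_ifs <;> simp
  · have := congrArg (fun x : G8 => bk x.1 p q) (h q)
    simp only [Units.val_mul, sp_val, bk_blk_mul, bk_mul_blk, if_true, if_neg n, mul_neg, mul_one, one_mul] at this
    ext c d
    exact (by decide : ∀ x : ZMod 3, -x = x → x = 0) _ (congrFun (congrFun this c) d)

theorem fix_blk {g : G8} (hg : g ∈ Nn) {b : Fin 4 → M2} (e : g.1 = blk b) (h : ∀ p, p ≠ 3 → b p = 1) :
    g = 1 ∨ g = sp 3 := fix6 hg fun v h6 h7 => ext_rs fun p => by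
  rw [e, rs_blk]
  by_cases k : p = 3
  · have : rs v 3 = 0 := by ext c; fin_cases c; exacts [h6, h7]
    rw [k, this, mulVec_zero]
  · rw [h p k, one_mulVec]

/-- The quaternion group in `SL₂(3)`. -/
def psi : Q8 → M2
  | a i => if i = 0 then !![1, 0; 0, 1] else if i = 1 then !![0, 2; 1, 0] else
      if i = 2 then !![2, 0; 0, 2] else !![0, 1; 2, 0]
  | xa i => if i = 0 then !![1, 1; 1, 2] else if i = 1 then !![1, 2; 2, 2] else
      if i = 2 then !![2, 2; 2, 1] else !![2, 1; 1, 1]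

def psiH : Q8 →* M2 := ⟨⟨psi, by decide +kernel⟩, by decide +kernel⟩
def tt : M2 := !![1, 2; 0, 1]
def zz : Q8 := a 2

theorem sl2 (b : M2) (h : b.det = 1) : (b ^ 4 = 1 ∨ b ^ 6 = 1) ∧ (b ^ 4 = 1 → ∃ q, psi q = b) ∧
    (∃ q, ∃ k : Fin 3, b = psi q * tt ^ k.1) ∧
    (b * psi (a 1) = psi (a 1) * b → b * psi (xa 0) = psi (xa 0) * b → b * b = 1) := by
  rw [eta_fin_two b] at h ⊢
  rw [det_fin_two_of] at h
  revert h
  generalize b 0 0 = x, b 0 1 = y, b 1 0 = u, b 1 1 = w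
  revert x y u w
  decide +kernel

theorem q8 : (∀ x y, psi x = psi y → x = y) ∧ (∀ x : Q8, x ^ 4 = 1) ∧
    (∀ x, psi x * psi x = 1 → psi x = 1 ∨ psi x = -1) ∧
    ∀ x, ∃ e, (e = 1 ∨ e = zz) ∧ (psi x * tt) ^ 3 = psi e := by decide +kernel

/-- The group `Q₈⁴`. -/
def δ : (Fin 4 → Q8) →* G8 := (blkH.comp (psiH.compLeft (Fin 4))).toHomUnits

theorem δ_val (q : Fin 4 → Q8) : (δ q).1 = blk fun p => psi (q p) := rfl

theorem δ_inj {q r : Fin 4 → Q8} (h : δ q = δ r) : q = r :=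
  funext fun p => q8.1 _ _ (blk_inj (congrArg Units.val h) p)

theorem δ_sp (p : Fin 4) : δ (Pi.mulSingle p zz) = sp p := Units.ext (by
  rw [δ_val, sp_val]; revert p; decide +kernel)

theorem δ_four (q : Fin 4 → Q8) : δ q ^ 4 = 1 := by
  rw [← map_pow, show q ^ 4 = 1 from funext fun p => q8.2.1 _, map_one]

theorem δ_comm (q : Fin 4 → Q8) (p : Fin 4) : δ q * sp p = sp p * δ q := bd_iff.1 ⟨_, δ_val q⟩ p

theorem mem_D {g : G8} (hg : g ∈ Sp) : g ∈ δ.range ↔ (∀ p, g * sp p = sp p * g) ∧ g ^ 4 = 1 := by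
  refine ⟨fun ⟨q, e⟩ => e ▸ ⟨δ_comm q, δ_four q⟩, fun ⟨h, h4⟩ => ?_⟩
  obtain ⟨b, e⟩ := bd_iff.2 h
  have k : blk (b ^ 4) = blk 1 := by rw [← blk_pow, ← e, ← Units.val_pow_eq_pow_val, h4, blk_one]; rfl
  choose q hq using fun p => (sl2 _ (det_of hg e p)).2.1 (blk_inj k p)
  exact ⟨q, Units.ext (by rw [δ_val, e, funext hq])⟩

theorem pow12 {g : G8} (hg : g ∈ Sp) (h : ∀ p, g * sp p = sp p * g) : g ^ (3 * 4) = 1 := by
  obtain ⟨b, e⟩ := bd_iff.2 h
  refine Units.ext ?_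
  rw [Units.val_pow_eq_pow_val, e, blk_pow, Units.val_one, ← blk_one]
  congr 1; ext1 p
  rcases (sl2 _ (det_of hg e p)).1 with k | k
  · rw [Pi.pow_apply, mul_comm, pow_mul, k, one_pow]; rfl
  · rw [Pi.pow_apply, show 3 * 4 = 6 * 2 from rfl, pow_mul, k, one_pow]; rfl

theorem δ_bd (q : Fin 4 → Q8) : Bd (δ q) := ⟨δ_four q, fun p => ⟨fun v hv => mem_Pl'.2 fun r n => by
  rw [δ_val, rs_blk, mem_Pl'.1 hv r n, mulVec_zero], fun h => by
  have k : psi (q p) * psi (q p) = 1 := by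
    refine ext_of_mulVec_single fun c => ?_
    have := congrArg (rs · p) (h _ (em_mem p (Pi.single c 1)))
    simp only [δ_val, rs_blk, rs_em, if_true] at this
    rwa [← mulVec_mulVec, one_mulVec]
  have w : ∀ s : ZMod 3, psi (q p) = s • (1 : M2) → ∀ v ∈ Pl p, (δ q).1 *ᵥ v = s • v := fun s e v hv =>
    ext_rs fun r => by
      rw [δ_val, rs_blk, show rs (s • v) r = s • rs v r from rfl]
      by_cases n : r = p
      · rw [n, e, smul_mulVec, one_mulVec]
      · rw [mem_Pl'.1 hv r n, mulVec_zero, smul_zero]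
  refine (q8.2.2.1 _ k).imp (fun e v hv => ?_) fun e v hv => ?_
  · rw [w 1 (by rw [e, one_smul]) v hv, one_smul]
  · rw [w (-1) (by rw [e, neg_one_smul]) v hv, neg_one_smul]⟩⟩

theorem sign_mem {S : Subgroup G8} (h : ∀ p, sp p ∈ S) {q : Fin 4 → Q8} (hq : ∀ p, q p = 1 ∨ q p = zz) :
    δ q ∈ S := by
  have k : ∀ p, δ (Pi.mulSingle p (q p)) ∈ S := fun p => by
    rcases hq p with e | e <;> rw [e]
    · rw [Pi.mulSingle_one, map_one]; exact S.one_mem
    · rw [δ_sp]; exact h p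
  have e : q = (Pi.mulSingle 0 (q 0) : Fin 4 → Q8) * (Pi.mulSingle 1 (q 1) : Fin 4 → Q8) *
      (Pi.mulSingle 2 (q 2) : Fin 4 → Q8) * (Pi.mulSingle 3 (q 3) : Fin 4 → Q8) := by
    ext1 p; fin_cases p <;> simp
  rw [e, map_mul, map_mul, map_mul]
  exact S.mul_mem (S.mul_mem (S.mul_mem (k 0) (k 1)) (k 2)) (k 3)

/-- The code of a matrix. -/
def enc8 (A : M8) : ℕ := pk fun i j => (A (Fin.ofNat 8 i) (Fin.ofNat 8 j)).val

theorem dec_enc (A : M8) : dec (enc8 A) = A := by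
  ext i j
  rw [enc8, dec_pk, Fin.ofNat_val_eq_self, Fin.ofNat_val_eq_self, ZMod.natCast_zmod_val]

def cd (q : Fin 4 → Q8) : ℕ := enc8 (blk fun p => psi (q p))

theorem gl_cd (q : Fin 4 → Q8) : gl (cd q) = δ q :=
  Units.ext ((gl_val' (by rw [cd, dec_enc]; exact (δ q).isUnit)).trans (dec_enc _))

/-- The automorphism of order three. -/
def th : Q8 → Q8
  | a i => if i = 0 ∨ i = 2 then a i else xa (i - 1)
  | xa i => if i = 0 ∨ i = 2 then xa (i + 3) else a (i + 2)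

theorem gen_N : ∀ x : Q8, inN (cd ![x, 1, 1, x]) ∧ inN (cd ![1, x, 1, x]) ∧ inN (cd ![1, 1, x, x]) := by
  decide +kernel

theorem gen_X : ∀ x : Q8, inX (cd ![th (th x), x, 1, th x]) ∧ inX (cd ![th x, 1, x, th (th x)]) := by
  decide +kernel

theorem ker_X {x w : Q8} (h : δ ![x, 1, 1, w] ∈ X0) : x = 1 ∨ x = zz := by
  obtain ⟨n, h1, o, e⟩ := R0_cases (P := fun n => ∀ x w : Q8,
    dec (mm (mm (mm (cd ![x, 1, 1, w]) nc0) (cd ![x⁻¹, 1, 1, w⁻¹])) (iv nc0)) = dec n → x = 1 ∨ x = zz)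
    (by decide +kernel) h.2
  have oc : ok nc0 := (named_inN.2.1 _ (by simp)).1
  refine h1 x w ?_
  have i : (δ ![x, 1, 1, w])⁻¹ = δ ![x⁻¹, 1, 1, w⁻¹] := by
    rw [← map_inv]; congr 1; ext1 p; fin_cases p <;> simp
  rw [← o.val, ← e, i, c0, gl_inv oc, dec_mm, dec_mm, dec_mm, cd, cd, dec_enc, dec_enc, Units.val_mul, Units.val_mul,
    Units.val_mul, oc.val, gl_val' oc.unit_iv, δ_val, δ_val]

end Cfsg.Lib.Mon.B3.O
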