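import Cfsg.Agent.Mon.B3P

/-! The local situation of an element of order three acting on `3^{1+8}`. -/

set_option autoImplicit false

namespace Cfsg.Lib.Mon.B3

open Cfsg Subgroup Matrix Module

theorem iso3 : ∀ a b c d e f : F3, ∃ x y w : F3, ¬(x = 0 ∧ y = 0 ∧ w = 0) ∧
    x * x * a + y * y * b + w * w * c + x * y * d + x * w * e + y * w * f = 0 := by decide +kernel

theorem mem_Iv' {g : G8} {v : V8} : v ∈ Iv g ↔ ∃ u, u - g.1 *ᵥ u = v :=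
  mem_Iv.trans ⟨fun ⟨u, e⟩ => ⟨-u, by rw [← e, mulVec_neg]; abel⟩, fun ⟨u, e⟩ => ⟨-u, by
    rw [← e, mulVec_neg]; abel⟩⟩

theorem la {g : G8} (hg : g ∈ Nn) (h3 : g ^ 3 = 1) (h1 : g ≠ 1) {F W : Submodule (ZMod 3) V8} (fw : F ≤ W)
    (wc : W ≤ Cv g) (jw : I2 g ≤ W) (ce : ∀ f ∈ F, ∀ w ∈ W, B0 f w = 0) (k : V8 → F3)
    (k1 : ∀ u w, u - g.1 *ᵥ u ∈ F → w - g.1 *ᵥ w ∈ F → k (u + w) = k u + k w + B0 u (w - g.1 *ᵥ w))
    (k2 : ∀ w, w - g.1 *ᵥ w ∈ F → k w = 0 → w ∈ W) (bd : finrank (ZMod 3) W ≤ finrank (ZMod 3) F + 2)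
    (eq : (∀ u ∈ W, ∀ w ∈ W, B0 u w = 0) → finrank (ZMod 3) W = finrank (ZMod 3) F + 2 → finrank (ZMod 3) F ≤ 1) :
    (∀ u ∈ W, ∀ w ∈ W, B0 u w = 0) ∧ finrank (ZMod 3) W = finrank (ZMod 3) F + 2 ∧ finrank (ZMod 3) F ≤ 1 ∧
      ∀ f ∈ F, f ≠ 0 → f ∈ Iv g → finrank (ZMod 3) (Cv g) = 3 := by
  obtain ⟨T, hT⟩ : ∃ T : V8 →ₗ[F3] V8, ∀ w, w - g.1 *ᵥ w = T w := ⟨1 - toLin' g.1, fun _ => rfl⟩
  have hI : ∀ v, v ∈ Iv g ↔ ∃ u, T u = v := fun v => by simp only [mem_Iv', hT]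
  have tC : ∀ w, w ∈ Cv g ↔ T w = 0 := fun w => by rw [mem_Cv, ← hT, sub_eq_zero, eq_comm]
  have ci : ∀ c ∈ Cv g, ∀ v ∈ Iv g, B0 c v = 0 := fun c hc v hv => B0_Cv_Iv hg.1 hc hv
  have ji : I2 g ≤ Iv g := fun v hv => let ⟨u, _, _, e⟩ := mem_I2.1 hv; mem_Iv.2 ⟨u, e⟩
  simp only [hT] at k1 k2
  have st : ∀ u w, T u ∈ F → T w ∈ F → B0 u (T u) = 0 → k u + B0 u (T w) ≠ 0 → ∃ a : F3, a • u + w ∈ W :=
    fun u w hu hw e n => by
      have m1 : T (u + w) ∈ F := map_add T u w ▸ F.add_mem hu hw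
      have e1 := k1 u w hu hw
      have e2 := k1 u _ hu m1
      rw [map_add, B0_add', e, e1] at e2
      rcases (by decide : ∀ a b c : F3, a + c ≠ 0 → b = 0 ∨ a + b + c = 0 ∨ a + (a + b + c) + (0 + c) = 0)
        _ (k w) _ n with h | h | h
      · exact ⟨0, by rw [zero_smul, zero_add]; exact k2 w hw h⟩
      · exact ⟨1, by rw [one_smul]; exact k2 _ m1 (e1.trans h)⟩
      · exact ⟨2, by rw [two_smul, add_assoc]; exact k2 _ (map_add T u _ ▸ F.add_mem hu m1) (e2.trans h)⟩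
  have d1 : ∀ {X Y : Submodule (ZMod 3) V8}, X ⊓ Y = ⊥ → finrank (ZMod 3) ↥(X ⊔ Y) = finrank (ZMod 3) X + finrank (ZMod 3) Y :=
    fun {X Y} e => by rw [← X.finrank_sup_add_finrank_inf_eq, e, finrank_bot, add_zero]
  by_cases hW : Cv g ≤ W
  · obtain rfl : W = Cv g := le_antisymm wc hW
    have fi : F ≤ Iv g := fun f hf => perp hg.1 fun c hc => by rw [B0_swap, ce f hf c hc, neg_zero]
    have f1 : finrank (ZMod 3) F ≤ 1 := by
      by_contra n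
      have g5 : ∀ u, T u ∈ F → B0 u (T u) = 0 → T u = 0 := fun u hu e => by
        by_contra u0
        have : F ≤ Submodule.span (ZMod 3) {T u} := fun f hf => by
          obtain ⟨w, rfl⟩ := (hI f).1 (fi hf)
          have s : ∀ w, T w ∈ F → k u + B0 u (T w) ≠ 0 → T w ∈ Submodule.span (ZMod 3) {T u} := fun w hw n => by
            obtain ⟨a, ha⟩ := st u w hu hw e n
            rw [tC, map_add, map_smul] at ha
            exact Submodule.mem_span_singleton.2 ⟨-a, by rw [neg_smul, neg_eq_of_add_eq_zero_right ha]⟩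
          by_cases c : k u + B0 u (T w) = 0
          · rw [← neg_mem_iff, ← map_neg]
            refine s _ (map_neg T w ▸ F.neg_mem hf) ?_
            rw [map_neg, B0_neg']
            exact (by decide : ∀ a b : F3, a ≠ 0 → a + b = 0 → a + -b ≠ 0) _ _
              (fun e => u0 ((tC u).1 (k2 u hu e))) c
          · exact s w hf c
        exact n ((Submodule.finrank_mono this).trans (finrank_span_singleton u0).le)
      have f2 : finrank (ZMod 3) F ≤ 2 := by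
        by_contra n'
        obtain ⟨b, hb⟩ := exists_linearIndependent_of_le_finrank (not_le.1 n')
        choose w hw using fun i => (hI _).1 (fi (b i).2)
        obtain ⟨x, y, v, n0, e⟩ := iso3 (B0 (w 0) (b 0)) (B0 (w 1) (b 1)) (B0 (w 2) (b 2))
          (B0 (w 0) (b 1) + B0 (w 1) (b 0)) (B0 (w 0) (b 2) + B0 (w 2) (b 0)) (B0 (w 1) (b 2) + B0 (w 2) (b 1))
        have e' : T (x • w 0 + y • w 1 + v • w 2) = (x • b 0 + y • b 1 + v • b 2 : F) := by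
          simp only [map_add, map_smul, hw]; rfl
        have := g5 (x • w 0 + y • w 1 + v • w 2) (e' ▸ Subtype.property _) (by
          simp only [map_add, map_smul, hw, B0_add, B0_add', B0_smul, B0_smul']
          linear_combination e)
        have l := Fintype.linearIndependent_iff.1 hb ![x, y, v] (by
          rw [Fin.sum_univ_three]; exact Subtype.ext (e'.symm.trans this))
        exact n0 ⟨l 0, l 1, l 2⟩
      have fj : F ⊓ I2 g = ⊥ := eq_bot_iff.2 fun f ⟨hf, hj⟩ => by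
        obtain ⟨u, w, e, rfl⟩ := mem_I2.1 hj
        have e' : g.1 *ᵥ u - u = T (-u) := by rw [← hT, mulVec_neg]; abel
        rw [e'] at hf ⊢
        exact g5 _ hf (by rw [B0_swap, ci _ (fw hf) _ (neg_mem (mem_Iv.2 ⟨w, e⟩)), neg_zero])
      rcases ty hg h3 h1 with ⟨a, b⟩ | ⟨-, b, -⟩ | ⟨a, -, b⟩
      · exact n (eq (fun u hu w hw => ci u hu w (b hw)) (by omega))
      · rw [inf_eq_left.2 ((le_inf fw fi).trans b)] at fj
        rw [fj, finrank_bot] at n; omega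
      · have := Submodule.finrank_mono (sup_le fw jw)
        rw [d1 fj] at this; omega
    rcases ty hg h3 h1 with ⟨a, -⟩ | ⟨a, -⟩ | ⟨a, b, -⟩
    · omega
    · omega
    · exact ⟨fun u hu w hw => ci u hu w (b hw), by omega, f1, fun _ _ _ _ => a⟩
  obtain ⟨c, hc, cw⟩ := SetLike.not_le_iff_exists.1 hW
  have s : ∀ w, T w ∈ F → ∃ a : F3, a • c + w ∈ W := fun w hw => st c w ((tC c).1 hc ▸ F.zero_mem) hw
    (ci c hc _ ((hI _).2 ⟨c, rfl⟩)) (by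
      rw [ci c hc _ ((hI _).2 ⟨w, rfl⟩), add_zero]
      exact fun e => cw (k2 c ((tC c).1 hc ▸ F.zero_mem) e))
  have g3 : ∀ f ∈ F, f ∈ Iv g → f = 0 := fun f hf hi => by
    obtain ⟨w, rfl⟩ := (hI f).1 hi
    obtain ⟨a, ha⟩ := s w hf
    have := (tC _).1 (wc ha)
    rwa [map_add, map_smul, (tC c).1 hc, smul_zero, zero_add] at this
  have dc : finrank (ZMod 3) (Cv g) = finrank (ZMod 3) W + 1 := by
    rw [← Submodule.finrank_sup_span_singleton cw,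
      le_antisymm (sup_le wc ((Submodule.span_singleton_le_iff_mem _ _).2 hc)) fun w hw => ?_]
    obtain ⟨a, ha⟩ := s w ((tC w).1 hw ▸ F.zero_mem)
    rw [← add_sub_cancel_left (a • c) w]
    exact sub_mem (Submodule.mem_sup_left ha) (Submodule.mem_sup_right
      (Submodule.mem_span_singleton.2 ⟨a, rfl⟩))
  have f0 : Cv g ≤ Iv g → finrank (ZMod 3) F = 0 := fun b => by
    rw [show F = ⊥ from eq_bot_iff.2 fun f hf => g3 f hf (b (wc (fw hf))), finrank_bot]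
  refine and_assoc.1 (and_assoc.1 ⟨?_, fun f hf n hi => (n (g3 f hf hi)).elim⟩)
  rcases ty hg h3 h1 with ⟨a, b⟩ | ⟨a, -, b⟩ | ⟨a, b, -⟩
  · have := f0 b; omega
  · have e := d1 (eq_bot_iff.2 fun f (h : f ∈ F ⊓ I2 g) => g3 f h.1 (ji h.2))
    have := Submodule.finrank_mono (sup_le fw jw)
    refine ⟨⟨fun u hu w hw => ?_, by omega⟩, by omega⟩
    rw [← Submodule.eq_of_le_of_finrank_le (sup_le fw jw) (by omega)] at hu
    obtain ⟨f, hf, j, hj, rfl⟩ := Submodule.mem_sup.1 hu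
    rw [B0_add, ce f hf w hw, B0_swap, ci w (wc hw) j (ji hj), neg_zero, add_zero]
  · have := f0 b
    exact ⟨⟨fun u hu w hw => ci u (wc hu) w (b (wc hw)), by omega⟩, by omega⟩

variable {G : Type*} [Group G] {z : G}

/-- The local situation of an element `y` of order three outside `Q`. -/
structure Ch.Lo (C : Ch z) (y : G) (E : Subgroup G) : Prop where
  hy : y ∈ centralizer ({z} : Set G)
  y3 : y ^ 3 = 1
  yQ : y ∉ C.Q
  le : E ≤ C.Q ⊓ centralizer {y}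
  zE : z ∉ E
  ce : ∀ e ∈ E, ∀ d ∈ C.Q ⊓ centralizer {y}, e * d = d * e
  nc : ∀ u ∈ C.Q, u * y * u⁻¹ * y⁻¹ ∈ E → u * y = y * u
  bd : Nat.card ↥(C.Q ⊓ centralizer {y}) ≤ 27 * Nat.card E
  eq : (∀ a ∈ C.Q ⊓ centralizer {y}, ∀ b ∈ C.Q ⊓ centralizer {y}, a * b = b * a) →
    Nat.card ↥(C.Q ⊓ centralizer {y}) = 27 * Nat.card E → Nat.card E ≤ 3

theorem Ch.eq_one_of_π (C : Ch z) {E : Subgroup G} (zE : z ∉ E) {x : G} (hx : x ∈ E) (hQ : x ∈ C.Q)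
    (h : C.π x = 0) : x = 1 := by
  obtain ⟨a, rfl⟩ := C.mem_zp.1 ((C.π_zero x hQ).1 h)
  by_contra n
  have := E.pow_mem hx a.val
  rw [← pow_mul, ← pow_mod_orderOf, C.z3, (by decide : ∀ a : ZMod 3, a ≠ 0 → a.val * a.val % 3 = 1) a
    (fun e => n (by rw [e]; exact pow_zero z)), pow_one] at this
  exact zE this

theorem Ch.Lo.main [Finite G] {C : Ch z} {y : G} {E : Subgroup G} (h : C.Lo y E) :
    (∀ a ∈ C.Q ⊓ centralizer {y}, ∀ b ∈ C.Q ⊓ centralizer {y}, a * b = b * a) ∧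
    Nat.card ↥(C.Q ⊓ centralizer {y}) = 27 * Nat.card E ∧ Nat.card E ≤ 3 ∧
    ∀ e ∈ E, e ≠ 1 → C.π e ∈ Iv (C.ρ ⟨y, h.hy⟩) →
      (finrank (ZMod 3) (Cv (C.ρ ⟨y, h.hy⟩)) = 3 → C.π e ∈ I2 (C.ρ ⟨y, h.hy⟩)) →
      ∃ u ∈ C.Q, u * e = e * u ∧ (u * y * u⁻¹ = e * z * y ∨ u * y * u⁻¹ = e * z⁻¹ * y) := by
  have hg := C.mem ⟨y, h.hy⟩
  have g3 : C.ρ ⟨y, h.hy⟩ ^ 3 = 1 := by rw [← map_pow, ← map_one C.ρ]; exact congrArg _ (Subtype.ext h.y3)
  have g1 : C.ρ ⟨y, h.hy⟩ ≠ 1 := fun e => h.yQ ((C.ker _).1 e)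
  have act : ∀ x ∈ C.Q, C.π (y * x * y⁻¹) = (C.ρ ⟨y, h.hy⟩).1 *ᵥ C.π x := C.ρ_π ⟨y, h.hy⟩
  generalize C.ρ ⟨y, h.hy⟩ = g at *
  have nm := C.nm y h.hy
  have yz : z * y = y * z := (mem_centralizer_singleton_iff.1 h.hy).symm
  have EQ : ∀ e ∈ E, e ∈ C.Q := fun e he => (h.le he).1
  have zc : ∀ (n : ℕ), ∀ x ∈ C.Q, x * z ^ n = z ^ n * x := fun n x hx => Commute.pow_right (C.comm_z hx) n
  have cQ : ∀ u ∈ C.Q, u * y * u⁻¹ * y⁻¹ ∈ C.Q ∧ C.π (u * y * u⁻¹ * y⁻¹) = C.π u - g.1 *ᵥ C.π u :=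
    fun u hu => by
      rw [show u * y * u⁻¹ * y⁻¹ = u * (y * u⁻¹ * y⁻¹) by group, C.π_mul _ hu _ (nm _ (inv_mem hu)),
        act _ (inv_mem hu), C.π_inv hu, mulVec_neg, sub_eq_add_neg]
      exact ⟨mul_mem hu (nm _ (inv_mem hu)), rfl⟩
  have wd : ∀ u ∈ C.Q, ∀ w ∈ C.Q, C.π u = C.π w → u * y * u⁻¹ = w * y * w⁻¹ := fun u hu w hw e => by
    obtain ⟨a, e⟩ := C.mem_zp.1 ((C.π_eq hu hw).1 e)
    rw [eq_mul_of_mul_inv_eq e, ← zc _ w hw, _root_.mul_inv_rev, mul_assoc w, (Commute.pow_left yz _).eq]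
    group
  have ex : ∀ u ∈ C.Q, ∀ e ∈ E, C.π e = C.π u - g.1 *ᵥ C.π u → ∃ k : F3, u * y * u⁻¹ * y⁻¹ = z ^ k.val * e :=
    fun u hu e he e' => by
      obtain ⟨a, k⟩ := C.mem_zp.1 ((C.π_eq (cQ u hu).1 (EQ e he)).1 ((cQ u hu).2.trans e'.symm))
      exact ⟨a, eq_mul_of_mul_inv_eq k⟩
  choose s hs hπ using C.π_surj
  have : ∀ w, ∃ k : F3, w - g.1 *ᵥ w ∈ C.img E → ∃ e ∈ E, s w * y * (s w)⁻¹ * y⁻¹ = z ^ k.val * e := fun w => by
    by_cases c : w - g.1 *ᵥ w ∈ C.img E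
    · obtain ⟨e, he, -, e'⟩ := c
      exact (ex _ (hs w) e he (by rw [hπ, e'])).imp fun k hk _ => ⟨e, he, hk⟩
    · exact ⟨0, fun c' => (c c').elim⟩
  choose k hk using this
  have zp : ∀ n : ℕ, ∀ x ∈ C.Q, C.π (z ^ n * x) = C.π x := fun n x hx => by
    rw [C.π_mul _ (pow_mem C.zQ n) x hx, C.π_pow C.zQ, C.π_z, smul_zero, zero_add]
  have iso : (∀ a ∈ C.Q ⊓ centralizer {y}, ∀ b ∈ C.Q ⊓ centralizer {y}, a * b = b * a) ↔
      ∀ u ∈ C.img (C.Q ⊓ centralizer {y}), ∀ w ∈ C.img (C.Q ⊓ centralizer {y}), B0 u w = 0 :=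
    ⟨by rintro H _ ⟨a, ha, ha', rfl⟩ _ ⟨b, hb, hb', rfl⟩; exact (C.comm_iff ha' hb').1 (H a ha b hb),
      fun H a ha b hb => (C.comm_iff ha.1 hb.1).2 (H _ ⟨a, ha, ha.1, rfl⟩ _ ⟨b, hb, hb.1, rfl⟩)⟩
  have cD := C.card_of_mem (U := C.Q ⊓ centralizer {y}) inf_le_left ⟨C.zQ, mem_centralizer_singleton_iff.2 yz⟩
  have cE := C.card_of_not_mem EQ h.zE
  have bd := h.bd
  have eq := h.eq
  have p1 : ∀ {a b : ℕ}, 3 ^ a ≤ 3 ^ b ↔ a ≤ b := Nat.pow_le_pow_iff_right (by omega)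
  have p2 : ∀ {a b : ℕ}, 3 ^ a = 3 ^ b ↔ a = b := Nat.pow_right_inj (by omega)
  have wc : C.img (C.Q ⊓ centralizer {y}) ≤ Cv g := by
    rintro _ ⟨a, ha, ha', rfl⟩
    rw [mem_Cv, ← act a ha', ← mem_centralizer_singleton_iff.1 ha.2, mul_inv_cancel_right]
  rw [iso, cD, cE, show 27 = 3 ^ 3 from rfl, ← pow_add, p2, show ∀ a, 3 ^ a ≤ 3 ↔ a ≤ 1 from fun _ => p1 (b := 1)]
    at *
  rw [p1] at bd
  obtain ⟨r1, r2, r3, r4⟩ := la hg g3 g1 (F := C.img E) (W := C.img (C.Q ⊓ centralizer {y}))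
    (fun _ ⟨x, hx, k⟩ => ⟨x, h.le hx, k⟩) wc (fun v hv => by
      obtain ⟨_, w, rfl, rfl⟩ := mem_I2.1 hv
      have m1 := nm _ (hs w)
      have m2 := nm _ m1
      have m := mul_mem (hs w) (mul_mem m1 m2)
      have e : C.π (s w * (y * s w * y⁻¹ * (y * (y * s w * y⁻¹) * y⁻¹))) = w + (g.1 *ᵥ w + g.1 *ᵥ g.1 *ᵥ w) := by
        rw [C.π_mul _ (hs w) _ (mul_mem m1 m2), C.π_mul _ m1 _ m2, act _ m1, act _ (hs w), hπ]
      refine ⟨_, ⟨m, mem_centralizer_singleton_iff.2 ?_⟩, m, e.trans ?_⟩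
      · have := (C.comm_iff (hs w) m).2 (by
          rw [e, hπ, B0_add', B0_add', B0_self, ← hg.1 w (g.1 *ᵥ g.1 *ᵥ w), mulVec_mulVec, mulVec_mulVec,
            ← Units.val_mul, ← Units.val_mul, ← pow_three', g3, Units.val_one, one_mulVec, B0_swap (g.1 *ᵥ w),
            add_neg_cancel, add_zero])
        rw [← mul_right_inj (s w), ← mul_assoc, this]
        calc _ = s w * y * s w * y * s w * (y⁻¹ * y⁻¹) * s w * y := by group
          _ = s w * y * s w * y * s w * y * s w * (y⁻¹ * y⁻¹) := by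
            rw [← _root_.mul_inv_rev, inv_eq_of_mul_eq_one_right ((pow_three' y).symm.trans h.y3)]
          _ = _ := by group
      · rw [mulVec_sub]
        ext i
        simp only [Pi.add_apply, Pi.sub_apply]
        exact (by decide : ∀ a b c : F3, a + (b + c) = c - b - (b - a)) _ _ _)
    (by rintro _ ⟨a, ha, ha', rfl⟩ _ ⟨b, hb, hb', rfl⟩; exact (C.comm_iff ha' hb').1 (h.ce a ha b hb))
    k (fun u w hu hw => by
      obtain ⟨a, ha, e1⟩ := hk u hu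
      obtain ⟨b, hb, e2⟩ := hk w hw
      obtain ⟨c, hc, e3⟩ := hk (u + w) (by rw [mulVec_add, add_sub_add_comm]; exact add_mem hu hw)
      have e4 := C.comm _ (hs u) _ (cQ _ (hs w)).1
      rw [(cQ _ (hs w)).2, hπ, hπ, mul_inv_eq_iff_eq_mul] at e4
      rw [wd _ (hs _) _ (mul_mem (hs u) (hs w)) (by rw [C.π_mul _ (hs u) _ (hs w), hπ, hπ, hπ]),
        show s u * s w * y * (s u * s w)⁻¹ * y⁻¹ = s u * (s w * y * (s w)⁻¹ * y⁻¹) * (s u)⁻¹ *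
          (s u * y * (s u)⁻¹ * y⁻¹) by group, e4, e1, e2, mul_assoc, mul_assoc, ← mul_assoc b, zc _ b (EQ b hb),
        mul_assoc (z ^ _) b, ← mul_assoc, ← mul_assoc, ← mul_assoc, ← C.zpow_val, ← C.zpow_val,
        mul_assoc] at e3
      have e5 := congrArg C.π e3
      have m := mul_mem hb ha
      rw [zp _ _ (EQ _ m), zp _ _ (EQ c hc)] at e5
      rw [mul_inv_eq_one.1 (C.eq_one_of_π h.zE (mul_mem m (inv_mem hc)) (EQ _ (mul_mem m (inv_mem hc))) (by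
        rw [C.π_mul _ (EQ _ m) _ (inv_mem (EQ c hc)), C.π_inv (EQ c hc), e5, add_neg_cancel])),
        mul_left_inj] at e3
      rw [← C.zpow_inj e3]; ring)
    (fun w hw e => by
      obtain ⟨a, ha, e1⟩ := hk w hw
      rw [e, ZMod.val_zero, pow_zero, one_mul] at e1
      exact ⟨_, ⟨hs w, mem_centralizer_singleton_iff.2 (h.nc _ (hs w) (e1 ▸ ha))⟩, hs w, hπ w⟩)
    (by omega) fun a b => eq a (by omega)
  refine ⟨r1, by omega, r3, fun e he e1 hi hj => ?_⟩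
  have he' : C.π e ∈ C.img E := ⟨e, he, EQ e he, rfl⟩
  obtain ⟨u, w, a, b⟩ := mem_I2.1 (hj (r4 _ he' (mt (C.eq_one_of_π h.zE he (EQ e he)) e1) hi))
  obtain ⟨c, hc⟩ := ex _ (hs (-u)) e he (by rw [hπ, ← b, mulVec_neg]; abel)
  refine ⟨_, hs (-u), (C.comm_iff (hs _) (EQ e he)).2 ?_, ?_⟩
  · rw [hπ, B0_swap, B0_Cv_Iv hg.1 (wc ⟨e, h.le he, EQ e he, rfl⟩) (neg_mem (mem_Iv.2 ⟨w, a⟩)), neg_zero]
  rw [mul_inv_eq_iff_eq_mul, ← zc _ e (EQ e he)] at hc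
  rcases (by decide : ∀ a : F3, a = 0 ∨ a = 1 ∨ a = 2) c with rfl | rfl | rfl
  · rw [ZMod.val_zero, pow_zero, mul_one] at hc
    rw [h.nc _ (hs _) (by rwa [hc, mul_inv_cancel_right]), mul_inv_cancel_right, right_eq_mul] at hc
    exact (e1 hc).elim
  · exact Or.inl (by rw [hc, ZMod.val_one, pow_one])
  · exact Or.inr (by rw [hc, inv_eq_of_mul_eq_one_left ((pow_succ z 2).symm.trans C.z_cube)]; rfl)

end Cfsg.Lib.Mon.B3
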