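import Cfsg.Agent.Mon.B3C

/-! The normaliser of `R0` and the orthogonal group. -/

set_option autoImplicit false

namespace Cfsg.Lib.Mon.B3

open Subgroup Matrix Cfsg.Lib.LX.O6 Cfsg.Lib.Class.Orth

theorem schur {A : M8} (h : ∀ y, A * (rr y).1 = (rr y).1 * A) : ∃ c : ZMod 3, A = c • (1 : M8) := by
  have k : ∀ a ∈ [nX1, nZ1, nX2, nZ2, nI, nJ], A * dec a = dec a * A := fun a ha => by
    rw [← (nO ha).val]
    obtain ⟨y, e | e⟩ := nR ha <;> rw [e]
    · exact h y
    · rw [Units.val_neg, mul_neg, neg_mul, h]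
  have e := diag_of (A := A) fun a ha => k a (by simp at ha ⊢; tauto)
  have m : ∀ a ∈ [nX1, nZ1, nX2, nZ2, nI, nJ], ∀ i j, dec a i j ≠ 0 → A.diag i = A.diag j := fun a ha i j h0 => by
    have := congrFun (congrFun (k a ha) i) j
    rw [e, mul_diagonal, diagonal_mul, mul_comm] at this
    exact mul_left_cancel₀ h0 this
  have a1 := m nI (by simp) 1 0 (by decide +kernel)
  have a2 := m nX2 (by simp) 2 0 (by decide +kernel)
  have a3 := m nX2 (by simp) 3 1 (by decide +kernel)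
  have a4 := m nX1 (by simp) 4 0 (by decide +kernel)
  have a5 := m nX1 (by simp) 5 1 (by decide +kernel)
  have a6 := m nX1 (by simp) 6 2 (by decide +kernel)
  have a7 := m nX1 (by simp) 7 3 (by decide +kernel)
  refine ⟨A.diag 0, e.trans ?_⟩
  rw [smul_one_eq_diagonal]
  congr 1
  ext i
  fin_cases i
  exacts [rfl, a1, a2, a3.trans a1, a4, a5.trans a1, a6.trans a2, a7.trans (a3.trans a1)]

/-- Equality up to sign. -/
def Pm (a b : G8) : Prop := a = b ∨ a = -b

theorem Pm.symm {a b : G8} (h : Pm a b) : Pm b a := h.imp Eq.symm fun e => by rw [e, neg_neg]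
theorem Pm.trans {a b c : G8} (h : Pm a b) (k : Pm b c) : Pm a c := by
  rcases h with rfl | rfl <;> rcases k with rfl | rfl <;> simp [Pm]
theorem Pm.mul {a b c d : G8} (h : Pm a b) (k : Pm c d) : Pm (a * c) (b * d) := by
  rcases h with rfl | rfl <;> rcases k with rfl | rfl <;> simp [Pm]
theorem Pm.refl (a : G8) : Pm a a := Or.inl rfl
theorem Pm.cj {a b : G8} (h : Pm a b) (g : G8) : Pm (g * a * g⁻¹) (g * b * g⁻¹) :=
  ((Pm.refl g).mul h).mul (Pm.refl _)

theorem ne_neg (a : G8) : a ≠ -a := fun h => by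
  have : (1 : G8) = -1 := mul_left_cancel (a := a) (by rw [mul_one, mul_neg_one]; exact h)
  exact absurd (congrArg (fun x : G8 => x.1 0 0) this) (by decide)

theorem rr_comm {b : Y6} (hb : b ∈ B6) (a : Y6) :
    rr a * rr b = if b6 a b = 0 then rr b * rr a else -(rr b * rr a) := by
  have := (by decide +kernel : ∀ b ∈ E6, ∀ a ∈ R64, mm (rn a) (rn b) =
    if bn a b = 0 then mm (rn b) (rn a) else ng (mm (rn b) (rn a))) _ (List.mem_map_of_mem hb) _ (enc_mem a)
  rw [rr_def, rr_def, gl_mul (rr_ok a) (rr_ok b), gl_mul (rr_ok b) (rr_ok a), this, bn_enc]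
  simp only [val0]
  split_ifs
  · rfl
  · exact gl_ng' (dec_mm _ _ ▸ (rr_ok b).unit.mul (rr_ok a).unit)

theorem mem_R0_of {g : G8} (h : ∀ y, Pm (g * rr y * g⁻¹) (rr y)) : g ∈ R0 := by
  classical
  let l : Y6 → ZMod 2 := fun b => if g * rr b * g⁻¹ = rr b then 0 else 1
  let a : Y6 := ((l m1, l n1), (l m2, l n2), (l m3, l n3))
  have ha : ∀ b ∈ B6, b6 a b = l b := by simp [B6, a, b6, b2, n1, m1, n2, m2, n3, m3]
  have hc : R0 ≤ centralizer {(rr a)⁻¹ * g} := R0_le (mem_centralizer_singleton_iff.2 (by simp)) fun b hb => by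
    have k := rr_comm hb a
    rw [ha b hb] at k
    rw [mem_centralizer_singleton_iff, eq_comm, mul_assoc, inv_mul_eq_iff_eq_mul, ← mul_assoc, k]
    by_cases e : g * rr b * g⁻¹ = rr b
    · rw [if_pos (if_pos e), mul_assoc, mul_inv_cancel_left, mul_inv_eq_iff_eq_mul.1 e]
    · rw [if_neg (by simp [l, e]), neg_mul, mul_assoc, mul_inv_cancel_left, ← neg_mul,
        mul_inv_eq_iff_eq_mul.1 ((h b).resolve_left e)]
  obtain ⟨c, e⟩ := schur (A := ((rr a)⁻¹ * g).1) fun y =>
    congrArg Units.val (mem_centralizer_singleton_iff.1 (hc (rr_mem y))).symm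
  have : (rr a)⁻¹ * g ∈ R0 := by
    rcases (by decide : ∀ c : ZMod 3, c = 0 ∨ c = 1 ∨ c = -1) c with rfl | rfl | rfl
    · exact absurd (e.trans (zero_smul _ _)) (Units.ne_zero _)
    · rw [show (rr a)⁻¹ * g = 1 from Units.ext (e.trans (one_smul _ _))]; exact R0.one_mem
    · rw [show (rr a)⁻¹ * g = -1 from Units.ext (e.trans (by simp))]; exact neg_one_mem
  simpa using R0.mul_mem (rr_mem a) this

theorem exists_F : ∃ F : normalizer (R0 : Set G8) →* W6,
    (∀ g y, g.1 * rr y * g.1⁻¹ = rr ((F g).1 y) ∨ g.1 * rr y * g.1⁻¹ = -rr ((F g).1 y)) ∧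
    ∀ g, F g = 1 ↔ g.1 ∈ R0 := by
  have h : ∀ (g : normalizer (R0 : Set G8)) y, ∃ y', Pm (g.1 * rr y * g.1⁻¹) (rr y') := fun g y =>
    (mem_normalizer_iff.1 g.2 _).1 (rr_mem y)
  choose f hf using h
  have add : ∀ g x y, f g (x + y) = f g x + f g y := fun g x y => by
    have a := ((hf g x).mul (hf g y)).trans (rr_mul _ _)
    rw [conj_mul] at a
    exact rr_inj ((hf g _).symm.trans ((Pm.cj (rr_mul x y) _).symm.trans a))
  have mul : ∀ g h y, f (g * h) y = f g (f h y) := fun g h y => by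
    have a := ((hf h y).cj g.1).trans (hf g _)
    refine rr_inj ((hf _ _).symm.trans ?_)
    convert a using 1
    rw [coe_mul]; group
  have one : ∀ y, f 1 y = y := fun y => rr_inj ((hf _ _).symm.trans (by simpa using Pm.refl _))
  have hq : ∀ g y, q6 (f g y) = q6 y := fun g y => by
    have a : g.1 * (rr y * rr y) * g.1⁻¹ = rr (f g y) * rr (f g y) := by
      rw [← conj_mul]
      rcases hf g y with e | e <;> simp [e]
    rw [rr_sq, rr_sq] at a
    have n := ne_neg 1
    rcases LX.z2_cases (q6 y) with e | e <;> rcases LX.z2_cases (q6 (f g y)) with e' | e' <;>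
      simp_all [eq_comm (b := (1 : G8))]
  let L : normalizer (R0 : Set G8) → Y6 →ₗ[ZMod 2] Y6 := fun g => (AddMonoidHom.mk' (f g) (add g)).toZModLinearMap 2
  let F : normalizer (R0 : Set G8) →* W6 := MonoidHom.mk' (fun g => ⟨LinearEquiv.ofLinear (L g) (L g⁻¹)
    (LinearMap.ext fun y => by change f g (f g⁻¹ y) = y; rw [← mul, mul_inv_cancel, one])
    (LinearMap.ext fun y => by change f g⁻¹ (f g y) = y; rw [← mul, inv_mul_cancel, one]),
    mem_O.2 (hq g)⟩) fun g h => O_ext (mul g h)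
  refine ⟨F, hf, fun g => ⟨fun h => mem_R0_of fun y => ?_, fun h => O_ext fun y => ?_⟩⟩
  · have := hf g y
    rwa [show f g y = y from congrArg (fun x : W6 => x.1 y) h] at this
  · obtain ⟨x, e⟩ := h
    have a : Pm (g.1 * rr y) (rr y * g.1) := (Pm.mul e (Pm.refl _)).trans ((show Pm _ _ from rr_mul x y).trans
      (Pm.symm (((Pm.refl _).mul e).trans (add_comm x y ▸ rr_mul y x))))
    have b := a.mul (Pm.refl g.1⁻¹)
    rw [mul_inv_cancel_right] at b
    exact rr_inj ((hf g y).symm.trans b)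

theorem card_R0 : Nat.card R0 = 128 := by
  rw [← Nat.card_eq_of_bijective (fun p : Bool × Y6 => (⟨if p.1 then rr p.2 else -rr p.2, p.2, by
    cases p.1 <;> simp⟩ : R0)) ⟨?_, ?_⟩]
  · simp
  · rintro ⟨a, x⟩ ⟨b, y⟩ h
    have h := congrArg Subtype.val h
    obtain rfl : x = y := rr_inj (by cases a <;> cases b <;> simp_all [neg_eq_iff_eq_neg])
    have := ne_neg (rr x)
    cases a <;> cases b <;> simp_all [eq_comm (b := rr x)]
  · rintro ⟨_, y, rfl | rfl⟩
    exacts [⟨(true, y), rfl⟩, ⟨(false, y), rfl⟩]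

theorem exists_u : ∃ u ∈ normalizer (R0 : Set G8), u ∉ Sp := by
  have hu : mm (ad en nI) (ng (iv (ad en nI))) = en := by decide +kernel
  refine ⟨gl (ad en nI), mem_norm_R0 fun y hy => ?_, fun b => ?_⟩
  · have := (by decide +kernel : ∀ k ∈ E6, inR (mm (mm (ad en nI) (rn k)) (ng (iv (ad en nI))))) _
      (List.mem_map_of_mem hy)
    rw [rr_def, gl_inv' hu, gl_mul' (unit_of hu) (rr_ok y).unit, gl_mul']
    · exact this.mem
    · exact dec_mm _ _ ▸ (unit_of hu).mul (rr_ok y).unit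
    · exact dec_ng _ ▸ IsUnit.neg (unit_of (b := ng (ad en nI)) (by decide +kernel))
  · have := mem_Sp.1 b (Pi.single 0 1) (Pi.single 1 1)
    rw [gl_val' (unit_of hu)] at this
    exact absurd this (by decide +kernel)

theorem card_Nn : ∃ U : Subgroup W6, U ≠ ⊤ ∧ Nat.card Nn = 128 * Nat.card U := by
  obtain ⟨F, -, hk⟩ := exists_F
  obtain ⟨u, un, hu⟩ := exists_u
  let φ : Nn →* W6 := F.comp (inclusion inf_le_right)
  refine ⟨φ.range, fun h => ?_, ?_⟩
  · obtain ⟨n, e⟩ : F ⟨_, un⟩ ∈ φ.range := h ▸ mem_top _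
    have a : n.1⁻¹ * u ∈ Sp := R0_le_Sp ((hk ((⟨n.1, n.2.2⟩ : normalizer (R0 : Set G8))⁻¹ * ⟨u, un⟩)).1 (by
      rw [map_mul, map_inv, ← e]; exact inv_mul_cancel _))
    exact hu ((Sp.mul_mem_cancel_left (Sp.inv_mem n.2.1)).1 a)
  · have e : φ.ker = R0.subgroupOf Nn := by ext x; exact hk _
    rw [← card_R0, ← index_ker, e, ← Nat.card_congr (subgroupOfEquivOfLe R0_le_Nn).toEquiv, card_mul_index]

theorem card_Nn_dvd : Nat.card Nn ∣ 128 * 51840 := by
  obtain ⟨U, -, e⟩ := card_Nn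
  exact e ▸ card6 ▸ Nat.mul_dvd_mul_left _ (card_subgroup_dvd_card U)

theorem card_Nn_le : Nat.card Nn ≤ 128 * 25920 := by
  obtain ⟨U, h, e⟩ := card_Nn
  have a := U.card_mul_index
  have b : U.index ≠ 1 := fun k => h (index_eq_one.1 k)
  rw [card6] at a
  have c : 2 ≤ U.index := by
    rcases Nat.eq_zero_or_pos U.index with k | k
    · simp [k] at a
    · omega
  rw [e]
  nlinarith

end Cfsg.Lib.Mon.B3
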