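import Cfsg.Agent.Mon.DegW
import Cfsg.Agent.Mon.NPair

/-! Complex representations of the Monster amalgam: triality and the weights of the even codes. -/

set_option autoImplicit false

namespace Cfsg.Lib.Mon.Dg

open Cfsg Cfsg.Lib.Spor Cfsg.Lib.Spor.CK Module

variable {U : Type*} [AddCommGroup U] [Module ℂ U] {ρ : GH →* End ℂ U}

theorem two_dvd_iff {p : ℕ} : 2 ^ 1 ∣ p ↔ pcomm pZ1 p = 0 := by
  rw [pcomm_congr (p := pZ1) (p' := 2 ^ 12) (q' := p) rfl rfl, pcomm_pow (by norm_num)]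
  norm_num
  omega

theorem mapN {g : GH} (hg : g ∈ FxS [pZ1]) {a : ℕ} {v : U} (h : v ∈ Wt ρ 1 a) :
    ρ g v ∈ Wt ρ 1 (φ g a) := map_Wt (fun p hp => by
  rw [two_dvd_iff, ← (mem_FxS_one pZ1_lt).1 (inv_mem hg), pcomm_φ]
  exact two_dvd_iff.1 hp) h

theorem Wt_Ω (a : ℕ) : Wt ρ 1 (a ^^^ 4096) = Wt ρ 1 a := Wt_congr fun p hp => by
  rw [Nat.xor_comm a, Nat.xor_xor_cancel_right, pcomm_comm, ← two_dvd_iff.1 hp]
  exact pcomm_congr rfl rfl

theorem pcomm_diag {p a : ℕ} (hp : 2 ^ 12 ∣ p) (ha : a % 4096 = 0) : pcomm p a = 0 := by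
  rw [pcomm_def, par_and_right _ ha, par_and_right _ (by omega), Nat.xor_self]

theorem Wt_le_W0 {a : ℕ} (ha : Ev a) : Wt ρ 1 a ≤ Wt ρ 12 0 :=
  (Wt_anti (by norm_num) a).trans_eq (Wt_congr fun p hp => pcomm_diag hp (by
    have := ha.2; rw [Nat.xor_zero]; omega))

theorem W0_ap {v : U} (h : v ∈ Wt ρ 12 0) {p : ℕ} (hp : p % 4096 = 0) : ρ (pq p) v = v := by
  rw [h p (by omega), sc_zero, one_smul]

theorem pq_mem_Wt {j a : ℕ} (hj : j ≤ 24) {v : U} (h : v ∈ Wt ρ j a) (q : ℕ) :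
    ρ (pq q) v ∈ Wt ρ j a := fun p hp => by rw [pq_comm_ap (Wt_z hj h), h p hp, map_smul]

theorem pD_sq (v : U) : ρ (pq pD) (ρ (pq pD) v) = v := by
  rw [← ap_mul, pq_mul, show pmul pD pD = 0 by decide, pq_zero, map_one]; rfl

theorem mem_Wt0 {a : ℕ} {v : U} (h : v ∈ Wt ρ 1 a) (hD : ρ (pq pD) v = sc pD a • v) :
    v ∈ Wt ρ 0 a := mem_Wt (by norm_num) (Wt_z (by norm_num) h) fun k _ _ => by
  rcases k with _ | k
  · rw [show 2 ^ 0 = pmul pD (pmul pD 1) by decide, ← pq_mul, ap_mul, h _ (by decide), map_smul, hD,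
      smul_smul, sc_pmul pD (pmul pD 1), mul_comm]
  · exact h _ (pow_dvd_pow 2 (by omega))

theorem sc_pD (a : ℕ) : sc pD (a ^^^ 4096) = -sc pD a := by
  rw [sc_comm, sc_xor, sc_of' (p := 4096) (by decide), sc_comm, mul_neg, mul_one]

theorem split {a : ℕ} {v : U} (h : v ∈ Wt ρ 1 a) : v + sc pD a • ρ (pq pD) v ∈ Wt ρ 0 a ∧
    v - sc pD a • ρ (pq pD) v ∈ Wt ρ 0 (a ^^^ 4096) := by
  have h1 := Submodule.smul_mem _ (sc pD a) (pq_mem_Wt (by norm_num) h pD)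
  refine ⟨mem_Wt0 (add_mem h h1) ?_, mem_Wt0 (Wt_Ω (ρ := ρ) a ▸ sub_mem h h1) ?_⟩
  · rw [map_add, map_smul, pD_sq, smul_add, smul_smul, sc_sq, one_smul, add_comm]
  · rw [map_sub, map_smul, pD_sq, sc_pD, neg_smul, smul_sub, smul_smul, sc_sq, one_smul, neg_sub]

theorem Wt1_le (a : ℕ) : Wt ρ 1 a ≤ Wt ρ 0 a ⊔ Wt ρ 0 (a ^^^ 4096) := fun v h => by
  convert Submodule.smul_mem _ (1 / 2 : ℂ) (Submodule.add_mem_sup (split h).1 (split h).2) using 1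
  module

theorem sep_ev {a b : ℕ} (ha : Ev a) (hb : Ev b) (h : a ≠ b) :
    ∃ p, 2 ^ 1 ∣ p ∧ pcomm p (a ^^^ b) = 1 := by
  have h1 := ha.xor hb
  obtain ⟨k, hk, e⟩ := exists_pcomm (p := a ^^^ b) (by
    rwa [Nat.mod_eq_of_lt h1.1, Ne, Nat.xor_eq_zero_iff])
  refine ⟨_, pow_dvd_pow 2 (Nat.pos_of_ne_zero ?_), e⟩
  rintro rfl
  have := h1.2
  rw [pcomm_pow hk, show 2 ^ ((0 + 12) % 24) = 4096 from rfl] at e
  omega

theorem Est_N {e : GH} (he : e ∈ Est) : e ∈ FxS [pZ1] := NP_fst (NP_Est he)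

theorem cls_idx {i j : ℕ} (hi : i < 24) (hj : j < 24) :
    cls (fourDiff (idxPt i) (idxPt j)) = eB i j := by
  have h : ∀ i < 24, cls (fourDiff (idxPt i) none) = eB i 23 := by
    simp only [fun i => (clsP_pk (sh_fourDiff i)).symm]
    decide +kernel
  have : fourDiff (idxPt i) (idxPt j) = fourDiff (idxPt i) none - fourDiff (idxPt j) none := by
    apply Subtype.ext; simp [fourDiff]
  rw [this, cls_sub, h i hi, h j hj]
  exact (by decide +kernel : ∀ i < 24, ∀ j < 24, eB i 23 ^^^ eB j 23 = eB i j) i hi j hj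

theorem ev_eB {i j : ℕ} (hi : i < 24) (hj : j < 24) : Ev (eB i j) := cls_idx hi hj ▸ ev_fourDiff _ _

theorem φ_eB {e : GH} (he : e ∈ Est) {σ : M24} (h : e.1.2 = permCo0 σ) {c : ℕ} (hc : MP.Rep σ.1 c)
    {i j : ℕ} (hi : i < 24) (hj : j < 24) : φ e (eB i j) = eB (MP.ap c i) (MP.ap c j) := by
  have := φ_cls e (p := eB i j) (by rw [← cls_idx hi hj, cls_mod])
  rwa [h, perm_fourDiff, hc.apply_idxPt hi, hc.apply_idxPt hj, cls_idx (hc.ap_lt hi) (hc.ap_lt hj),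
    Nat.mod_eq_of_lt ((ev_eB hi hj).φ he).1] at this

theorem exists_Est_eB {i j : ℕ} (hi : i < j) (hj : j < 24) : ∃ e ∈ Est, φ e pT = eB i j := by
  obtain ⟨σ, hσ, e1, e2⟩ := MP.M24_trans_two (a := idxPt 0) (b := idxPt 1) (a' := idxPt i)
    (b' := idxPt j) (by decide) (by rw [Ne, MP.idxPt_inj (by omega) hj]; omega)
  obtain ⟨e, he, h⟩ := exists_Est ⟨σ, hσ⟩
  have r := MP.rep_pack σ
  exact ⟨e, he, (φ_eB he h r (i := 0) (j := 1) (by norm_num) (by norm_num)).trans (by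
    rw [(r.apply_idxPt_eq_iff (by norm_num) (by omega)).1 e1,
      (r.apply_idxPt_eq_iff (by norm_num) hj).1 e2])⟩

theorem exists_Est_pow {k : ℕ} (hk : k < 12) (h0 : k ≠ 0) :
    ∃ e ∈ Est, (φ e pXb ^^^ 2 ^ k) % 4096 = 0 := by
  obtain ⟨a1, a2, a3⟩ := (by decide +kernel : ∀ k < 12, k ≠ 0 → isGolay (GB.getD k 0) = true ∧
    popc (GB.getD k 0) = 8 ∧ clsP (pack fun i => 2 * ind (maskSet (GB.getD k 0)) i) % 2 ^ 12 =
      2 ^ k % 2 ^ 12) k hk h0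
  obtain ⟨σ, hσ⟩ := exists_Est_octad a1 a2
  obtain ⟨e, he, he'⟩ := exists_Est σ
  have e1 := φ_cls e (p := pXb) (x := twoInd (SporChar.Co.gw 5279)) (by
    rw [cls_twoInd (by decide +kernel) (by decide +kernel)]; decide +kernel)
  rw [he', perm_twoInd, hσ, cls_twoInd a1 a2] at e1
  refine ⟨e, he, (Nat.xor_mod_two_pow (n := 12)).trans (Nat.xor_eq_zero_iff.2 ?_)⟩
  rw [← a3, ← e1]
  omega

theorem Zb_eq : el rZb = el rYb * pq pXb ∨ el rZb = pq pZ * (el rYb * pq pXb) :=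
  ext_φ (by rw [mul_snd, pq_snd, mul_one, Yb_snd, Zb_snd]) fun k hk => by
    rw [φ_mul, φ_pq _ (pow_lt_25 hk), raw_Zb.1 k hk, raw_Yb.φ_eq' (φ_pq _ (pow_lt_25 hk) ▸ φ_lt _ _)]
    revert k
    decide +kernel

/-- A representation of the amalgam. -/
structure Tri (ρ : GH →* End ℂ U) (t : End ℂ U) : Prop where
  np : ∀ {n m : GH}, (n, m) ∈ NP → ∀ v, ρ n (t v) = t (ρ m v)
  t3 : ∀ v, t (t (t v)) = v
  dl : ∀ v, t (ρ (pq pD) (t v)) = ρ (pq pD) v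

theorem tri_of {X : Type*} [Group X] (A : Am X) (σ : X →* End ℂ U) :
    Tri (σ.comp A.ι) (σ A.τ) := by
  have k : ∀ x y v, σ x (σ y v) = σ (x * y) v := fun x y v => by rw [map_mul]; rfl
  refine ⟨fun h v => ?_, fun v => ?_, fun v => ?_⟩
  · simp only [MonoidHom.comp_apply, k]
    rw [← A.hN _ h, mul_assoc, mul_inv_cancel_left]
  · rw [k, k, ← pow_three', A.h3, map_one]; rfl
  · simp only [MonoidHom.comp_apply, k]
    have := A.h2
    rw [sq, ← mul_assoc, mul_eq_one_iff_eq_inv, ← map_inv, inv_eq_of_mul_eq_one_left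
      (show pq pD * pq pD = 1 by rw [pq_mul]; exact pq_zero)] at this
    rw [← mul_assoc, this]

namespace Tri

variable {t : End ℂ U} (h : Tri ρ t)
include h

theorem cc : ρ cc = 1 := LinearMap.ext fun v => by
  rw [← h.t3 v, h.np NP_cc1, map_one]; rfl

theorem inj {v : U} (e : t v = 0) : v = 0 := by rw [← h.t3 v, e, map_zero, map_zero]

theorem est {e : GH} (he : e ∈ Est) (v : U) : ρ e (t v) = t (ρ e v) := h.np (NP_Est he) v

theorem W0 {v : U} (hv : v ∈ Wt ρ 12 0) : t v ∈ Wt ρ 12 0 := by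
  have k : ∀ p < 2 ^ 25, p % 4096 = 0 → ρ (pq p) (t v) = t v := fun p hp e => by
    rw [h.np (NP_diag p hp e), W0_ap hv ((alp_mod p).trans e)]
  refine mem_Wt (by norm_num) (k _ (by decide) rfl) fun j hj hj' => ?_
  rw [sc_zero, one_smul, k _ (pow_lt_25 hj) (Nat.mod_eq_zero_of_dvd (pow_dvd_pow 2 hj'))]

theorem xyz {a b : ℕ} (ha : Ev a) (hb : Ev b) {v : U} (h1 : t v ∈ Wt ρ 1 a) (h2 : v ∈ Wt ρ 1 b) :
    t (t v) ∈ Wt ρ 1 (a ^^^ b) := by
  have base : ∀ {a b v}, t v ∈ Wt ρ 1 a → v ∈ Wt ρ 1 b →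
      ρ (pq pXb) (t (t v)) = (sc pXb a * sc pXb b) • t (t v) := fun {a b v} h1 h2 => by
    have : ρ (el rYb * pq pXb) (t v) = (sc pXb a * sc pXb b) • t v := by
      rw [ap_mul, h1 _ (by decide), map_smul, h.np NP_yb, h2 _ (by decide), map_smul, smul_smul]
    rw [h.np NP_xb, ← map_smul, ← this]
    rcases Zb_eq with e | e <;> rw [e]
    rw [← pZ_comm, ap_mul, Wt_z (by norm_num) h1]
  have w := h.W0 (Wt_le_W0 ha h1)
  have d : (a ^^^ b) % 4096 = 0 := by have := (ha.xor hb).2; omega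
  refine mem_Wt (by norm_num) (Wt_z (by norm_num) w) fun k hk hk' => ?_
  by_cases h12 : 12 ≤ k
  · rw [w _ (pow_dvd_pow 2 h12), sc_zero, sc_of (pcomm_diag (pow_dvd_pow 2 h12) d)]
  obtain ⟨e, he, e1⟩ := exists_Est_pow (not_le.1 h12) (by omega)
  have he' : e⁻¹ ∈ Est := EstS.inv_mem he
  have e2 := congrArg (ρ e) (base (h.est he' v ▸ mapN (Est_N he') h1) (mapN (Est_N he') h2))
  rw [← h.est he', ← h.est he', map_smul, ← ap_mul, ← ap_mul, ← ap_mul, conj_pq, mul_inv_cancel,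
    map_one, End.one_apply, ← sc_φ e, ← sc_φ e pXb, φ_φ_inv e ha.lt, φ_φ_inv e hb.lt, sc_comm,
    sc_comm _ b, ← sc_xor, sc_comm] at e2
  have e3 : 2 ^ k % 2 ^ 24 = pmul (φ e pXb) (φ e pXb ^^^ 2 ^ k) % 2 ^ 24 := by
    rw [pmul_mod, ← Nat.xor_mod_two_pow, Nat.xor_xor_cancel_left]
  rw [sc_congr e3 rfl, sc_pmul, sc_of (pcomm_diag (Nat.dvd_of_mod_eq_zero e1) d), mul_one, ← e2]
  rcases pq_eq_or_of_mod e3 with e | e <;> rw [e]
  · rw [← pq_mul, ap_mul, W0_ap w e1]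
  · rw [← pZ_comm, ap_mul, W0_ap w rfl, ← pq_mul, ap_mul, W0_ap w e1]

/-- A vector of weight `(b, ·, 0)` with non-zero `b` is not an eigenvector of `x_δ`. -/
theorem eq_zero {b : ℕ} (hb : Ev b) (h0 : b ≠ 0) {v : U} (h1 : v ∈ Wt ρ 1 b) (h2 : t v ∈ Wt ρ 0 0)
    {c : ℂ} (e : v = c • ρ (pq pD) v) : v = 0 := by
  have h3 : t (t v) ∈ Wt ρ 0 0 := by
    rw [e, map_smul, map_smul, ← h.dl, h2 _ (one_dvd _), sc_zero, one_smul, h.t3]
    exact Submodule.smul_mem _ _ h2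
  have h4 := h.xyz hb (by decide : Ev 0) (by rwa [h.t3]) (Wt_anti (by norm_num) _ h3)
  obtain ⟨p, e1, e2⟩ := sep_ev hb (by decide : Ev 0) h0
  rw [h.t3] at h4
  exact h.inj (eq_zero_of_Wt h4 (Wt_anti (by norm_num) _ h2) e1 (by rwa [Nat.xor_zero]))

theorem le_W0 {v : U} (hv : t v ∈ Wt ρ 12 0) : v ∈ Wt ρ 12 0 := h.t3 v ▸ h.W0 (h.W0 hv)

omit h in
/-- Weight decomposition for the even codes. -/
theorem le_of_ev {S T : Submodule ℂ U} (hS : S ≤ Wt ρ 12 0)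
    (inv : ∀ p, 2 ^ 1 ∣ p → ∀ v ∈ S, ρ (pq p) v ∈ S)
    (hT : ∀ a, Ev a → ∀ v ∈ S, v ∈ Wt ρ 1 a → v ∈ T) : S ≤ T :=
  le_of_Wt (j := 1) (by norm_num) (fun v hv => W0_ap (hS hv) rfl) inv fun a ha e v hv hv' => by
    by_cases h0 : v = 0
    · exact h0 ▸ T.zero_mem
    refine hT a ⟨ha, ?_⟩ v hv hv'
    have e1 := e 0 (by norm_num)
    rw [pcomm_pow (by norm_num), show 2 ^ ((0 + 12) % 24) = 4096 from rfl] at e1
    have e2 := eq_zero_of_par (z := a) fun j hj => by_contra fun e2 => h0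
      (eq_zero_of_Wt (Wt_anti (by norm_num) _ hv') (hS hv) (pow_dvd_pow 2 (Nat.le_add_right 12 j))
        (by
          have := par_lt (a &&& 2 ^ j)
          rw [par_and_pow _ hj] at e2 this
          rw [Nat.xor_zero, pcomm_pow (by omega), show (12 + j + 12) % 24 = j by omega]
          omega))
    omega

theorem z_eq_one (e : ∀ v, ρ (pq pZ) v = v → ρ (pq pZ1) v = v) : ρ (pq pZ) = 1 := by
  have e1 : ∀ v, ρ (pq pZ2) v = v → ρ (pq pZ) v = v := fun v hv => by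
    have := e (t v) (by rw [h.np NP_z, hv])
    rw [h.np NP_z1, ← sub_eq_zero, ← map_sub] at this
    exact sub_eq_zero.1 (h.inj this)
  have e2 : ∀ v, ρ (pq pZ1) v = v → ρ (pq pZ2) v = v := fun v hv => by
    have := e1 (t v) (by rw [h.np NP_z2, hv])
    rw [h.np NP_z, ← sub_eq_zero, ← map_sub] at this
    exact sub_eq_zero.1 (h.inj this)
  have k : ∀ p q v, ρ (pq p) (ρ (pq q) v) = ρ (pq (pmul p q)) v := fun p q v => by
    rw [← ap_mul, pq_mul]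
  have o : ∀ v, ρ (pq 0) v = v := fun v => by rw [pq_zero, map_one]; rfl
  ext v
  have a1 := e1 _ (e2 (v + ρ (pq pZ1) v) (by rw [map_add, k, add_comm]; exact congrArg (· + _) (o v)))
  have a2 := e1 (v + ρ (pq pZ2) v) (by rw [map_add, k, add_comm]; exact congrArg (· + _) (o v))
  simp only [map_add, k] at a1 a2
  change _ + ρ (pq pZ2) v = _ at a1
  change _ + ρ (pq pZ1) v = _ at a2
  change _ = v
  linear_combination (norm := module) (1 / 2 : ℂ) • (a1 + a2)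

end Tri

end Cfsg.Lib.Mon.Dg
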