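import Cfsg.Agent.Mon.HStruct
import Cfsg.Agent.Mon.VLab

/-! Complex representations of `GH`: weight spaces of the Pauli group. -/

set_option autoImplicit false

namespace Cfsg.Lib.Mon.Dg

open Cfsg Cfsg.Lib.Spor Cfsg.Lib.Spor.CK Module

variable {U : Type*} [AddCommGroup U] [Module ℂ U]

theorem eq_zero_of_sep {ι : Type*} [DecidableEq ι] {W : ι → Submodule ℂ U} {i : ι} (s : Finset ι)
    (sep : ∀ j ∈ s, ∃ (T : End ℂ U) (c : ι → ℂ), (∀ k ∈ insert i s, ∀ v ∈ W k, T v = c k • v) ∧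
      c i ≠ c j) : ∀ v ∈ W i, v ∈ s.sup W → v = 0 := by
  induction s using Finset.induction_on with
  | empty => simp
  | insert j s _ ih =>
    intro v h1 h2
    obtain ⟨T, c, hT, hc⟩ := sep j (by simp)
    rw [Finset.sup_insert, Submodule.mem_sup] at h2
    obtain ⟨w, hw, u, hu, e⟩ := h2
    have h3 : s.sup W ≤ (s.sup W).comap (T - c j • 1) := Finset.sup_le fun k hk x hx => by
      simp only [Submodule.mem_comap, LinearMap.sub_apply, hT k (by simp [hk]) x hx,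
        LinearMap.smul_apply, End.one_apply, ← sub_smul]
      exact Submodule.smul_mem _ _ (Finset.le_sup (f := W) hk hx)
    have h4 : (T - c j • (1 : End ℂ U)) u = (c i - c j) • v := by
      rw [eq_sub_of_add_eq' e]
      simp [hT i (by simp) v h1, hT j (by simp) w hw, sub_smul, smul_sub]
    exact (smul_eq_zero.1 (ih (fun k hk => (sep k (by simp [hk])).imp fun T => Exists.imp fun c h =>
      ⟨fun l hl => h.1 l (by simp at hl ⊢; tauto), h.2⟩) _ (Submodule.smul_mem _ _ h1)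
      (h4 ▸ h3 hu))).resolve_left (sub_ne_zero.2 hc)

theorem sum_finrank_le [FiniteDimensional ℂ U] {ι : Type*} (s : Finset ι) (W : ι → Submodule ℂ U)
    {M : Submodule ℂ U} (hM : ∀ i ∈ s, W i ≤ M) (sep : ∀ i ∈ s, ∀ j ∈ s, i ≠ j →
      ∃ (T : End ℂ U) (c : ι → ℂ), (∀ k ∈ s, ∀ v ∈ W k, T v = c k • v) ∧ c i ≠ c j) :
    ∑ i ∈ s, finrank ℂ (W i) ≤ finrank ℂ M := by
  classical
  refine le_trans ?_ (Submodule.finrank_mono (Finset.sup_le hM))
  clear hM
  induction s using Finset.induction_on with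
  | empty => simp
  | insert i s hi ih =>
    have := Submodule.finrank_sup_add_finrank_inf_eq (W i) (s.sup W)
    rw [(Submodule.disjoint_def.2 (eq_zero_of_sep s fun j hj => sep i (by simp) j (by simp [hj])
      fun e => hi (e ▸ hj))).eq_bot, finrank_bot, add_zero] at this
    rw [Finset.sum_insert hi, Finset.sup_insert, this]
    exact Nat.add_le_add_left (ih fun a ha b hb e => (sep a (by simp [ha]) b (by simp [hb]) e).imp
      fun T => Exists.imp fun c h => ⟨fun l hl => h.1 l (by simp [hl]), h.2⟩) _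

theorem finrank_sup_le [FiniteDimensional ℂ U] {ι : Type*} (s : Finset ι) (W : ι → Submodule ℂ U) :
    finrank ℂ (s.sup W :) ≤ ∑ i ∈ s, finrank ℂ (W i) := by
  classical
  induction s using Finset.induction_on with
  | empty => simp
  | insert i s hi ih =>
    rw [Finset.sum_insert hi, Finset.sup_insert]
    exact (Submodule.finrank_add_le_finrank_add_finrank _ _).trans (Nat.add_le_add_left ih _)

theorem le_of_eig {S T : Submodule ℂ U} (A : ℕ → End ℂ U) (n : ℕ)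
    (inv : ∀ k < n, ∀ v ∈ S, A k v ∈ S) (sq : ∀ k < n, ∀ v ∈ S, A k (A k v) = v)
    (cm : ∀ k < n, ∀ l < n, ∀ v ∈ S, A k (A l v) = A l (A k v))
    (h : ∀ f : ℕ → ℕ, (∀ k, f k < 2) → ∀ v ∈ S, (∀ k < n, A k v = (-1 : ℂ) ^ f k • v) → v ∈ T) :
    S ≤ T := by
  induction n with
  | zero => exact fun v hv => h (fun _ => 0) (fun _ => by norm_num) v hv (by simp)
  | succ n ih =>
    refine ih (fun k hk => inv k (by omega)) (fun k hk => sq k (by omega))
      (fun k hk l hl => cm k (by omega) l (by omega)) fun f hf v hv e => ?_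
    have k : ∀ b < 2, v + (-1 : ℂ) ^ b • A n v ∈ T := fun b hb =>
      h (Function.update f n b) (fun k => by rw [Function.update_apply]; split_ifs; exacts [hb, hf k])
        _ (S.add_mem hv (S.smul_mem _ (inv n (by omega) v hv))) fun k hk => by
        rcases Nat.lt_succ_iff_lt_or_eq.1 hk with hk' | rfl
        · rw [Function.update_of_ne hk'.ne, map_add, map_smul, cm k hk n (by omega) v hv, e k hk',
            map_smul, smul_add, smul_comm]
        · rw [Function.update_self, map_add, map_smul, sq k hk v hv, smul_add, smul_smul, ← mul_pow]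
          simp [add_comm]
    have := T.smul_mem (1 / 2 : ℂ) (T.add_mem (k 0 (by norm_num)) (k 1 (by norm_num)))
    convert this using 1
    module

/-- The sign of the commutator of two codes. -/
noncomputable def sc (p a : ℕ) : ℂ := (-1) ^ pcomm p a

theorem sc_comm (p a : ℕ) : sc p a = sc a p := by rw [sc, sc, pcomm_comm]

theorem sc_congr {p q a b : ℕ} (h : p % 2 ^ 24 = q % 2 ^ 24) (h' : a % 2 ^ 24 = b % 2 ^ 24) :
    sc p a = sc q b := congrArg _ (pcomm_congr h h')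

theorem sc_xor (p q a : ℕ) : sc (p ^^^ q) a = sc p a * sc q a := by
  have h1 := pcomm_lt p a
  have h2 := pcomm_lt q a
  rw [sc, sc, sc, pcomm_xor]
  generalize pcomm p a = x, pcomm q a = y at *
  interval_cases x <;> interval_cases y <;> simp

theorem sc_pmul (p q a : ℕ) : sc (pmul p q) a = sc p a * sc q a := by
  rw [← sc_xor]
  exact sc_congr (by rw [pmul_mod, Nat.xor_mod_two_pow]) rfl

theorem sc_of {p a : ℕ} (h : pcomm p a = 0) : sc p a = 1 := by rw [sc, h, pow_zero]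

theorem sc_of' {p a : ℕ} (h : pcomm p a = 1) : sc p a = -1 := by rw [sc, h, pow_one]

theorem sc_zero (p : ℕ) : sc p 0 = 1 := sc_of (pcomm_comm _ _ ▸ pcomm_zero p)

theorem sc_sq (p a : ℕ) : sc p a * sc p a = 1 := by rw [← sc_xor, Nat.xor_self, sc_comm, sc_zero]

theorem sc_φ (g : GH) (p a : ℕ) : sc (φ g p) (φ g a) = sc p a := congrArg _ (pcomm_φ g p a)

theorem sc_ne {p a b : ℕ} (h : pcomm p (a ^^^ b) = 1) : sc p a ≠ sc p b := fun e => by
  have := sc_of' h
  rw [sc_comm, sc_xor, sc_comm a, e, sc_comm b, sc_sq] at this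
  norm_num at this

variable (ρ : GH →* End ℂ U)

/-- The weight space of the codes divisible by `2 ^ j`. -/
def Wt (j a : ℕ) : Submodule ℂ U where
  carrier := {v | ∀ p, 2 ^ j ∣ p → ρ (pq p) v = sc p a • v}
  zero_mem' p _ := by simp
  add_mem' hv hw p h := by rw [map_add, hv p h, hw p h, smul_add]
  smul_mem' c v hv p h := by rw [map_smul, hv p h, smul_comm]

variable {ρ}

theorem ap_mul (g h : GH) (v : U) : ρ (g * h) v = ρ g (ρ h v) := by rw [map_mul]; rfl

theorem Wt_z {j a : ℕ} (hj : j ≤ 24) {v : U} (h : v ∈ Wt ρ j a) : ρ (pq pZ) v = v := by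
  rw [h pZ (pow_dvd_pow 2 hj), sc_congr (p := pZ) (q := 0) (b := a) rfl rfl, sc_comm, sc_zero, one_smul]

theorem Wt_congr {j a b : ℕ} (h : ∀ p, 2 ^ j ∣ p → pcomm p (a ^^^ b) = 0) : Wt ρ j a = Wt ρ j b := by
  ext v
  refine forall₂_congr fun p hp => ?_
  have := sc_of (h p hp)
  rw [sc_comm, sc_xor, sc_comm a, sc_comm b] at this
  rw [← mul_one (sc p a), ← sc_sq p b, ← mul_assoc, this, one_mul]

theorem Wt_mod {j a b : ℕ} (h : a % 2 ^ 24 = b % 2 ^ 24) : Wt ρ j a = Wt ρ j b :=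
  Wt_congr fun p _ => by rw [pcomm_xor_right, pcomm_congr rfl h, Nat.xor_self]

theorem Wt_anti {i j : ℕ} (h : i ≤ j) (a : ℕ) : Wt ρ i a ≤ Wt ρ j a :=
  fun _ hv p hp => hv p ((pow_dvd_pow 2 h).trans hp)

theorem mem_Wt {j a : ℕ} (hj : j ≤ 24) {v : U} (hz : ρ (pq pZ) v = v)
    (h : ∀ k < 24, j ≤ k → ρ (pq (2 ^ k)) v = sc (2 ^ k) a • v) : v ∈ Wt ρ j a := by
  have k : ∀ p < 2 ^ 24, 2 ^ j ∣ p → ρ (pq p) v = sc p a • v :=
    bit_induction (fun _ => by rw [pq_zero, map_one, sc_comm, sc_zero, one_smul]; rfl)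
      fun k hk x hx ih e => by
      have hk' : j ≤ k := by
        by_contra hn
        have h1 : 2 ^ (k + 1) ≤ 2 ^ j := Nat.pow_le_pow_right (by norm_num) (by omega)
        have := Nat.le_of_dvd (by positivity) e
        omega
      rw [← pmul_add_pow hk hx, ← pq_mul, ap_mul, h k hk hk', map_smul,
        ih ((Nat.dvd_add_left (pow_dvd_pow 2 hk')).1 e), smul_smul, sc_pmul, mul_comm]
  intro p hp
  have := k _ (Nat.mod_lt p (by norm_num)) ((Nat.dvd_mod_iff (pow_dvd_pow 2 hj)).2 hp)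
  rw [sc_congr (q := p) (Nat.mod_mod _ _) rfl] at this
  rcases pq_eq_or_of_mod (Nat.mod_mod p (2 ^ 24)).symm with e | e <;> rw [e]
  · exact this
  · rw [← pZ_comm, ap_mul, hz, this]

theorem map_Wt {j a : ℕ} {g : GH} (hg : ∀ p, 2 ^ j ∣ p → 2 ^ j ∣ φ g⁻¹ p) {v : U}
    (h : v ∈ Wt ρ j a) : ρ g v ∈ Wt ρ j (φ g a) := fun p hp => by
  rw [← ap_mul, ← mul_inv_cancel_left g (pq p * g), ← mul_assoc g⁻¹, mul_pq, inv_mul_cancel_right,
    ap_mul, h _ (hg p hp), map_smul, ← sc_φ g, ← φ_mul, mul_inv_cancel, φ_one',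
    sc_congr (q := p) (by omega) rfl]

theorem pq_comm_ap {v : U} (hz : ρ (pq pZ) v = v) (p q : ℕ) :
    ρ (pq p) (ρ (pq q) v) = ρ (pq q) (ρ (pq p) v) := by
  have := pcomm_lt p q
  rw [← ap_mul, ← ap_mul]
  obtain e | e : pcomm p q = 0 ∨ pcomm p q = 1 := by omega
  · rw [pq_comm_iff.2 e]
  · rw [pq_anti e, ← pZ_comm, ap_mul, hz]

/-- Decomposition into weight spaces. -/
theorem le_of_Wt {S T : Submodule ℂ U} {j : ℕ} (hj : j ≤ 24) (hz : ∀ v ∈ S, ρ (pq pZ) v = v)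
    (inv : ∀ p, 2 ^ j ∣ p → ∀ v ∈ S, ρ (pq p) v ∈ S)
    (h : ∀ a < 2 ^ 24, (∀ k < j, pcomm (2 ^ k) a = 0) → ∀ v ∈ S, v ∈ Wt ρ j a → v ∈ T) : S ≤ T := by
  refine le_of_eig (fun k => ρ (pq (2 ^ (j + k)))) (24 - j)
    (fun k _ => inv _ (pow_dvd_pow 2 (by omega))) (fun k hk v _ => ?_)
    (fun k _ l _ v hv => pq_comm_ap (hz v hv) _ _) fun f hf v hv e => ?_
  · rw [← ap_mul, pq_mul, (by decide : ∀ k < 24, pmul (2 ^ k) (2 ^ k) = 0) _ (by omega), pq_zero,
      map_one]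
    rfl
  · obtain ⟨a, ha, e2⟩ := exists_pcomm_eq (fun k => if k < j then 0 else f (k - j)) fun k => by
      split_ifs; exacts [by norm_num, hf _]
    refine h a ha (fun k hk => by rw [pcomm_comm, e2 k (by omega), if_pos hk]) v hv
      (mem_Wt hj (hz v hv) fun k hk hk' => ?_)
    have := e (k - j) (by omega)
    rw [Nat.add_sub_cancel' hk'] at this
    rw [this, sc, pcomm_comm, e2 k hk, if_neg (by omega)]

theorem eq_zero_of_Wt {j a b p : ℕ} {v : U} (ha : v ∈ Wt ρ j a) (hb : v ∈ Wt ρ j b) (hp : 2 ^ j ∣ p)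
    (h : pcomm p (a ^^^ b) = 1) : v = 0 := by
  have := (ha p hp).symm.trans (hb p hp)
  rw [← sub_eq_zero, ← sub_smul, smul_eq_zero, sub_eq_zero] at this
  exact this.resolve_left (sc_ne h)

variable [FiniteDimensional ℂ U]

theorem finrank_le_of_map {S T : Submodule ℂ U} {f g : End ℂ U} (h : g * f = 1)
    (e : ∀ v ∈ S, f v ∈ T) : finrank ℂ S ≤ finrank ℂ T :=
  LinearMap.finrank_le_finrank_of_injective (f := f.restrict e) fun _ _ e' => Subtype.ext
    (Function.LeftInverse.injective (g := g) (LinearMap.congr_fun h) (congrArg Subtype.val e'))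

theorem finrank_Wt (g : GH) (a : ℕ) : finrank ℂ (Wt ρ 0 (φ g a)) = finrank ℂ (Wt ρ 0 a) := by
  have k : ∀ (g : GH) a, finrank ℂ (Wt ρ 0 a) ≤ finrank ℂ (Wt ρ 0 (φ g a)) := fun g a =>
    finrank_le_of_map (g := ρ g⁻¹) (by rw [← map_mul, inv_mul_cancel, map_one])
      fun v => map_Wt fun _ _ => one_dvd _
  refine le_antisymm ((k g⁻¹ _).trans_eq ?_) (k g a)
  rw [← φ_mul, inv_mul_cancel, φ_one', Wt_mod (b := a) (by omega)]

theorem finrank_Wt_cls (b : Co0) (x : leechLattice) :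
    finrank ℂ (Wt ρ 0 (cls (b • x))) = finrank ℂ (Wt ρ 0 (cls x)) := by
  obtain ⟨g, rfl⟩ := pr_surj b
  rw [← finrank_Wt g (cls x), Wt_mod ((φ_pr g (cls_mod x)).trans (cls_mod _).symm)]

theorem sum_Wt_le {ι : Type*} (s : Finset ι) {j : ℕ} (c : ι → ℕ) (W : ι → Submodule ℂ U)
    {M : Submodule ℂ U} (hM : ∀ i ∈ s, W i ≤ M) (hW : ∀ i ∈ s, W i ≤ Wt ρ j (c i))
    (sep : ∀ i ∈ s, ∀ k ∈ s, i ≠ k → ∃ p, 2 ^ j ∣ p ∧ pcomm p (c i ^^^ c k) = 1) :
    ∑ i ∈ s, finrank ℂ (W i) ≤ finrank ℂ M :=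
  sum_finrank_le s W hM fun i hi k hk e =>
    let ⟨p, h1, h2⟩ := sep i hi k hk e
    ⟨ρ (pq p), fun l => sc p (c l), fun l hl _ hv => hW l hl hv p h1, sc_ne h2⟩

theorem sep_zero {a b : ℕ} (h : a % 2 ^ 24 ≠ b % 2 ^ 24) : ∃ p, 2 ^ 0 ∣ p ∧ pcomm p (a ^^^ b) = 1 :=
  let ⟨_, _, e⟩ := exists_pcomm (p := a ^^^ b) (by rwa [Nat.xor_mod_two_pow, Ne, Nat.xor_eq_zero_iff])
  ⟨_, one_dvd _, e⟩

theorem mul_le_of_orbit {x : leechLattice} (s : Finset ℕ) {M : Submodule ℂ U}
    (hs : ∀ a ∈ s, Wt ρ 0 a ≤ M ∧ ∃ b : Co0, a = cls (b • x)) :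
    s.card * finrank ℂ (Wt ρ 0 (cls x)) ≤ finrank ℂ M := by
  refine le_of_eq_of_le ?_ (sum_Wt_le (ρ := ρ) s id (Wt ρ 0) (fun a ha => (hs a ha).1)
    (fun _ _ => le_rfl) fun a ha c hc e => ?_)
  · refine (Finset.sum_const_nat fun a ha => ?_).symm
    obtain ⟨b, e⟩ := (hs a ha).2
    rw [e, finrank_Wt_cls]
  · obtain ⟨b, e1⟩ := (hs a ha).2
    obtain ⟨d, e2⟩ := (hs c hc).2
    exact sep_zero (by rwa [id, id, e1, e2, cls_mod, cls_mod, ← e1, ← e2])

/-- Only the short weights occur in small representations. -/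
theorem Wt_eq_bot (hn : finrank ℂ U < 196883) {a : ℕ} (h0 : a % 2 ^ 24 ≠ 0) (h1 : ¬ IsSh a) :
    Wt ρ 0 a = ⊥ := by
  classical
  obtain ⟨x, hx⟩ := cls_surj (Nat.mod_lt a (Nat.two_pow_pos 24))
  obtain ⟨y, hc, hy⟩ := exists_short x
  rw [hc.cls_eq] at hx
  rw [Wt_mod (b := cls y) (by rw [cls_mod, hx]), ← Submodule.finrank_eq_zero]
  have key : ∀ S : Set leechLattice, 48 * 196883 ≤ S.ncard → (∀ w ∈ S, ∃ b : Co0, b • y = w) →
      (∀ w ∈ S, {v | v ∈ S ∧ Cg w v}.ncard ≤ 48) → finrank ℂ (Wt ρ 0 (cls y)) = 0 := by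
    intro S e1 e2 e3
    lift S to Finset leechLattice using Set.finite_of_ncard_ne_zero (by omega)
    have h2 := Finset.card_le_mul_card_image (f := cls) S 48 fun c hc => by
      obtain ⟨w, hw, e⟩ := Finset.mem_image.1 hc
      refine le_of_eq_of_le ?_ (e3 w hw)
      rw [← Set.ncard_coe_finset, ← e, Finset.coe_filter]
      exact congrArg _ (Set.ext fun v => and_congr_right fun _ => eq_comm.trans cls_eq_iff)
    have h3 := mul_le_of_orbit (ρ := ρ) (x := y) (S.image cls) (M := ⊤) fun c hc => by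
      obtain ⟨w, hw, e⟩ := Finset.mem_image.1 hc
      obtain ⟨b, e'⟩ := e2 w hw
      exact ⟨le_top, b, by rw [e', e]⟩
    rw [Set.ncard_coe_finset] at e1
    rw [finrank_top] at h3
    by_contra h4
    have := Nat.le_mul_of_pos_right (S.image cls).card (Nat.pos_of_ne_zero h4)
    omega
  rcases hy with e | e | e | e
  · exact absurd (by rw [← hx, e, cls_zero]) h0
  · exact absurd ⟨y, e, hx.symm⟩ h1
  · refine key {w | nm w = 48} (le_of_le_of_eq (by norm_num)
      ((ncard_leech_subtype fun x => sqNorm x = 48).trans ncard_leech_48).symm)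
      (fun w => trans_48 e) fun w hw => ?_
    have hw' : nm w = 48 := hw
    refine (Set.ncard_le_ncard (t := {w, -w}) (fun v hv => ?_) (Set.toFinite _)).trans
      ((Set.ncard_insert_le _ _).trans (by simp))
    have hv' : nm v = 48 := hv.1
    exact (hv.2.short (by omega) (by omega)).imp_right fun h => h.resolve_right (by omega)
  · exact key {w | nm w = 64} (by rw [ncard_64]; norm_num) (fun w => trans_64 e)
      fun w hw => (ncard_cg_64 hw).le

omit [FiniteDimensional ℂ U] in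
/-- `H` fixes the weight line of `t`. -/
theorem fix_line (hc : ρ cc = 1) (h : finrank ℂ (Wt ρ 0 pT) = 1) {g : GH} (hg : g ∈ FxS [pT])
    {v : U} (hv : v ∈ Wt ρ 0 pT) : ρ g v = v := by
  have k : ∀ g ∈ FxS [pT], ∀ v ∈ Wt ρ 0 pT, ∃ c : ℂ, ρ g v = c • v := fun g hg v hv => by
    by_cases h0 : v = 0
    · exact ⟨0, by simp [h0]⟩
    · have := map_Wt (g := g) (fun _ _ => one_dvd _) hv
      rw [(mem_FxS_one pT_lt).1 hg] at this
      obtain ⟨c, e⟩ := exists_smul_eq_of_finrank_eq_one h (x := ⟨v, hv⟩)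
        (fun e => h0 (congrArg Subtype.val e)) ⟨_, this⟩
      exact ⟨c, (congrArg Subtype.val e).symm⟩
  let K : Subgroup (FxS [pT]) :=
    { carrier := {g | ρ g v = v}
      one_mem' := by simp
      mul_mem' := fun {a b} ha hb => (ap_mul _ _ _).trans ((congrArg _ hb).trans ha)
      inv_mem' := fun {a} ha => by
        change ρ a.1⁻¹ v = v
        rw [← show ρ a v = v from ha, ← ap_mul, inv_mul_cancel, map_one]
        exact ha.symm }
  refine (show ⊤ ≤ K from commutator_H ▸ sup_le (Subgroup.commutator_le.2 fun a _ b _ => ?_)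
    (Subgroup.zpowers_le.2 (LinearMap.congr_fun hc v))) (Subgroup.mem_top ⟨g, hg⟩)
  obtain ⟨c, e⟩ := k _ a⁻¹.2 v hv
  obtain ⟨d, e'⟩ := k _ b⁻¹.2 v hv
  have : ρ (a⁻¹ * b⁻¹ : FxS [pT]) v = ρ (b⁻¹ * a⁻¹ : FxS [pT]) v := by
    simp only [Subgroup.coe_mul, ap_mul, e, e', map_smul, smul_comm c]
  change ρ (a * b * a⁻¹ * b⁻¹ : FxS [pT]) v = v
  rw [mul_assoc, Subgroup.coe_mul, ap_mul, this, ← ap_mul, ← Subgroup.coe_mul]
  simp

end Cfsg.Lib.Mon.Dg
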