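import Cfsg.Agent.Mon.MFin
import Cfsg.Agent.Mon.ClS
import Cfsg.Agent.Mon.PairM
import Cfsg.Agent.Mon.PairE

/-! The Monster programme: the orders of the products of two transpositions. -/

set_option autoImplicit false

namespace Cfsg.Lib.Mon

namespace Cert

open Cfsg.Lib.Spor.Bulk Cfsg.Lib.Mon.Kit Cfsg.Lib.Mon.Bmp

variable {X : Type*} [Group X]

theorem Px.All.cl {P : Par} {D : Px P X} {i n : ℕ} {G Y Y' T : List ℕ}
    (hn : (Orb D.C.S.L D.a).ncard = n + 1) (hT : D.C.StL i T) (h : Bmp.Cl G Y' (n + 1))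
    (h1 : ∀ y ∈ Y, D.Pr i y) (h2 : ∀ y ∈ Y, y ∈ Orb D.C.S.L D.a) (e : chkG T G = true)
    (e' : Y' = Y) : D.All i :=
  Px.All.of hn n.succ_ne_zero h1 h2 (e' ▸ h _ (chkG_spec hT e))

variable (A : Am X)

theorem hnM : (Orb (pxM A).C.S.L (pxM A).a).ncard = 196559 + 1 :=
  (congrArg Set.ncard orb_pT).trans ncard_Sh25

theorem hnE : (Orb (pxE A).C.S.L (pxE A).a).ncard = 9199 + 1 := ncard_orb_H_pT2

theorem allM : ∀ i < nM.length, (pxM A).All i := by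
  intro i hi
  change i < 12 at hi
  interval_cases i
  · exact .cl (hnM A) (CM.hpool0 _ (hxM A)) clSM_0 (CM.hsd0 A) (CM.osd0 A)
      (by decide +kernel) rfl
  · exact .cl (hnM A) (CM.hpool1 _ (hxM A)) clSM_1 (CM.hsd1 A) (CM.osd1 A)
      (by decide +kernel) rfl
  · exact .cl (hnM A) (CM.hpool2 _ (hxM A)) clSM_2 (CM.hsd2 A) (CM.osd2 A)
      (by decide +kernel) rfl
  · exact .cl (hnM A) (CM.hpool3 _ (hxM A)) clSM_3 (CM.hsd3 A) (CM.osd3 A)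
      (by decide +kernel) rfl
  · exact .cl (hnM A) (CM.hpool4 _ (hxM A)) clSM_4 (CM.hsd4 A) (CM.osd4 A)
      (by decide +kernel) rfl
  · exact .cl (hnM A) (CM.hpool5 _ (hxM A)) clSM_5 (CM.hsd5 A) (CM.osd5 A)
      (by decide +kernel) rfl
  · exact .cl (hnM A) (CM.hpool6 _ (hxM A)) clSM_6 (CM.hsd6 A) (CM.osd6 A)
      (by decide +kernel) rfl
  · exact .cl (hnM A) (CM.hpool7 _ (hxM A)) clSM_7 (CM.hsd7 A) (CM.osd7 A)
      (by decide +kernel) rfl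
  · exact .cl (hnM A) (CM.hpool8 _ (hxM A)) clSM_8 (CM.hsd8 A) (CM.osd8 A)
      (by decide +kernel) rfl
  · exact .cl (hnM A) (CM.hpool9 _ (hxM A)) clSM_9 (CM.hsd9 A) (CM.osd9 A)
      (by decide +kernel) rfl
  · exact .cl (hnM A) (CM.hpool10 _ (hxM A)) clSM_10 (CM.hsd10 A) (CM.osd10 A)
      (by decide +kernel) rfl
  · exact .cl (hnM A) (CM.hpool11 _ (hxM A)) clSM_11 (CM.hsd11 A) (CM.osd11 A)
      (by decide +kernel) rfl

theorem allE : ∀ i < nE.length, (pxE A).All i := by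
  intro i hi
  change i < 5 at hi
  interval_cases i
  · exact .cl (hnE A) (CE.hpool0 _ (hxE A)) clSE_0 (CE.hsd0 A) (CE.osd0 A)
      (by decide +kernel) rfl
  · exact .cl (hnE A) (CE.hpool1 _ (hxE A)) clSE_1 (CE.hsd1 A) (CE.osd1 A)
      (by decide +kernel) rfl
  · exact .cl (hnE A) (CE.hpool2 _ (hxE A)) clSE_2 (CE.hsd2 A) (CE.osd2 A)
      (by decide +kernel) rfl
  · exact .cl (hnE A) (CE.hpool3 _ (hxE A)) clSE_3 (CE.hsd3 A) (CE.osd3 A)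
      (by decide +kernel) rfl
  · exact .cl (hnE A) (CE.hpool4 _ (hxE A)) clSE_4 (CE.hsd4 A) (CE.osd4 A)
      (by decide +kernel) rfl

end Cert

open Cert

theorem gdM (x : 𝕄) : Gd AM 0 6 (AM.ι (pq pT) * (x⁻¹ * AM.ι (pq pT) * x)) :=
  Px.good (D := pxM AM) ((certs AM).resM (π := 𝕄.subtype) model AM_ι AM_τ le_rfl
    (Am.H1_le model AM_ι AM_τ)) (allM AM) ((AM.sys_M_top AM_gen).ge (Subgroup.mem_top x))

theorem gdE {x : 𝕄} (hx : x ∈ AM.H1) : Gd AM pT 4 (AM.ι (pq pT2) * (x⁻¹ * AM.ι (pq pT2) * x)) :=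
  Px.good (D := pxE AM) ((certs AM).resE (π := 𝕄.subtype) model AM_ι AM_τ le_rfl
    (Am.E1_le model AM_ι AM_τ)) (allE AM) ((AM.sys_M_H coe_H).ge hx)

theorem six_transp (x : 𝕄) : orderOf (AM.ι (pq pT) * (x * AM.ι (pq pT) * x⁻¹)) ≤ 6 := by
  obtain ⟨k, k1, k2, h⟩ := gdM x⁻¹
  rw [pq_zero, map_one, or_self, inv_inv] at h
  exact (orderOf_le_of_pow_eq_one k1 h).trans k2

theorem four_transp (x : AM.Baby) : orderOf (AM.κ t2H * (x * AM.κ t2H * x⁻¹)) ≤ 4 := by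
  obtain ⟨x, rfl⟩ := QuotientGroup.mk_surjective x
  obtain ⟨k, k1, k2, h⟩ := gdE (inv_mem x.2)
  refine (orderOf_le_of_pow_eq_one k1 ?_).trans k2
  refine ((Am.mk_eq_mk (x := 1) (y := (AM.ιH t2H * (x * AM.ιH t2H * x⁻¹)) ^ k)).2 ?_).symm
  rw [inv_inv] at h
  exact h.imp Subtype.ext fun e => e.trans (one_mul _).symm

end Cfsg.Lib.Mon
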