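import Cfsg.Agent.Mon.PairKit
import Cfsg.Agent.Mon.MCent2

/-! The Monster programme: the pair computations at the levels M and E. -/

set_option autoImplicit false

namespace Cfsg.Lib.Mon.Cert

open Subgroup Cfsg.Lib.Spor.Bulk Cfsg.Lib.Mon.Kit

variable {X : Type*} [Group X] (A : Am X)

/-- `x ^ k ∈ {1, ι (pq b)}` for some `0 < k ≤ n`. -/
def Gd (b n : ℕ) (x : X) : Prop := ∃ k, 0 < k ∧ k ≤ n ∧ (x ^ k = 1 ∨ x ^ k = A.ι (pq b))

/-- the test for `Gd` -/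
noncomputable def gd (b n k c : ℕ) : Bool := band (band (Nat.blt 0 k) (Nat.ble k n))
  ((fun x => seq x (Bool.rec (ceq x (cp b)) true (ceq x cone))) (cpow c k))

theorem gd_spec {b n k c : ℕ} {g : GH} (h : R c g) (e : gd b n k c = true) : Gd A b n (A.ι g) := by
  simp only [gd, band_eq, Bool.and_eq_true, Nat.blt_eq, Nat.ble_eq, seq_eq] at e
  have l : ∀ {d : ℕ} {x : GH}, R d x → ceq (cpow c k) d = true → A.ι g ^ k = A.ι x := fun h' e => by
    rcases (R_cpow h k).ceq h' e with e | e <;> rw [← map_pow, e]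
    rw [map_mul, A.ι_cc, one_mul]
  refine ⟨k, e.1.1, e.1.2, ?_⟩
  cases e1 : ceq (cpow c k) cone
  · exact Or.inr (l (R_cp' b) (by simpa [e1] using e.2))
  · exact Or.inl ((l R_one e1).trans (map_one _))

theorem Gd.conj {b n : ℕ} {x y : X} (hy : y ∈ centralizer {A.ι (pq b)}) (h : Gd A b n x) :
    Gd A b n (y * x * y⁻¹) := by
  obtain ⟨k, k1, k2, h⟩ := h
  refine ⟨k, k1, k2, h.imp (fun e => ?_) fun e => ?_⟩ <;> rw [conj_pow, e]
  · rw [mul_one, mul_inv_cancel]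
  · rw [mem_centralizer_singleton_iff.1 hy, mul_inv_cancel_right]

/-- level M -/
noncomputable def pxM : Px PM X where
  C := cxM A A.H1 fun _ h => A.ι_mem_H1 (coe_H.le h)
  A := A
  a := pT
  Good := Gd A 0 6
  hι _ := rfl
  hτ := rfl
  hK := Am.H1_le_cent
  hG _ _ _ := Gd.conj A (mem_centralizer_singleton_iff.2 (by simp [pq_zero]))

/-- level E -/
noncomputable def pxE : Px PE X where
  C := cxE A A.E1 fun _ h => A.ι_mem_E1 (coe_P1.le h)
  A := A
  a := pT2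
  Good := Gd A pT 4
  hι _ := rfl
  hτ := rfl
  hK := Am.E1_le_cent
  hG _ hy _ := Gd.conj A (Am.H1_le_cent ((A.sys_M_H coe_H).le hy))

theorem hxM : HM (pxM A).C := hM A _ (fun _ h => A.ι_mem_H1 (coe_H.le h)) A.τ_mem_H1

theorem hxE : HE (pxE A).C := hE A _ (fun _ h => A.ι_mem_E1 (coe_P1.le h)) A.τ_mem_E1

theorem gkM (k : ℕ) : (pxM A).Gk (gd 0 6 k) := fun _ _ => gd_spec A

theorem gkE (k : ℕ) : (pxE A).Gk (gd pT 4 k) := fun _ _ => gd_spec A

theorem PrL.cons {Q : ℕ → Prop} {a : ℕ} {l : List ℕ} (h : Q a) (t : ∀ y ∈ l, Q y) :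
    ∀ y ∈ a :: l, Q y := List.forall_mem_cons.2 ⟨h, t⟩

theorem PrL.nil {Q : ℕ → Prop} : ∀ y ∈ ([] : List ℕ), Q y := fun _ h => absurd h List.not_mem_nil

end Cfsg.Lib.Mon.Cert
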