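import Cfsg.Agent.Mon.CertAm

/-!
The Monster programme: products of two conjugates of an involution `a = ι (pq a)`.  `Pr i p` says
that the product of `ι (pq p)` with the axis of type `i` has the property `Good`.
-/

set_option autoImplicit false

namespace Cfsg.Lib.Mon.Cert

open Cfsg.Lib.Spor.Bulk Cfsg.Lib.Mon.Kit

/-- `φ (s_{w₁} ⋯ s_{w_k}) p` -/
noncomputable def wap (T w : List ℕ) (p : ℕ) : ℕ := List.rec p (fun k _ r => cap (nth cone T k) r) w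

theorem wap_spec {Γ : Subgroup GH} {T : List ℕ} (hT : ∀ c ∈ T, ∃ s, R c s ∧ s ∈ Γ) (w : List ℕ)
    {p : ℕ} (hp : p < 2 ^ 25) : ∃ s ∈ Γ, wap T w p = φ s p := by
  induction w with
  | nil => exact ⟨1, Γ.one_mem, (φ_one hp).symm⟩
  | cons k w ih =>
    obtain ⟨s, h1, h2⟩ := ih
    obtain ⟨t, h3, h4⟩ := nth_all (Q := fun c => ∃ s, R c s ∧ s ∈ Γ) ⟨1, R_one, Γ.one_mem⟩ hT k
    exact ⟨t * s, Γ.mul_mem h4 h1, by rw [φ_mul, ← h2, ← h3.cap_eq']; rfl⟩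

/-- `c ^ k` -/
noncomputable def cpow (c k : ℕ) : ℕ := seq c (Nat.rec cone (fun _ r => cmul r c) k)

theorem R_cpow {c : ℕ} {g : GH} (h : R c g) (k : ℕ) : R (cpow c k) (g ^ k) := by
  rw [cpow, seq_eq]
  induction k with
  | zero => exact pow_zero g ▸ R_one
  | succ k ih => exact pow_succ g k ▸ ih.mul h

/-- The data of a pair computation. -/
structure Px (P : Par) (X : Type*) [Group X] where
  C : Cx P X
  A : Am X
  a : ℕ
  Good : X → Prop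
  hι : ∀ g, C.S.ι g = A.ι g
  hτ : C.S.τ = A.τ
  hK : C.K ≤ Subgroup.centralizer {A.ι (pq a)}
  hG : ∀ y ∈ C.S.M, ∀ x, Good x → Good (y * x * y⁻¹)

namespace Px

variable {P : Par} {X : Type*} [Group X] (D : Px P X)

/-- the axis of type `i` -/
noncomputable def ax (i : ℕ) : X := (D.C.U i)⁻¹ * D.A.ι (pq D.a) * D.C.U i

/-- the product with the axis of type `i` is good -/
def Pr (i p : ℕ) : Prop := p < 2 ^ 25 ∧ D.Good (D.A.ι (pq p) * D.ax i)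

/-- the axis of type `i` lies in `G` -/
def Ax (i c : ℕ) : Prop := ∃ g, R c g ∧ D.ax i = D.A.ι g

/-- a sound test -/
def Gk (k : ℕ → Bool) : Prop := ∀ c g, R c g → k c = true → D.Good (D.A.ι g)

variable {D}

theorem conj_eq {x y : X} (h : x * y⁻¹ ∈ D.C.K) :
    x⁻¹ * D.A.ι (pq D.a) * x = y⁻¹ * D.A.ι (pq D.a) * y := by
  rw [← mul_inv_cancel_right (D.A.ι (pq D.a)) (x * y⁻¹),
    ← Subgroup.mem_centralizer_singleton_iff.1 (D.hK h)]
  nth_rw 2 [Subgroup.mem_centralizer_singleton_iff.1 (D.hK h)]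
  group

theorem Pr.act {i p : ℕ} (h : D.Pr i p) {s : GH} (hs : s ∈ D.C.S.stab D.C.K (D.C.U i)) :
    D.Pr i (φ s p) := by
  refine ⟨φ_lt _ _, ?_⟩
  convert D.hG _ (Sys.ι_mem_M hs.1) _ h.2 using 1
  rw [ax, ← conj_pq, map_mul, map_mul, map_inv]
  nth_rw 2 [← conj_eq hs.2]
  rw [D.hι]
  group

theorem ax_eq {i j : ℕ} {g h : GH} (F : D.C.S.Fact D.C.K (D.C.U i) g (D.C.U j) h) :
    D.ax j = D.A.ι h * (D.A.τ⁻¹ * ((D.A.ι g)⁻¹ * D.ax i * D.A.ι g) * D.A.τ) * (D.A.ι h)⁻¹ := by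
  have := conj_eq F.2.2
  rw [D.hι, D.hι, D.hτ] at this
  rw [eq_mul_inv_iff_mul_eq, ← inv_mul_eq_iff_eq_mul, ax, ax]
  convert this.symm using 1 <;> group

theorem Pr.of_fact {i j p : ℕ} {g h m : GH} (F : D.C.S.Fact D.C.K (D.C.U i) g (D.C.U j) h)
    (e : (pq p, m) ∈ NP) (k : D.Good (D.A.ι (h * m * h⁻¹) * D.ax j)) : D.Pr i (φ g p) := by
  refine ⟨φ_lt _ _, ?_⟩
  convert D.hG _ (mul_mem (mul_mem (Sys.ι_mem_M F.1) Sys.τ_mem_M) (inv_mem (Sys.ι_mem_M F.2.1))) _ k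
    using 1
  rw [ax_eq F, ← conj_pq, map_mul, map_mul, map_mul, map_mul, map_inv, map_inv,
    ← show _ = D.A.ι m from D.A.hN _ e, D.hι, D.hι, D.hτ]
  group

theorem Pr.link {i g j h y q p : ℕ} {T : List ℕ} (F : D.C.Fa i g j h) (k : D.Pr j y)
    (hT : D.C.StL j T) (w : List ℕ) (e : band (band (Nat.blt q 33554432) (Nat.beq (q % 4096) 0))
      (band (Nat.beq (wap T w y) (cap h (alp q))) (Nat.beq (cap g q) p)) = true) : D.Pr i p := by
  simp only [band_eq, Bool.and_eq_true, Nat.blt_eq, Nat.beq_eq] at e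
  obtain ⟨g', h', h1, h2, h3⟩ := F
  obtain ⟨s, s1, s2⟩ := wap_spec hT w k.1
  rw [← e.2.2, h1.cap_eq']
  refine Pr.of_fact h3 (NP_diag q e.1.1 e.1.2) ?_
  rw [conj_pq, ← h2.cap_eq', ← e.2.1, s2]
  exact (k.act s1).2

theorem Pr.root {j c p : ℕ} {k : ℕ → Bool} (hk : D.Gk k) (a : D.Ax j c)
    (e : band (Nat.blt p 33554432) (k (cPmul p c)) = true) : D.Pr j p := by
  simp only [band_eq, Bool.and_eq_true, Nat.blt_eq] at e
  obtain ⟨x, h1, h2⟩ := a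
  exact ⟨e.1, by rw [h2, ← map_mul]; exact hk _ _ (h1.Pmul' p) e.2⟩

theorem Pr.root' {i g j h c q p : ℕ} {k : ℕ → Bool} (hk : D.Gk k) (F : D.C.Fa i g j h)
    (a : D.Ax j c) (e : band (Nat.beq (cap g q) p)
      (thK (cp q) fun m => k (cmul (cmul (cmul h m) (cinv h)) c)) = true) : D.Pr i p := by
  simp only [band_eq, Bool.and_eq_true, Nat.beq_eq] at e
  obtain ⟨g', h', h1, h2, h3⟩ := F
  obtain ⟨x, a1, a2⟩ := a
  obtain ⟨d, m, m1, m2, m3⟩ := (R_cp' q).thK e.2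
  rw [← e.1, h1.cap_eq']
  refine Pr.of_fact h3 m2 ?_
  rw [a2, ← map_mul]
  exact hk _ _ (((h2.mul m1).mul h2.inv).mul a1) m3

theorem Ax.zero : D.Ax 0 (cp D.a) := ⟨_, R_cp' _, by rw [ax, Cx.U_zero, inv_one, one_mul, mul_one]⟩

theorem Ax.step {i g j h c d : ℕ} (F : D.C.Fa i g j h) (a : D.Ax i c)
    (e : thK (cmul (cmul (cinv g) c) g) (fun m => same (cmul (cmul h m) (cinv h)) d) = true) :
    D.Ax j d := by
  obtain ⟨g', h', h1, h2, h3⟩ := F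
  obtain ⟨x, a1, a2⟩ := a
  obtain ⟨_, m, m1, m2, m3⟩ := ((h1.inv.mul a1).mul h1).thK e
  obtain ⟨y, y1, y2⟩ := same_spec ((h2.mul m1).mul h2.inv) m3
  refine ⟨y, y1, ?_⟩
  rw [ax_eq h3, a2, ← map_inv, ← map_mul, ← map_mul, show _ = D.A.ι m from D.A.hN _ m2, ← map_inv,
    ← map_mul, ← map_mul]
  rcases y2 with rfl | rfl
  · rfl
  · rw [map_mul _ cc, D.A.ι_cc, one_mul]

/-- the seeds `Y` lie in the orbit of `a` -/
noncomputable def chkO (T : List ℕ) (a : ℕ) (Y : List ℕ) : List (List ℕ) → Bool :=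
  List.rec (fun _ => true) (fun y _ r W => List.rec false
    (fun w W' _ => band (Nat.beq (wap T w a) y) (r W')) W) Y

theorem chkO_spec {Γ : Subgroup GH} {T : List ℕ} (hT : ∀ c ∈ T, ∃ s, R c s ∧ s ∈ Γ) {a : ℕ}
    (ha : a < 2 ^ 25) {Y : List ℕ} {W : List (List ℕ)} (e : chkO T a Y W = true) :
    ∀ y ∈ Y, y ∈ Orb Γ a := by
  induction Y generalizing W with
  | nil => exact fun _ h => absurd h List.not_mem_nil
  | cons y Y ih =>
    cases W with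
    | nil => exact absurd e (by simp [chkO])
    | cons w W =>
      have e' : band (Nat.beq (wap T w a) y) (chkO T a Y W) = true := e
      rw [band_eq, Bool.and_eq_true, Nat.beq_eq] at e'
      obtain ⟨s, s1, s2⟩ := wap_spec hT w ha
      exact List.forall_mem_cons.2 ⟨⟨s, s1, s2.symm.trans e'.1⟩, ih e'.2⟩

variable (D) in
/-- all products with the axis of type `i` are good -/
def All (i : ℕ) : Prop := ∀ p ∈ Orb D.C.S.L D.a, D.Pr i p

theorem All.of {i n : ℕ} {Y : List ℕ} (hn : (Orb D.C.S.L D.a).ncard = n) (h0 : n ≠ 0)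
    (h1 : ∀ y ∈ Y, D.Pr i y) (h2 : ∀ y ∈ Y, y ∈ Orb D.C.S.L D.a)
    (h3 : ∃ E : Finset ℕ, E.card = n ∧
      ∀ p ∈ E, p < 2 ^ 25 ∧ ∃ s ∈ D.C.S.stab D.C.K (D.C.U i), ∃ y ∈ Y, p = φ s y) : D.All i := by
  obtain ⟨E, e1, e2⟩ := h3
  have : (E : Set ℕ) = Orb D.C.S.L D.a := Set.eq_of_subset_of_ncard_le (fun p hp => by
    obtain ⟨-, s, hs, y, hy, rfl⟩ := e2 p hp
    obtain ⟨g, g1, rfl⟩ := h2 y hy
    exact ⟨s * g, mul_mem hs.1 g1, φ_mul _ _ _⟩) (by rw [hn, Set.ncard_coe_finset, e1])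
    (Set.finite_of_ncard_ne_zero (hn ▸ h0))
  intro p hp
  obtain ⟨-, s, hs, y, hy, rfl⟩ := e2 p (this.ge hp)
  exact (h1 y hy).act hs

theorem good {r : ℕ} {n : ℕ → ℕ} (hr : D.C.S.Res D.C.K D.C.U r n) (h : ∀ i < r, D.All i) {x : X}
    (hx : x ∈ D.C.S.M) : D.Good (D.A.ι (pq D.a) * (x⁻¹ * D.A.ι (pq D.a) * x)) := by
  obtain ⟨i, hi, g, g1, g2⟩ := hr.cover x hx
  convert D.hG _ (inv_mem (Sys.ι_mem_M g1)) _ (h i hi _ ⟨g, g1, rfl⟩).2 using 1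
  rw [conj_eq g2, ← conj_pq, map_mul, map_mul, map_inv, D.hι, ax]
  group

end Px

end Cfsg.Lib.Mon.Cert
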